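import Mathlib
import Cfsg.Agent.Lib.Helper5.ZJ

/-!
# An axiomatic ZJ-theorem (helper26)

A variant of the generic ZJ-argument of `Cfsg.Agent.Lib.Helper5.ZJ.zj_normal`, in which the
family of abelian subgroups is not assumed to be conjugation invariant; instead, for every
subgroup `Q` of the Sylow subgroup containing a member of the family, the normalizer of `Q`
normalizes the intersection of the members contained in `Q`.
-/

set_option autoImplicit false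

namespace Cfsg.Agent.Lib.Helper26

open Cfsg Cfsg.Agent.Lib.Helper5.ZJ

variable {G : Type*} [Group G]

theorem zj_normal_ax [Finite G] {p : ℕ} [Fact p.Prime]
    (hc : Subgroup.centralizer (pCore p G : Set G) ≤ pCore p G)
    (hst : ∀ (P : Subgroup G) [P.Normal], IsPGroup p P → IsPStableOn p P)
    (S : Sylow p G) (𝒜 : Set (Subgroup G)) (hA1 : 𝒜.Nonempty)
    (hA2 : ∀ A ∈ 𝒜, A ≤ (S : Subgroup G))
    (hA3 : ∀ A ∈ 𝒜, ∀ x ∈ A, ∀ y ∈ A, x * y = y * x)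
    (hA4 : ∀ Q : Subgroup G, Q ≤ (S : Subgroup G) → (∃ A ∈ 𝒜, A ≤ Q) →
      ∀ g ∈ Subgroup.normalizer (Q : Set G), ∀ x ∈ sInf {A | A ∈ 𝒜 ∧ A ≤ Q},
        g * x * g⁻¹ ∈ sInf {A | A ∈ 𝒜 ∧ A ≤ Q})
    (hA5 : ∀ B : Subgroup G, B ≤ (S : Subgroup G) →
      (∀ x ∈ B, ∀ y ∈ B, ∀ z ∈ B, (x * y * x⁻¹ * y⁻¹) * z = z * (x * y * x⁻¹ * y⁻¹)) →
      (∃ U ∈ 𝒜, (∀ x ∈ B, ∀ y ∈ B, x * y * x⁻¹ * y⁻¹ ∈ U) ∧ ¬ B ≤ U) →
      ∃ A ∈ 𝒜, ¬ B ≤ A ∧ ∀ b ∈ B, ∀ a ∈ A, b * a * b⁻¹ ∈ A) :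
    (sInf 𝒜).Normal := by
  obtain ⟨Z, hZ⟩ : ∃ Z : Subgroup G, Z = sInf 𝒜 := ⟨_, rfl⟩
  rw [← hZ]
  have hQn : (pCore p G).Normal := Cfsg.Agent.Lib.Helper5.ZJ.pCore_normal p
  have hQp : IsPGroup p (pCore p G) := Cfsg.Agent.Lib.Helper5.ZJ.pCore_isPGroup p
  have hQS : pCore p G ≤ (S : Subgroup G) := hQp.le_sylow_of_normal S
  have hZA : ∀ A ∈ 𝒜, Z ≤ A := fun A hA => by rw [hZ]; exact sInf_le hA
  obtain ⟨A₀, hA₀⟩ := hA1
  have hZS : Z ≤ (S : Subgroup G) := (hZA A₀ hA₀).trans (hA2 A₀ hA₀)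
  have hZc : ∀ x ∈ Z, ∀ y ∈ Z, x * y = y * x := fun x hx y hy =>
    hA3 A₀ hA₀ x (hZA A₀ hA₀ hx) y (hZA A₀ hA₀ hy)
  have hset : {A | A ∈ 𝒜 ∧ A ≤ (S : Subgroup G)} = 𝒜 := by
    ext A
    exact ⟨fun h => h.1, fun h => ⟨h, hA2 A h⟩⟩
  have hSZ : ∀ s ∈ (S : Subgroup G), ∀ z ∈ Z, s * z * s⁻¹ ∈ Z := by
    intro s hs z hz
    have h1 := hA4 (S : Subgroup G) le_rfl ⟨A₀, hA₀, hA2 A₀ hA₀⟩ s (Subgroup.le_normalizer hs) z
    rw [hset, ← hZ] at h1
    exact h1 hz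
  have hZQ : Z ≤ pCore p G := by
    intro a ha
    have hq := quad_of_normalizes (pCore p G) Z (fun q hq z hz => hSZ q (hQS hq) z hz) hZc ha
    have h1 := hst (pCore p G) hQp a hq
    exact KK_le hc (mem_KK.2 h1)
  by_contra hnn
  have hZV : ¬ Z ≤ Z.normalCore := by
    intro h
    apply hnn
    have h1 : Z = Z.normalCore := le_antisymm h Z.normalCore_le
    rw [h1]; infer_instance
  obtain ⟨z, hzZ, hzV, hzs⟩ : ∃ z ∈ Z, z ∉ Z.normalCore ∧
      ∀ s ∈ (S : Subgroup G), z * s * z⁻¹ * s⁻¹ ∈ Z.normalCore := by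
    have hn' : (Z.subgroupOf (S : Subgroup G)).Normal := ⟨fun n hn g => by
      rw [Subgroup.mem_subgroupOf] at hn ⊢
      exact hSZ g.1 g.2 n.1 hn⟩
    have hnle : ¬ Z.subgroupOf (S : Subgroup G) ≤ Z.normalCore.subgroupOf (S : Subgroup G) := by
      intro h
      apply hZV
      intro x hx
      exact h (show (⟨x, hZS hx⟩ : (S : Subgroup G)) ∈ Z.subgroupOf (S : Subgroup G) from hx)
    obtain ⟨z', hz', hz'V, hz's⟩ := exists_central_mod S.isPGroup'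
      (Z.subgroupOf (S : Subgroup G)) (Z.normalCore.subgroupOf (S : Subgroup G)) hnle
    exact ⟨z'.1, hz', hz'V, fun s hs => hz's ⟨s, hs⟩⟩
  obtain ⟨B, hB⟩ : ∃ B : Subgroup G, B = Subgroup.normalClosure ({z} : Set G) := ⟨_, rfl⟩
  have hBn : B.Normal := by rw [hB]; exact Subgroup.normalClosure_normal
  have hzB : z ∈ B := by rw [hB]; exact Subgroup.subset_normalClosure (Set.mem_singleton z)
  have hBQ : B ≤ pCore p G := by
    rw [hB]
    apply Subgroup.normalClosure_le_normal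
    intro x hx
    rw [Set.mem_singleton_iff] at hx
    rw [hx]
    exact hZQ hzZ
  have hBS : B ≤ (S : Subgroup G) := hBQ.trans hQS
  have hVn : Z.normalCore.Normal := inferInstance
  let M : Subgroup G :=
    { carrier := {x | ∀ q ∈ pCore p G, x * q * x⁻¹ * q⁻¹ ∈ Z.normalCore}
      one_mem' := by
        intro q _
        have h1 : (1 : G) * q * 1⁻¹ * q⁻¹ = 1 := by group
        rw [h1]; exact Subgroup.one_mem _
      mul_mem' := by
        intro x y hx hy q hq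
        have h1 : x * y * q * (x * y)⁻¹ * q⁻¹ =
            (x * (y * q * y⁻¹ * q⁻¹) * x⁻¹) * (x * q * x⁻¹ * q⁻¹) := by group
        rw [h1]
        exact Subgroup.mul_mem _ (hVn.conj_mem _ (hy q hq) x) (hx q hq)
      inv_mem' := by
        intro x hx q hq
        have h1 : x⁻¹ * q * x⁻¹⁻¹ * q⁻¹ = x⁻¹ * (x * q * x⁻¹ * q⁻¹)⁻¹ * x⁻¹⁻¹ := by group
        rw [h1]
        exact hVn.conj_mem _ (Subgroup.inv_mem _ (hx q hq)) x⁻¹ }
  have hMn : M.Normal := by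
    constructor
    intro x hx g q hq
    have h1 : g * x * g⁻¹ * q * (g * x * g⁻¹)⁻¹ * q⁻¹ =
        g * (x * (g⁻¹ * q * g⁻¹⁻¹) * x⁻¹ * (g⁻¹ * q * g⁻¹⁻¹)⁻¹) * g⁻¹ := by group
    rw [h1]
    exact hVn.conj_mem _ (hx _ (hQn.conj_mem q hq g⁻¹)) g
  have hBM : B ≤ M := by
    rw [hB]
    apply Subgroup.normalClosure_le_normal
    intro x hx
    rw [Set.mem_singleton_iff] at hx
    rw [hx]
    intro q hq
    exact hzs q (hQS hq)
  have hBB : ∀ x ∈ B, ∀ y ∈ B, x * y * x⁻¹ * y⁻¹ ∈ Z.normalCore := fun x hx y hy =>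
    hBM hx y (hBQ hy)
  have hBZ : ¬ B ≤ Z := fun h => hzV ((Subgroup.normal_le_normalCore.2 h) hzB)
  have hexU : ∃ U ∈ 𝒜, (∀ x ∈ B, ∀ y ∈ B, x * y * x⁻¹ * y⁻¹ ∈ U) ∧ ¬ B ≤ U := by
    by_contra hcon
    push Not at hcon
    apply hBZ
    rw [hZ]
    apply le_sInf
    intro U hU
    exact hcon U hU (fun x hx y hy => hZA U hU (Z.normalCore_le (hBB x hx y hy)))
  -- `B` centralizes the normal core of `Z`
  have hCn : (Subgroup.centralizer (Z.normalCore : Set G)).Normal := inferInstance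
  have hBC : B ≤ Subgroup.centralizer (Z.normalCore : Set G) := by
    rw [hB]
    apply Subgroup.normalClosure_le_normal
    intro x hx
    rw [Set.mem_singleton_iff] at hx
    rw [hx, SetLike.mem_coe, Subgroup.mem_centralizer_iff]
    intro v hv
    exact hZc v (Z.normalCore_le hv) z hzZ
  have hcl2 : ∀ x ∈ B, ∀ y ∈ B, ∀ w ∈ B,
      (x * y * x⁻¹ * y⁻¹) * w = w * (x * y * x⁻¹ * y⁻¹) := by
    intro x hx y hy w hw
    exact (Subgroup.mem_centralizer_iff.1 (hBC hw) _ (hBB x hx y hy))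
  obtain ⟨A, hA, hBA, hBNA⟩ := hA5 B hBS hcl2 hexU
  have hBp : IsPGroup p B := hQp.to_le hBQ
  have hAK : A ≤ KK p B := by
    intro a ha
    have hq := quad_of_normalizes B A hBNA (hA3 A hA) ha
    exact mem_KK.2 (hst B hBp a hq)
  apply hBA
  have hBcl : B = Subgroup.closure (Group.conjugatesOfSet ({z} : Set G)) := hB
  rw [hBcl, Subgroup.closure_le]
  intro y hy
  rw [Group.mem_conjugatesOfSet_iff] at hy
  obtain ⟨w, hw, hwy⟩ := hy
  rw [Set.mem_singleton_iff] at hw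
  subst hw
  obtain ⟨g, rfl⟩ := isConj_iff.1 hwy
  have hKn : (KK p B).Normal := KK_normal p B
  -- the Sylow subgroup `Q = S ⊓ K` of `K`
  have hQ1 : (S : Subgroup G) ⊓ KK p B ≤ (S : Subgroup G) := inf_le_left
  have hAQ : A ≤ (S : Subgroup G) ⊓ KK p B := le_inf (hA2 A hA) hAK
  have hQp' : IsPGroup p ↥((S : Subgroup G) ⊓ KK p B) := S.isPGroup'.to_le inf_le_left
  obtain ⟨c, hc', hcS⟩ := exists_conj_le_sylow S B
    (((S : Subgroup G) ⊓ KK p B).map (MulAut.conj g⁻¹).toMonoidHom)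
    (hQp'.map _) (by
      rintro _ ⟨a, ha, rfl⟩
      exact hKn.conj_mem a ha.2 g⁻¹)
  -- `n = g * c` normalizes `Q`
  have hn1 : ∀ a ∈ (S : Subgroup G) ⊓ KK p B,
      (g * c)⁻¹ * a * (g * c) ∈ (S : Subgroup G) ⊓ KK p B := by
    intro a ha
    have h2 := hcS _ ⟨a, ha, rfl⟩
    have h3 : (g * c)⁻¹ * a * (g * c) = c⁻¹ * ((MulAut.conj g⁻¹).toMonoidHom a) * c := by
      simp [mul_assoc]
    rw [h3]
    have h4 : c⁻¹ * ((MulAut.conj g⁻¹).toMonoidHom a) * c =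
        c⁻¹ * (g⁻¹ * a * g⁻¹⁻¹) * c⁻¹⁻¹ := by simp [mul_assoc]
    refine Subgroup.mem_inf.mpr ⟨h2, ?_⟩
    rw [h4]
    exact hKn.conj_mem _ (hKn.conj_mem a ha.2 g⁻¹) c⁻¹
  have hn2 : (g * c)⁻¹ ∈ Subgroup.normalizer (((S : Subgroup G) ⊓ KK p B : Subgroup G) : Set G) := by
    rw [Subgroup.mem_normalizer_iff]
    intro a
    constructor
    · intro ha
      have := hn1 a ha
      rwa [inv_inv]
    · intro ha
      have hinj : Function.Injective
          (fun a : ↥((S : Subgroup G) ⊓ KK p B) =>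
            (⟨(g * c)⁻¹ * a * (g * c), hn1 a a.2⟩ : ↥((S : Subgroup G) ⊓ KK p B))) := by
        intro a b hab
        have h5 : (g * c)⁻¹ * (a : G) * (g * c) = (g * c)⁻¹ * (b : G) * (g * c) :=
          congrArg Subtype.val hab
        exact Subtype.ext (mul_left_cancel (mul_right_cancel h5))
      obtain ⟨b, hb⟩ := Finite.surjective_of_injective hinj
        ⟨(g * c)⁻¹ * a * (g * c)⁻¹⁻¹, ha⟩
      have h6 : (g * c)⁻¹ * (b : G) * (g * c) = (g * c)⁻¹ * a * (g * c)⁻¹⁻¹ :=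
        congrArg Subtype.val hb
      rw [inv_inv] at h6
      have h7 : (b : G) = a := mul_left_cancel (mul_right_cancel h6)
      rw [← h7]
      exact b.2
  have hn3 : g * c ∈ Subgroup.normalizer (((S : Subgroup G) ⊓ KK p B : Subgroup G) : Set G) := by
    have := Subgroup.inv_mem _ hn2
    rwa [inv_inv] at this
  have hzI : w ∈ sInf {A' | A' ∈ 𝒜 ∧ A' ≤ (S : Subgroup G) ⊓ KK p B} := by
    rw [Subgroup.mem_sInf]
    intro A' hA'
    exact hZA A' hA'.1 hzZ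
  have h8 := hA4 _ hQ1 ⟨A, hA, hAQ⟩ (g * c) hn3 w hzI
  have h9 : g * c * w * (g * c)⁻¹ ∈ A := by
    rw [Subgroup.mem_sInf] at h8
    exact h8 A ⟨hA, hAQ⟩
  have hcz : w * c = c * w := Subgroup.mem_centralizer_iff.1 hc' w hzB
  have h10 : g * w * g⁻¹ = g * c * w * (g * c)⁻¹ := by
    calc g * w * g⁻¹ = g * (w * c) * c⁻¹ * g⁻¹ := by group
      _ = g * (c * w) * c⁻¹ * g⁻¹ := by rw [hcz]
      _ = g * c * w * (g * c)⁻¹ := by group
  rw [h10]
  exact h9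

end Cfsg.Agent.Lib.Helper26
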