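import Mathlib
import Cfsg.Prelude.Def_FusionSystem
import Cfsg.Prelude.Def_FusionComponents
import Cfsg.Agent.Lib.Helper26.FusGrp

set_option autoImplicit false

namespace Cfsg.Agent.Lib.Helper26

open Cfsg Cfsg.FusionSystem

open scoped Pointwise

universe u

variable {G : Type u} [Group G]

/-- Conjugation in a quotient by a normal subgroup lifts to conjugation into the Sylow subgroup. -/
theorem exists_lift_conj [Finite G] {p : ℕ} [Fact p.Prime] (S : Sylow p G) (H : Subgroup G)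
    [H.Normal] (P : Subgroup G) (hP : P ≤ (S : Subgroup G)) (γ : G ⧸ H)
    (hγ : ∀ x ∈ P, γ * QuotientGroup.mk x * γ⁻¹ ∈ (S : Subgroup G).map (QuotientGroup.mk' H)) :
    ∃ g : G, ∀ x ∈ P, g * x * g⁻¹ ∈ (S : Subgroup G) ∧
      (QuotientGroup.mk (g * x * g⁻¹) : G ⧸ H) = γ * QuotientGroup.mk x * γ⁻¹ := by
  obtain ⟨g₀, rfl⟩ := QuotientGroup.mk_surjective γ
  have hA : IsPGroup p (P.map (MulAut.conj g₀).toMonoidHom) := (S.isPGroup'.to_le hP).map _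
  have hAL : P.map (MulAut.conj g₀).toMonoidHom ≤ (S : Subgroup G) ⊔ H := by
    rintro _ ⟨x, hx, rfl⟩
    obtain ⟨s, hs, hsx⟩ := hγ x hx
    have h1 : (QuotientGroup.mk s : G ⧸ H) = QuotientGroup.mk (g₀ * x * g₀⁻¹) := by
      rw [QuotientGroup.mk_mul, QuotientGroup.mk_mul, QuotientGroup.mk_inv]
      exact hsx
    have h2 : s⁻¹ * (g₀ * x * g₀⁻¹) ∈ H := QuotientGroup.eq.mp h1
    have h3 : g₀ * x * g₀⁻¹ = s * (s⁻¹ * (g₀ * x * g₀⁻¹)) := by group
    show g₀ * x * g₀⁻¹ ∈ _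
    rw [h3]
    exact Subgroup.mul_mem _ (Subgroup.mem_sup_left hs) (Subgroup.mem_sup_right h2)
  obtain ⟨l, hl, hlA⟩ := (isSylowIn_of_sylow S
    (le_sup_left : (S : Subgroup G) ≤ (S : Subgroup G) ⊔ H)).conj_le hAL hA
  have hmul := Subgroup.mul_normal (S : Subgroup G) H
  have hl' : l ∈ ((S : Subgroup G) : Set G) * (H : Set G) := by
    rw [← hmul]
    exact hl
  obtain ⟨s, hs, n, hn, rfl⟩ := Set.mem_mul.mp hl'
  refine ⟨n * g₀, fun x hx => ⟨?_, ?_⟩⟩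
  · have h1 := hlA (g₀ * x * g₀⁻¹) ⟨x, hx, rfl⟩
    have h2 : n * g₀ * x * (n * g₀)⁻¹ = s⁻¹ * (s * n * (g₀ * x * g₀⁻¹) * (s * n)⁻¹) * s := by
      group
    rw [h2]
    exact Subgroup.mul_mem _ (Subgroup.mul_mem _ (Subgroup.inv_mem _ hs) h1) hs
  · have h1 : (QuotientGroup.mk n : G ⧸ H) = 1 := (QuotientGroup.eq_one_iff n).mpr hn
    rw [QuotientGroup.mk_mul, QuotientGroup.mk_mul, QuotientGroup.mk_inv, QuotientGroup.mk_mul, h1]
    group

end Cfsg.Agent.Lib.Helper26
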