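import Mathlib
import Cfsg.Agent.Lib.Helper26.IndExt
import Cfsg.Agent.Lib.Helper26.FusNormC

set_option autoImplicit false

namespace Cfsg.Agent.Lib.Helper26

open Cfsg Cfsg.FusionSystem

universe u

variable {Ω : Type u} [Group Ω] {T : Subgroup Ω}

/-- The pre-model of a saturated system at a receptive, fully automized subgroup `R` that is
normal in `T` and contains its centralizer in `T`: a finite group `M` containing `T`, acting on
`R` through `Aut_N(R)` with kernel `Z(R)`. -/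
theorem exists_premodel [Finite T] {p : ℕ} [Fact p.Prime] (hT : IsPGroup p T) (N : FusionSystem T)
    {R : Subgroup Ω} (hRT : R ≤ T) (hRnorm : T ≤ Subgroup.normalizer (R : Set Ω))
    (hcen : centralizerIn T R ≤ R) (hrec : N.IsReceptive R) (haut : N.IsFullyAutomized p R) :
    ∃ (M : Type u) (_ : Group M) (_ : Finite M) (ι : T →* M) (ρ : M →* MulAut R),
      Function.Injective ι ∧ (∀ (s : T) (x : R), ((ρ (ι s) x : R) : Ω) = s * x * (s : Ω)⁻¹) ∧
      (∀ a ∈ N.autGroup R, ∃ m, ρ m = a) ∧ (∀ m, ρ m ∈ N.autGroup R) ∧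
      (∀ m, ρ m = 1 → ∃ z : R, (∀ y : R, z * y = y * z) ∧ m = ι ⟨z, hRT z.2⟩) ∧
      (∀ m (q : R), m * ι ⟨q, hRT q.2⟩ * m⁻¹ = ι ⟨ρ m q, hRT (ρ m q).2⟩) := by
  classical
  have hfinR : Finite R := finite_of_le hRT
  have hfinA : Finite (MulAut R) := inferInstance
  have hmemπ : ∀ s : T,
      (R.normalizerMonoidHom.comp (Subgroup.inclusion hRnorm)) s ∈ N.autGroup R :=
    fun s => autInducedBy_le_autGroup N hRT (mem_autInducedBy_iff.mpr ⟨s, s.2, fun x => rfl⟩)
  let act : ↥(N.autGroup R) →* MulAut R := (N.autGroup R).subtype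
  let π : T →* ↥(N.autGroup R) :=
    (R.normalizerMonoidHom.comp (Subgroup.inclusion hRnorm)).codRestrict (N.autGroup R) hmemπ
  let j : R →* T := Subgroup.inclusion hRT
  have hπ : ∀ (s : T) (x : R), (((π s : MulAut R) x : R) : Ω) = s * x * (s : Ω)⁻¹ :=
    fun s x => rfl
  have hπrange : ∀ a : ↥(N.autGroup R), a ∈ π.range ↔ (a : MulAut R) ∈ autInducedBy T R := by
    intro a
    constructor
    · rintro ⟨s, rfl⟩
      exact mem_autInducedBy_iff.mpr ⟨s, s.2, fun x => rfl⟩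
    · intro h
      obtain ⟨g, hg, hgx⟩ := mem_autInducedBy_iff.mp h
      refine ⟨⟨g, hg⟩, Subtype.ext (MulEquiv.ext fun x => Subtype.ext ?_)⟩
      rw [hgx]
      rfl
  have hstab : ∀ a : ↥(N.autGroup R), ∃ ε : T → T,
      (∀ s s', a⁻¹ * π s * a ∈ π.range → a⁻¹ * π s' * a ∈ π.range → ε (s * s') = ε s * ε s') ∧
      (∀ s, a⁻¹ * π s * a ∈ π.range → π (ε s) = a⁻¹ * π s * a) ∧
      ∀ q, ε (j q) = j (act a⁻¹ q) := by
    intro a
    have hφ : R.subtype.comp (((a : MulAut R))⁻¹).toMonoidHom ∈ N.Hom R :=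
      autGroup_hom_mem N hRT (inv_mem a.2)
    have hrange : (R.subtype.comp (((a : MulAut R))⁻¹).toMonoidHom).range = R := by
      ext y
      constructor
      · rintro ⟨x, rfl⟩
        exact ((((a : MulAut R))⁻¹) x).2
      · intro hy
        refine ⟨(a : MulAut R) ⟨y, hy⟩, ?_⟩
        show (((((a : MulAut R))⁻¹) ((a : MulAut R) ⟨y, hy⟩) : R) : Ω) = y
        rw [MulAut.inv_apply_self]
    obtain ⟨ψ, hψ, hψe⟩ := hrec.2 R _ hφ hrange
    have hmemE : ∀ s : T, a⁻¹ * π s * a ∈ π.range →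
        (s : Ω) ∈ extender T R (R.subtype.comp (((a : MulAut R))⁻¹).toMonoidHom) := by
      intro s hs
      have h1 := (hπrange _).mp hs
      apply mem_extender_of_conj_mem _ s.2 (hRnorm s.2)
      rw [inv_inv]
      exact h1
    refine ⟨fun s => if h : (s : Ω) ∈ extender T R (R.subtype.comp (((a : MulAut R))⁻¹).toMonoidHom)
      then ⟨ψ ⟨s, h⟩, (N.le_of_mem hψ).2 _⟩ else 1, ?_, ?_, ?_⟩
    · intro s s' hs hs'
      have h1 := hmemE s hs
      have h2 := hmemE s' hs'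
      have h3 : ((s * s' : T) : Ω) ∈
          extender T R (R.subtype.comp (((a : MulAut R))⁻¹).toMonoidHom) :=
        Subgroup.mul_mem _ h1 h2
      show (if h : ((s * s' : T) : Ω) ∈ _ then (⟨ψ ⟨(s * s' : T), h⟩, _⟩ : T) else 1) =
        (if h : (s : Ω) ∈ _ then (⟨ψ ⟨s, h⟩, _⟩ : T) else 1) *
        (if h : (s' : Ω) ∈ _ then (⟨ψ ⟨s', h⟩, _⟩ : T) else 1)
      rw [dif_pos h1, dif_pos h2, dif_pos h3]
      apply Subtype.ext
      show ψ ⟨(s * s' : T), h3⟩ = ψ ⟨s, h1⟩ * ψ ⟨s', h2⟩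
      rw [← map_mul]
      rfl
    · intro s hs
      have h1 := hmemE s hs
      show π (if h : (s : Ω) ∈ _ then (⟨ψ ⟨s, h⟩, _⟩ : T) else 1) = _
      rw [dif_pos h1]
      apply Subtype.ext
      apply MulEquiv.ext
      intro r
      apply Subtype.ext
      show ψ ⟨s, h1⟩ * (r : Ω) * (ψ ⟨s, h1⟩)⁻¹ =
        (((((a : MulAut R))⁻¹) (R.normalizerMonoidHom ⟨s, hRnorm s.2⟩ ((a : MulAut R) r)) : R) : Ω)
      have hr' : (((a : MulAut R) r : R) : Ω) ∈
          extender T R (R.subtype.comp (((a : MulAut R))⁻¹).toMonoidHom) :=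
        le_extender N hφ ((a : MulAut R) r).2
      have e1 : ψ ⟨((a : MulAut R) r : R), hr'⟩ = (r : Ω) := by
        rw [hψe _ ((a : MulAut R) r).2 hr']
        show (((((a : MulAut R))⁻¹) ((a : MulAut R) r) : R) : Ω) = r
        rw [MulAut.inv_apply_self]
      have hc' : ((R.normalizerMonoidHom ⟨s, hRnorm s.2⟩ ((a : MulAut R) r) : R) : Ω) ∈
          extender T R (R.subtype.comp (((a : MulAut R))⁻¹).toMonoidHom) :=
        le_extender N hφ (R.normalizerMonoidHom ⟨s, hRnorm s.2⟩ ((a : MulAut R) r)).2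
      have e2 := hψe _ (R.normalizerMonoidHom ⟨s, hRnorm s.2⟩ ((a : MulAut R) r)).2 hc'
      have e3 : (⟨((R.normalizerMonoidHom ⟨s, hRnorm s.2⟩ ((a : MulAut R) r) : R) : Ω), hc'⟩ :
          ↥(extender T R (R.subtype.comp (((a : MulAut R))⁻¹).toMonoidHom))) =
          ⟨s, h1⟩ * ⟨((a : MulAut R) r : R), hr'⟩ * ⟨s, h1⟩⁻¹ := Subtype.ext rfl
      rw [e3, map_mul, map_mul, map_inv, e1] at e2
      rw [e2]
      rfl
    · intro q
      have h1 : ((j q : T) : Ω) ∈
          extender T R (R.subtype.comp (((a : MulAut R))⁻¹).toMonoidHom) :=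
        le_extender N hφ q.2
      show (if h : ((j q : T) : Ω) ∈ _ then (⟨ψ ⟨(j q : T), h⟩, _⟩ : T) else 1) = _
      rw [dif_pos h1]
      apply Subtype.ext
      exact hψe q q.2 h1
  have hcop : (π.range.index).Coprime (Nat.card (Subgroup.center R)) := by
    obtain ⟨P, hP⟩ := haut.2
    have e1 : π.range = (P : Subgroup ↥(N.autGroup R)) := by
      ext a
      rw [hπrange, hP, Subgroup.mem_subgroupOf]
    rw [e1]
    have h1 : ¬ p ∣ (P : Subgroup ↥(N.autGroup R)).index := P.not_dvd_index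
    have hRp : IsPGroup p R := hT.to_le hRT
    obtain ⟨k, hk⟩ := IsPGroup.iff_card.mp (hRp.to_subgroup (Subgroup.center R))
    rw [hk]
    exact Nat.Coprime.pow_right k ((Nat.Prime.coprime_iff_not_dvd Fact.out).mpr h1).symm
  obtain ⟨M, iM, fM, ι, ρ, hι, hρι, hsurj, hρA, hker, hconj⟩ :=
    IndExt.exists_extension act π j (Subgroup.subtype_injective _)
      (Subgroup.inclusion_injective hRT) (fun s q => Subtype.ext rfl)
      (fun s hs => by
        have h1 : (s : Ω) ∈ centralizerIn T R := by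
          refine ⟨s.2, Subgroup.mem_centralizer_iff.mpr fun x hx => ?_⟩
          have h2 := hπ s ⟨x, hx⟩
          rw [hs] at h2
          have h3 : x = s * x * (s : Ω)⁻¹ := h2
          conv_lhs => rw [h3]
          group
        exact ⟨⟨s, hcen h1⟩, Subtype.ext rfl⟩)
      hstab hcop
  refine ⟨M, iM, fM, ι, ρ, hι, fun s x => ?_, fun a ha => hsurj ⟨a, ha⟩, fun m => ?_,
    fun m hm => ?_, fun m q => hconj m q⟩
  · rw [hρι]
    rfl
  · obtain ⟨a, ha⟩ := hρA m
    rw [ha]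
    exact a.2
  · obtain ⟨z, hz⟩ := hker m hm
    exact ⟨z, fun y => (Subgroup.mem_center_iff.mp z.2 y).symm, hz⟩

end Cfsg.Agent.Lib.Helper26
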