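import Mathlib
import Cfsg.Prelude.Def_FusionComponents
import Cfsg.Agent.Lib.Helper26.FusSat3

set_option autoImplicit false

namespace Cfsg.Agent.Lib.Helper26

open Cfsg Cfsg.FusionSystem

universe u v

variable {Ω₁ : Type u} {Ω₂ : Type v} [Group Ω₁] [Group Ω₂] {S₁ : Subgroup Ω₁} {S₂ : Subgroup Ω₂}

/-! ### maps of a product system -/

/-- the restriction to `P` of the product of two homomorphisms defined on subgroups containing the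
projections of `P`. -/
def pairHom {P : Subgroup (Ω₁ × Ω₂)} {P₁ : Subgroup Ω₁} {P₂ : Subgroup Ω₂}
    (h₁ : P.map (MonoidHom.fst Ω₁ Ω₂) ≤ P₁) (h₂ : P.map (MonoidHom.snd Ω₁ Ω₂) ≤ P₂)
    (φ₁ : P₁ →* Ω₁) (φ₂ : P₂ →* Ω₂) : P →* Ω₁ × Ω₂ :=
  (φ₁.comp (((MonoidHom.fst Ω₁ Ω₂).comp P.subtype).codRestrict P₁
    (fun x => h₁ (Subgroup.mem_map_of_mem _ x.2)))).prod
  (φ₂.comp (((MonoidHom.snd Ω₁ Ω₂).comp P.subtype).codRestrict P₂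
    (fun x => h₂ (Subgroup.mem_map_of_mem _ x.2))))

theorem pairHom_apply {P : Subgroup (Ω₁ × Ω₂)} {P₁ : Subgroup Ω₁} {P₂ : Subgroup Ω₂}
    (h₁ : P.map (MonoidHom.fst Ω₁ Ω₂) ≤ P₁) (h₂ : P.map (MonoidHom.snd Ω₁ Ω₂) ≤ P₂)
    (φ₁ : P₁ →* Ω₁) (φ₂ : P₂ →* Ω₂) (x : P) (k₁ : (x : Ω₁ × Ω₂).1 ∈ P₁)
    (k₂ : (x : Ω₁ × Ω₂).2 ∈ P₂) :
    pairHom h₁ h₂ φ₁ φ₂ x = (φ₁ ⟨(x : Ω₁ × Ω₂).1, k₁⟩, φ₂ ⟨(x : Ω₁ × Ω₂).2, k₂⟩) := rfl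

theorem prod_hom_iff {F₁ : FusionSystem S₁} {F₂ : FusionSystem S₂}
    {E : FusionSystem (S₁.prod S₂)} (hE : IsProductSystem F₁ F₂ E)
    {P : Subgroup (Ω₁ × Ω₂)} {P₁ : Subgroup Ω₁} {P₂ : Subgroup Ω₂}
    (h₁ : P.map (MonoidHom.fst Ω₁ Ω₂) = P₁) (h₂ : P.map (MonoidHom.snd Ω₁ Ω₂) = P₂)
    (φ : P →* Ω₁ × Ω₂) :
    φ ∈ E.Hom P ↔ P ≤ S₁.prod S₂ ∧ ∃ φ₁ ∈ F₁.Hom P₁, ∃ φ₂ ∈ F₂.Hom P₂,
      φ = pairHom h₁.le h₂.le φ₁ φ₂ := by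
  subst h₁ h₂
  rw [hE P φ]
  constructor
  · rintro ⟨hP, φ₁, hφ₁, φ₂, hφ₂, h⟩
    refine ⟨hP, φ₁, hφ₁, φ₂, hφ₂, ?_⟩
    ext x
    · rw [h x (Subgroup.mem_map_of_mem _ x.2) (Subgroup.mem_map_of_mem _ x.2)]; rfl
    · rw [h x (Subgroup.mem_map_of_mem _ x.2) (Subgroup.mem_map_of_mem _ x.2)]; rfl
  · rintro ⟨hP, φ₁, hφ₁, φ₂, hφ₂, rfl⟩
    exact ⟨hP, φ₁, hφ₁, φ₂, hφ₂, fun x k₁ k₂ => rfl⟩

theorem map_fst_le_of_le {P : Subgroup (Ω₁ × Ω₂)} (hP : P ≤ S₁.prod S₂) :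
    P.map (MonoidHom.fst Ω₁ Ω₂) ≤ S₁ := by
  rintro _ ⟨x, hx, rfl⟩
  exact (hP hx).1

theorem map_snd_le_of_le {P : Subgroup (Ω₁ × Ω₂)} (hP : P ≤ S₁.prod S₂) :
    P.map (MonoidHom.snd Ω₁ Ω₂) ≤ S₂ := by
  rintro _ ⟨x, hx, rfl⟩
  exact (hP hx).2

theorem pairHom_range_fst {P : Subgroup (Ω₁ × Ω₂)} {P₁ : Subgroup Ω₁} {P₂ : Subgroup Ω₂}
    (h₁ : P.map (MonoidHom.fst Ω₁ Ω₂) = P₁) (h₂ : P.map (MonoidHom.snd Ω₁ Ω₂) = P₂)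
    (φ₁ : P₁ →* Ω₁) (φ₂ : P₂ →* Ω₂) :
    (pairHom h₁.le h₂.le φ₁ φ₂).range.map (MonoidHom.fst Ω₁ Ω₂) = φ₁.range := by
  subst h₁ h₂
  ext y
  constructor
  · rintro ⟨_, ⟨x, rfl⟩, rfl⟩
    exact ⟨⟨(x : Ω₁ × Ω₂).1, Subgroup.mem_map_of_mem _ x.2⟩, rfl⟩
  · rintro ⟨⟨_, x, hx, rfl⟩, rfl⟩
    exact ⟨_, ⟨⟨x, hx⟩, rfl⟩, rfl⟩

theorem pairHom_range_snd {P : Subgroup (Ω₁ × Ω₂)} {P₁ : Subgroup Ω₁} {P₂ : Subgroup Ω₂}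
    (h₁ : P.map (MonoidHom.fst Ω₁ Ω₂) = P₁) (h₂ : P.map (MonoidHom.snd Ω₁ Ω₂) = P₂)
    (φ₁ : P₁ →* Ω₁) (φ₂ : P₂ →* Ω₂) :
    (pairHom h₁.le h₂.le φ₁ φ₂).range.map (MonoidHom.snd Ω₁ Ω₂) = φ₂.range := by
  subst h₁ h₂
  ext y
  constructor
  · rintro ⟨_, ⟨x, rfl⟩, rfl⟩
    exact ⟨⟨(x : Ω₁ × Ω₂).2, Subgroup.mem_map_of_mem _ x.2⟩, rfl⟩
  · rintro ⟨⟨_, x, hx, rfl⟩, rfl⟩
    exact ⟨_, ⟨⟨x, hx⟩, rfl⟩, rfl⟩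

/-! ### receptive subgroups of a product system -/

theorem extender_fst_le {P : Subgroup (Ω₁ × Ω₂)} {P₁ : Subgroup Ω₁} {P₂ : Subgroup Ω₂}
    (h₁ : P.map (MonoidHom.fst Ω₁ Ω₂) = P₁) (h₂ : P.map (MonoidHom.snd Ω₁ Ω₂) = P₂)
    (φ₁ : P₁ →* Ω₁) (φ₂ : P₂ →* Ω₂) :
    (extender (S₁.prod S₂) P (pairHom h₁.le h₂.le φ₁ φ₂)).map (MonoidHom.fst Ω₁ Ω₂) ≤
      extender S₁ P₁ φ₁ := by
  subst h₁ h₂
  rintro _ ⟨g, hg, rfl⟩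
  obtain ⟨hgS, hgN, h, hhS, hh⟩ := mem_extender_iff.mp hg
  rw [mem_extender_iff]
  have hgN' := Subgroup.inv_mem _ hgN
  refine ⟨hgS.1, ?_, h.1, hhS.1, ?_⟩
  · rw [Subgroup.mem_normalizer_iff]
    intro y
    constructor
    · rintro ⟨x, hx, rfl⟩
      exact ⟨g * x * g⁻¹, (Subgroup.mem_normalizer_iff.mp hgN x).mp hx, rfl⟩
    · rintro ⟨x, hx, hxy⟩
      refine ⟨g⁻¹ * x * g⁻¹⁻¹, (Subgroup.mem_normalizer_iff.mp hgN' x).mp hx, ?_⟩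
      show g.1⁻¹ * x.1 * g.1⁻¹⁻¹ = y
      have hxy' : x.1 = g.1 * y * g.1⁻¹ := hxy
      rw [hxy']
      group
  · rintro ⟨_, x, hx, rfl⟩ hy
    have hx' : g * x * g⁻¹ ∈ P := (Subgroup.mem_normalizer_iff.mp hgN x).mp hx
    have e := hh ⟨x, hx⟩ hx'
    exact congrArg Prod.fst e

theorem extender_snd_le {P : Subgroup (Ω₁ × Ω₂)} {P₁ : Subgroup Ω₁} {P₂ : Subgroup Ω₂}
    (h₁ : P.map (MonoidHom.fst Ω₁ Ω₂) = P₁) (h₂ : P.map (MonoidHom.snd Ω₁ Ω₂) = P₂)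
    (φ₁ : P₁ →* Ω₁) (φ₂ : P₂ →* Ω₂) :
    (extender (S₁.prod S₂) P (pairHom h₁.le h₂.le φ₁ φ₂)).map (MonoidHom.snd Ω₁ Ω₂) ≤
      extender S₂ P₂ φ₂ := by
  subst h₁ h₂
  rintro _ ⟨g, hg, rfl⟩
  obtain ⟨hgS, hgN, h, hhS, hh⟩ := mem_extender_iff.mp hg
  rw [mem_extender_iff]
  have hgN' := Subgroup.inv_mem _ hgN
  refine ⟨hgS.2, ?_, h.2, hhS.2, ?_⟩
  · rw [Subgroup.mem_normalizer_iff]
    intro y
    constructor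
    · rintro ⟨x, hx, rfl⟩
      exact ⟨g * x * g⁻¹, (Subgroup.mem_normalizer_iff.mp hgN x).mp hx, rfl⟩
    · rintro ⟨x, hx, hxy⟩
      refine ⟨g⁻¹ * x * g⁻¹⁻¹, (Subgroup.mem_normalizer_iff.mp hgN' x).mp hx, ?_⟩
      show g.2⁻¹ * x.2 * g.2⁻¹⁻¹ = y
      have hxy' : x.2 = g.2 * y * g.2⁻¹ := hxy
      rw [hxy']
      group
  · rintro ⟨_, x, hx, rfl⟩ hy
    have hx' : g * x * g⁻¹ ∈ P := (Subgroup.mem_normalizer_iff.mp hgN x).mp hx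
    have e := hh ⟨x, hx⟩ hx'
    exact congrArg Prod.snd e

theorem prod_receptive {F₁ : FusionSystem S₁} {F₂ : FusionSystem S₂}
    {E : FusionSystem (S₁.prod S₂)} (hE : IsProductSystem F₁ F₂ E)
    {P : Subgroup (Ω₁ × Ω₂)} {P₁ : Subgroup Ω₁} {P₂ : Subgroup Ω₂} (hP : P ≤ S₁.prod S₂)
    (h₁ : P.map (MonoidHom.fst Ω₁ Ω₂) = P₁) (h₂ : P.map (MonoidHom.snd Ω₁ Ω₂) = P₂)
    (hr₁ : F₁.IsReceptive P₁) (hr₂ : F₂.IsReceptive P₂) : E.IsReceptive P := by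
  refine ⟨hP, fun R φ hφ hrange => ?_⟩
  obtain ⟨hR, φ₁, hφ₁, φ₂, hφ₂, rfl⟩ := (prod_hom_iff hE rfl rfl φ).mp hφ
  have e1 : φ₁.range = P₁ := by
    rw [← pairHom_range_fst rfl rfl φ₁ φ₂, hrange, h₁]
  have e2 : φ₂.range = P₂ := by
    rw [← pairHom_range_snd rfl rfl φ₁ φ₂, hrange, h₂]
  obtain ⟨ψ₁, hψ₁, hext₁⟩ := hr₁.2 _ φ₁ hφ₁ e1
  obtain ⟨ψ₂, hψ₂, hext₂⟩ := hr₂.2 _ φ₂ hφ₂ e2
  have hN₁ := extender_fst_le (S₁ := S₁) (S₂ := S₂) (P := R) rfl rfl φ₁ φ₂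
  have hN₂ := extender_snd_le (S₁ := S₁) (S₂ := S₂) (P := R) rfl rfl φ₁ φ₂
  have hNS : extender (S₁.prod S₂) R (pairHom (le_of_eq rfl) (le_of_eq rfl) φ₁ φ₂) ≤ S₁.prod S₂ :=
    (extender_le_normalizerIn _ _ _).trans (normalizerIn_le _ _)
  refine ⟨pairHom hN₁ hN₂ ψ₁ ψ₂, ?_, ?_⟩
  · rw [prod_hom_iff hE rfl rfl]
    refine ⟨hNS, ψ₁.comp (Subgroup.inclusion hN₁), restrict_mem F₁ hψ₁ hN₁,
      ψ₂.comp (Subgroup.inclusion hN₂), restrict_mem F₂ hψ₂ hN₂, ?_⟩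
    rfl
  · intro x hxR hxN
    have k1 : x.1 ∈ R.map (MonoidHom.fst Ω₁ Ω₂) := Subgroup.mem_map_of_mem _ hxR
    have k2 : x.2 ∈ R.map (MonoidHom.snd Ω₁ Ω₂) := Subgroup.mem_map_of_mem _ hxR
    have k1' : x.1 ∈ extender S₁ (R.map (MonoidHom.fst Ω₁ Ω₂)) φ₁ :=
      hN₁ (Subgroup.mem_map_of_mem _ hxN)
    have k2' : x.2 ∈ extender S₂ (R.map (MonoidHom.snd Ω₁ Ω₂)) φ₂ :=
      hN₂ (Subgroup.mem_map_of_mem _ hxN)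
    show (ψ₁ ⟨x.1, k1'⟩, ψ₂ ⟨x.2, k2'⟩) = (φ₁ ⟨x.1, k1⟩, φ₂ ⟨x.2, k2⟩)
    rw [hext₁ x.1 k1 k1', hext₂ x.2 k2 k2']

/-! ### automizers in a product system -/

open scoped Pointwise

/-- inclusion of `P₁ × P₂` into `Ω₁ × Ω₂` -/
def prodIncl (P₁ : Subgroup Ω₁) (P₂ : Subgroup Ω₂) : ↥P₁ × ↥P₂ →* Ω₁ × Ω₂ :=
  P₁.subtype.prodMap P₂.subtype

theorem prodIncl_injective (P₁ : Subgroup Ω₁) (P₂ : Subgroup Ω₂) :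
    Function.Injective (prodIncl P₁ P₂) := by
  rintro ⟨a, b⟩ ⟨c, d⟩ h
  have h1 : (a : Ω₁) = c := congrArg Prod.fst h
  have h2 : (b : Ω₂) = d := congrArg Prod.snd h
  exact Prod.ext (Subtype.ext h1) (Subtype.ext h2)

theorem exists_prodIncl {P : Subgroup (Ω₁ × Ω₂)} {P₁ : Subgroup Ω₁} {P₂ : Subgroup Ω₂}
    (h₁ : P.map (MonoidHom.fst Ω₁ Ω₂) ≤ P₁) (h₂ : P.map (MonoidHom.snd Ω₁ Ω₂) ≤ P₂)
    {x : Ω₁ × Ω₂} (hx : x ∈ P) : ∃ z : ↥P₁ × ↥P₂, prodIncl P₁ P₂ z = x :=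
  ⟨(⟨x.1, h₁ (Subgroup.mem_map_of_mem _ hx)⟩, ⟨x.2, h₂ (Subgroup.mem_map_of_mem _ hx)⟩), rfl⟩

/-- product of automorphisms -/
def prodAut (P₁ : Subgroup Ω₁) (P₂ : Subgroup Ω₂) :
    MulAut ↥P₁ × MulAut ↥P₂ →* MulAut (↥P₁ × ↥P₂) where
  toFun a := MulEquiv.prodCongr a.1 a.2
  map_one' := MulEquiv.ext (fun _ => rfl)
  map_mul' _ _ := MulEquiv.ext (fun _ => rfl)

theorem prodAut_apply (P₁ : Subgroup Ω₁) (P₂ : Subgroup Ω₂) (a : MulAut ↥P₁ × MulAut ↥P₂)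
    (z : ↥P₁ × ↥P₂) : prodAut P₁ P₂ a z = (a.1 z.1, a.2 z.2) := rfl

theorem prodAut_injective (P₁ : Subgroup Ω₁) (P₂ : Subgroup Ω₂) :
    Function.Injective (prodAut P₁ P₂) := by
  intro a b h
  refine Prod.ext (MulEquiv.ext fun x => ?_) (MulEquiv.ext fun y => ?_)
  · exact congrArg (fun θ : MulAut (↥P₁ × ↥P₂) => (θ (x, 1)).1) h
  · exact congrArg (fun θ : MulAut (↥P₁ × ↥P₂) => (θ (1, y)).2) h

/-- the automorphisms of `P₁ × P₂` that are products of automorphisms of the two systems -/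
def prodAutK (F₁ : FusionSystem S₁) (F₂ : FusionSystem S₂) (P₁ : Subgroup Ω₁) (P₂ : Subgroup Ω₂) :
    Subgroup (MulAut (↥P₁ × ↥P₂)) :=
  ((F₁.autGroup P₁).prod (F₂.autGroup P₂)).map (prodAut P₁ P₂)

/-- the automorphisms of `P₁ × P₂` that are products of automorphisms induced by `S₁`, `S₂` -/
def prodAutB (S₁ : Subgroup Ω₁) (S₂ : Subgroup Ω₂) (P₁ : Subgroup Ω₁) (P₂ : Subgroup Ω₂) :
    Subgroup (MulAut (↥P₁ × ↥P₂)) :=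
  ((autInducedBy S₁ P₁).prod (autInducedBy S₂ P₂)).map (prodAut P₁ P₂)

theorem prodAutB_le (F₁ : FusionSystem S₁) (F₂ : FusionSystem S₂) {P₁ : Subgroup Ω₁}
    {P₂ : Subgroup Ω₂} (hP₁ : P₁ ≤ S₁) (hP₂ : P₂ ≤ S₂) :
    prodAutB S₁ S₂ P₁ P₂ ≤ prodAutK F₁ F₂ P₁ P₂ :=
  Subgroup.map_mono (Subgroup.prod_mono (autInducedBy_le_autGroup F₁ hP₁)
    (autInducedBy_le_autGroup F₂ hP₂))

theorem prodAut_isSylowIn [Finite S₁] [Finite S₂] {p : ℕ} [Fact p.Prime] (F₁ : FusionSystem S₁)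
    (F₂ : FusionSystem S₂) {P₁ : Subgroup Ω₁} {P₂ : Subgroup Ω₂}
    (ha₁ : F₁.IsFullyAutomized p P₁) (ha₂ : F₂.IsFullyAutomized p P₂) :
    IsSylowIn p (prodAutK F₁ F₂ P₁ P₂) (prodAutB S₁ S₂ P₁ P₂) := by
  have : Finite P₁ := finite_of_le ha₁.1
  have : Finite P₂ := finite_of_le ha₂.1
  have : Finite (MulAut P₁) := inferInstance
  have : Finite (MulAut P₂) := inferInstance
  have : Finite (MulAut (↥P₁ × ↥P₂)) := inferInstance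
  rw [isSylowIn_iff_card (prodAutB_le F₁ F₂ ha₁.1 ha₂.1)]
  have c1 := (isSylowIn_iff_card (autInducedBy_le_autGroup F₁ ha₁.1)).mp ha₁.2
  have c2 := (isSylowIn_iff_card (autInducedBy_le_autGroup F₂ ha₂.1)).mp ha₂.2
  have e1 : Nat.card (prodAutB S₁ S₂ P₁ P₂) =
      Nat.card (autInducedBy S₁ P₁) * Nat.card (autInducedBy S₂ P₂) := by
    unfold prodAutB
    rw [Subgroup.card_map_of_injective (prodAut_injective P₁ P₂),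
      Nat.card_congr (Subgroup.prodEquiv _ _).toEquiv, Nat.card_prod]
  have e2 : Nat.card (prodAutK F₁ F₂ P₁ P₂) =
      Nat.card (F₁.autGroup P₁) * Nat.card (F₂.autGroup P₂) := by
    unfold prodAutK
    rw [Subgroup.card_map_of_injective (prodAut_injective P₁ P₂),
      Nat.card_congr (Subgroup.prodEquiv _ _).toEquiv, Nat.card_prod]
  rw [e1, e2, c1, c2, Nat.factorization_mul Nat.card_pos.ne' Nat.card_pos.ne', Finsupp.add_apply,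
    pow_add]

/-- `θ`, an automorphism of `P₁ × P₂`, induces the automorphism `α` of `P`. -/
def IndAut (P : Subgroup (Ω₁ × Ω₂)) (P₁ : Subgroup Ω₁) (P₂ : Subgroup Ω₂)
    (θ : MulAut (↥P₁ × ↥P₂)) (α : MulAut ↥P) : Prop :=
  ∀ (z : ↥P₁ × ↥P₂) (hz : prodIncl P₁ P₂ z ∈ P),
    ((α ⟨prodIncl P₁ P₂ z, hz⟩ : P) : Ω₁ × Ω₂) = prodIncl P₁ P₂ (θ z)

section ind

variable {P : Subgroup (Ω₁ × Ω₂)} {P₁ : Subgroup Ω₁} {P₂ : Subgroup Ω₂}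

theorem indAut_one : IndAut P P₁ P₂ 1 1 := fun _ _ => rfl

theorem IndAut.mem {θ : MulAut (↥P₁ × ↥P₂)} {α : MulAut ↥P} (h : IndAut P P₁ P₂ θ α)
    (z : ↥P₁ × ↥P₂) (hz : prodIncl P₁ P₂ z ∈ P) : prodIncl P₁ P₂ (θ z) ∈ P := by
  rw [← h z hz]
  exact (α _).2

theorem IndAut.mul {θ θ' : MulAut (↥P₁ × ↥P₂)} {α α' : MulAut ↥P} (h : IndAut P P₁ P₂ θ α)
    (h' : IndAut P P₁ P₂ θ' α') : IndAut P P₁ P₂ (θ * θ') (α * α') := by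
  intro z hz
  have hz' := h'.mem z hz
  have e : α' ⟨prodIncl P₁ P₂ z, hz⟩ = ⟨prodIncl P₁ P₂ (θ' z), hz'⟩ := Subtype.ext (h' z hz)
  rw [MulAut.mul_apply, MulAut.mul_apply, e]
  exact h (θ' z) hz'

theorem IndAut.inv (hp₁ : P.map (MonoidHom.fst Ω₁ Ω₂) ≤ P₁)
    (hp₂ : P.map (MonoidHom.snd Ω₁ Ω₂) ≤ P₂) {θ : MulAut (↥P₁ × ↥P₂)} {α : MulAut ↥P}
    (h : IndAut P P₁ P₂ θ α) : IndAut P P₁ P₂ θ⁻¹ α⁻¹ := by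
  intro z hz
  obtain ⟨z', hz'⟩ := exists_prodIncl hp₁ hp₂ (α⁻¹ ⟨prodIncl P₁ P₂ z, hz⟩).2
  have hz'P : prodIncl P₁ P₂ z' ∈ P := by rw [hz']; exact (α⁻¹ _).2
  have e1 := h z' hz'P
  have e2 : (⟨prodIncl P₁ P₂ z', hz'P⟩ : P) = α⁻¹ ⟨prodIncl P₁ P₂ z, hz⟩ := Subtype.ext hz'
  rw [e2, MulAut.apply_inv_self] at e1
  have e3 : z = θ z' := prodIncl_injective P₁ P₂ e1
  rw [← hz', e3, MulAut.inv_apply_self]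

theorem IndAut.pow {θ : MulAut (↥P₁ × ↥P₂)} {α : MulAut ↥P} (h : IndAut P P₁ P₂ θ α) (n : ℕ) :
    IndAut P P₁ P₂ (θ ^ n) (α ^ n) := by
  induction n with
  | zero =>
    rw [pow_zero, pow_zero]
    exact indAut_one
  | succ n ih =>
    rw [pow_succ, pow_succ]
    exact ih.mul h

theorem IndAut.smul_eq (hp₁ : P.map (MonoidHom.fst Ω₁ Ω₂) ≤ P₁)
    (hp₂ : P.map (MonoidHom.snd Ω₁ Ω₂) ≤ P₂) {θ : MulAut (↥P₁ × ↥P₂)} {α : MulAut ↥P}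
    (h : IndAut P P₁ P₂ θ α) :
    θ • P.comap (prodIncl P₁ P₂) = P.comap (prodIncl P₁ P₂) := by
  ext z
  rw [Subgroup.mem_pointwise_smul_iff_inv_smul_mem, MulAut.smul_def, Subgroup.mem_comap,
    Subgroup.mem_comap]
  constructor
  · intro hz
    have := h.mem _ hz
    rwa [MulAut.apply_inv_self] at this
  · intro hz
    exact (h.inv hp₁ hp₂).mem z hz

theorem indAut_eq_one (hp₁ : P.map (MonoidHom.fst Ω₁ Ω₂) = P₁)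
    (hp₂ : P.map (MonoidHom.snd Ω₁ Ω₂) = P₂) {a : MulAut ↥P₁ × MulAut ↥P₂}
    (h : IndAut P P₁ P₂ (prodAut P₁ P₂ a) 1) : prodAut P₁ P₂ a = 1 := by
  have key : ∀ z : ↥P₁ × ↥P₂, prodIncl P₁ P₂ z ∈ P → prodAut P₁ P₂ a z = z :=
    fun z hz => (prodIncl_injective P₁ P₂ (h z hz)).symm
  have h1 : a.1 = 1 := by
    apply MulEquiv.ext
    intro x
    have hx : (x : Ω₁) ∈ P.map (MonoidHom.fst Ω₁ Ω₂) := hp₁ ▸ x.2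
    obtain ⟨w, hw, hwx⟩ := hx
    have hwx' : w.1 = (x : Ω₁) := hwx
    have hzP : prodIncl P₁ P₂ (x, ⟨w.2, hp₂.le (Subgroup.mem_map_of_mem _ hw)⟩) ∈ P := by
      have : prodIncl P₁ P₂ (x, ⟨w.2, hp₂.le (Subgroup.mem_map_of_mem _ hw)⟩) = w :=
        Prod.ext hwx'.symm rfl
      rw [this]
      exact hw
    exact congrArg Prod.fst (key _ hzP)
  have h2 : a.2 = 1 := by
    apply MulEquiv.ext
    intro y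
    have hy : (y : Ω₂) ∈ P.map (MonoidHom.snd Ω₁ Ω₂) := hp₂ ▸ y.2
    obtain ⟨w, hw, hwy⟩ := hy
    have hwy' : w.2 = (y : Ω₂) := hwy
    have hzP : prodIncl P₁ P₂ (⟨w.1, hp₁.le (Subgroup.mem_map_of_mem _ hw)⟩, y) ∈ P := by
      have : prodIncl P₁ P₂ (⟨w.1, hp₁.le (Subgroup.mem_map_of_mem _ hw)⟩, y) = w :=
        Prod.ext rfl hwy'.symm
      rw [this]
      exact hw
    exact congrArg Prod.snd (key _ hzP)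
  have h3 : a = 1 := Prod.ext h1 h2
  rw [h3, map_one]

theorem indAut_mem_autInducedBy (hp₁ : P.map (MonoidHom.fst Ω₁ Ω₂) ≤ P₁)
    (hp₂ : P.map (MonoidHom.snd Ω₁ Ω₂) ≤ P₂) {θ : MulAut (↥P₁ × ↥P₂)} {α : MulAut ↥P}
    (hθ : θ ∈ prodAutB S₁ S₂ P₁ P₂) (h : IndAut P P₁ P₂ θ α) :
    α ∈ autInducedBy (S₁.prod S₂) P := by
  obtain ⟨a, ⟨ha1, ha2⟩, rfl⟩ := hθ
  obtain ⟨s₁, hs₁, h1⟩ := mem_autInducedBy_iff.mp ha1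
  obtain ⟨s₂, hs₂, h2⟩ := mem_autInducedBy_iff.mp ha2
  rw [mem_autInducedBy_iff]
  refine ⟨(s₁, s₂), ⟨hs₁, hs₂⟩, fun x => ?_⟩
  obtain ⟨z, hz⟩ := exists_prodIncl hp₁ hp₂ x.2
  have hzP : prodIncl P₁ P₂ z ∈ P := hz ▸ x.2
  have e : x = ⟨prodIncl P₁ P₂ z, hzP⟩ := Subtype.ext hz.symm
  rw [e, h z hzP]
  exact Prod.ext (h1 z.1) (h2 z.2)

end ind

section sys

variable {F₁ : FusionSystem S₁} {F₂ : FusionSystem S₂} {E : FusionSystem (S₁.prod S₂)}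
  {P : Subgroup (Ω₁ × Ω₂)} {P₁ : Subgroup Ω₁} {P₂ : Subgroup Ω₂}

theorem exists_hom_of_prodAutK (hE : IsProductSystem F₁ F₂ E) (hP : P ≤ S₁.prod S₂)
    (hp₁ : P.map (MonoidHom.fst Ω₁ Ω₂) = P₁) (hp₂ : P.map (MonoidHom.snd Ω₁ Ω₂) = P₂)
    {θ : MulAut (↥P₁ × ↥P₂)} (hθ : θ ∈ prodAutK F₁ F₂ P₁ P₂) :
    ∃ φ ∈ E.Hom P, φ.range = (θ • P.comap (prodIncl P₁ P₂)).map (prodIncl P₁ P₂) ∧
      φ.range.map (MonoidHom.fst Ω₁ Ω₂) = P₁ ∧ φ.range.map (MonoidHom.snd Ω₁ Ω₂) = P₂ ∧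
      ∀ (z : ↥P₁ × ↥P₂) (hz : prodIncl P₁ P₂ z ∈ P),
        φ ⟨prodIncl P₁ P₂ z, hz⟩ = prodIncl P₁ P₂ (θ z) := by
  obtain ⟨a, ⟨ha1, ha2⟩, rfl⟩ := hθ
  have hP₁ : P₁ ≤ S₁ := hp₁ ▸ map_fst_le_of_le hP
  have hP₂ : P₂ ≤ S₂ := hp₂ ▸ map_snd_le_of_le hP
  have hφ₁ : P₁.subtype.comp (a.1 : ↥P₁ ≃* ↥P₁).toMonoidHom ∈ F₁.Hom P₁ :=
    (mem_autGroup_iff F₁ hP₁).mp ha1
  have hφ₂ : P₂.subtype.comp (a.2 : ↥P₂ ≃* ↥P₂).toMonoidHom ∈ F₂.Hom P₂ :=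
    (mem_autGroup_iff F₂ hP₂).mp ha2
  have hform : ∀ (z : ↥P₁ × ↥P₂) (hz : prodIncl P₁ P₂ z ∈ P),
      pairHom hp₁.le hp₂.le (P₁.subtype.comp (a.1 : ↥P₁ ≃* ↥P₁).toMonoidHom)
        (P₂.subtype.comp (a.2 : ↥P₂ ≃* ↥P₂).toMonoidHom) ⟨prodIncl P₁ P₂ z, hz⟩ =
      prodIncl P₁ P₂ (prodAut P₁ P₂ a z) := fun z hz => rfl
  refine ⟨pairHom hp₁.le hp₂.le _ _,
    (prod_hom_iff hE hp₁ hp₂ _).mpr ⟨hP, _, hφ₁, _, hφ₂, rfl⟩, ?_, ?_, ?_, hform⟩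
  · ext w
    constructor
    · rintro ⟨x, rfl⟩
      obtain ⟨z, hz⟩ := exists_prodIncl hp₁.le hp₂.le x.2
      have hzP : prodIncl P₁ P₂ z ∈ P := hz ▸ x.2
      have e : x = ⟨prodIncl P₁ P₂ z, hzP⟩ := Subtype.ext hz.symm
      rw [e, hform z hzP]
      refine Subgroup.mem_map_of_mem _ ?_
      rw [← MulAut.smul_def, Subgroup.smul_mem_pointwise_smul_iff]
      exact hzP
    · rintro ⟨z, hz, rfl⟩
      rw [SetLike.mem_coe, Subgroup.mem_pointwise_smul_iff_inv_smul_mem, MulAut.smul_def,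
        Subgroup.mem_comap] at hz
      refine ⟨⟨_, hz⟩, ?_⟩
      rw [hform _ hz, MulAut.apply_inv_self]
  · rw [pairHom_range_fst hp₁ hp₂]
    exact iso_range (a.1 : ↥P₁ ≃* ↥P₁)
  · rw [pairHom_range_snd hp₁ hp₂]
    exact iso_range (a.2 : ↥P₂ ≃* ↥P₂)

theorem exists_indAut_of_stab (hE : IsProductSystem F₁ F₂ E) (hP : P ≤ S₁.prod S₂)
    (hp₁ : P.map (MonoidHom.fst Ω₁ Ω₂) = P₁) (hp₂ : P.map (MonoidHom.snd Ω₁ Ω₂) = P₂)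
    {θ : MulAut (↥P₁ × ↥P₂)} (hθ : θ ∈ prodAutK F₁ F₂ P₁ P₂)
    (hst : θ • P.comap (prodIncl P₁ P₂) = P.comap (prodIncl P₁ P₂)) :
    ∃ α ∈ E.autGroup P, IndAut P P₁ P₂ θ α := by
  obtain ⟨φ, hφ, hrange, -, -, hform⟩ := exists_hom_of_prodAutK hE hP hp₁ hp₂ hθ
  have hle : P ≤ (prodIncl P₁ P₂).range := by
    intro x hx
    obtain ⟨z, hz⟩ := exists_prodIncl hp₁.le hp₂.le hx
    exact ⟨z, hz⟩
  rw [hst, Subgroup.map_comap_eq_self hle] at hrange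
  obtain ⟨e, he, hex⟩ := exists_iso_of_mem E hφ hrange
  refine ⟨e, (mem_autGroup_iff E hP).mpr he, fun z hz => ?_⟩
  rw [← hform z hz]
  exact hex _

theorem exists_indAut_of_mem_autGroup (hE : IsProductSystem F₁ F₂ E) (hP : P ≤ S₁.prod S₂)
    (hp₁ : P.map (MonoidHom.fst Ω₁ Ω₂) = P₁) (hp₂ : P.map (MonoidHom.snd Ω₁ Ω₂) = P₂)
    {α : MulAut ↥P} (hα : α ∈ E.autGroup P) :
    ∃ θ ∈ prodAutK F₁ F₂ P₁ P₂, θ • P.comap (prodIncl P₁ P₂) = P.comap (prodIncl P₁ P₂) ∧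
      IndAut P P₁ P₂ θ α := by
  have hP₁ : P₁ ≤ S₁ := hp₁ ▸ map_fst_le_of_le hP
  have hP₂ : P₂ ≤ S₂ := hp₂ ▸ map_snd_le_of_le hP
  have hα' : P.subtype.comp (α : ↥P ≃* ↥P).toMonoidHom ∈ E.Hom P := (mem_autGroup_iff E hP).mp hα
  obtain ⟨-, φ₁, hφ₁, φ₂, hφ₂, heq⟩ := (prod_hom_iff hE hp₁ hp₂ _).mp hα'
  have hr : (pairHom hp₁.le hp₂.le φ₁ φ₂).range = P := by
    rw [← heq]
    exact iso_range (α : ↥P ≃* ↥P)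
  have hr₁ : φ₁.range = P₁ := by
    rw [← pairHom_range_fst hp₁ hp₂ φ₁ φ₂, hr, hp₁]
  have hr₂ : φ₂.range = P₂ := by
    rw [← pairHom_range_snd hp₁ hp₂ φ₁ φ₂, hr, hp₂]
  obtain ⟨e₁, he₁, hex₁⟩ := exists_iso_of_mem F₁ hφ₁ hr₁
  obtain ⟨e₂, he₂, hex₂⟩ := exists_iso_of_mem F₂ hφ₂ hr₂
  have hind : IndAut P P₁ P₂ (prodAut P₁ P₂ (e₁, e₂)) α := by
    intro z hz
    have h1 : ((α ⟨prodIncl P₁ P₂ z, hz⟩ : P) : Ω₁ × Ω₂) =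
        (P.subtype.comp (α : ↥P ≃* ↥P).toMonoidHom) ⟨prodIncl P₁ P₂ z, hz⟩ := rfl
    rw [h1, heq]
    exact Prod.ext (hex₁ z.1).symm (hex₂ z.2).symm
  exact ⟨_, ⟨(e₁, e₂), ⟨(mem_autGroup_iff F₁ hP₁).mpr he₁, (mem_autGroup_iff F₂ hP₂).mpr he₂⟩, rfl⟩,
    hind.smul_eq hp₁.le hp₂.le, hind⟩

theorem exists_conj_max [Finite S₁] [Finite S₂] {p : ℕ} [Fact p.Prime]
    (hE : IsProductSystem F₁ F₂ E) (hP : P ≤ S₁.prod S₂)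
    (hp₁ : P.map (MonoidHom.fst Ω₁ Ω₂) = P₁) (hp₂ : P.map (MonoidHom.snd Ω₁ Ω₂) = P₂)
    (ha₁ : F₁.IsFullyAutomized p P₁) (ha₂ : F₂.IsFullyAutomized p P₂) :
    ∃ P' : Subgroup (Ω₁ × Ω₂), E.IsConj P P' ∧ P'.map (MonoidHom.fst Ω₁ Ω₂) = P₁ ∧
      P'.map (MonoidHom.snd Ω₁ Ω₂) = P₂ ∧
      ∀ X : Subgroup (MulAut (↥P₁ × ↥P₂)), X ≤ prodAutK F₁ F₂ P₁ P₂ →
        X ≤ MulAction.stabilizer (MulAut (↥P₁ × ↥P₂)) (P'.comap (prodIncl P₁ P₂)) →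
        IsPGroup p X →
        prodAutB S₁ S₂ P₁ P₂ ⊓
          MulAction.stabilizer (MulAut (↥P₁ × ↥P₂)) (P'.comap (prodIncl P₁ P₂)) ≤ X →
        X ≤ prodAutB S₁ S₂ P₁ P₂ := by
  have : Finite P₁ := finite_of_le ha₁.1
  have : Finite P₂ := finite_of_le ha₂.1
  have : Finite (MulAut (↥P₁ × ↥P₂)) := inferInstance
  obtain ⟨g, hgK, hmax⟩ := exists_max_nat {g | g ∈ prodAutK F₁ F₂ P₁ P₂}
    ⟨1, (prodAutK F₁ F₂ P₁ P₂).one_mem⟩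
    (fun g => Nat.card ↥(prodAutB S₁ S₂ P₁ P₂ ⊓
      MulAction.stabilizer (MulAut (↥P₁ × ↥P₂)) (g • P.comap (prodIncl P₁ P₂))))
    (Nat.card (prodAutB S₁ S₂ P₁ P₂)) (fun g _ => Subgroup.card_le_of_le inf_le_left)
  obtain ⟨φ, hφ, hrange, hfst, hsnd, -⟩ := exists_hom_of_prodAutK hE hP hp₁ hp₂ hgK
  refine ⟨φ.range, ⟨φ, hφ, rfl⟩, hfst, hsnd, ?_⟩
  have hY' : φ.range.comap (prodIncl P₁ P₂) = g • P.comap (prodIncl P₁ P₂) := by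
    rw [hrange, Subgroup.comap_map_eq_self_of_injective (prodIncl_injective _ _)]
  rw [hY']
  intro X hXK hXst hXp hWX
  obtain ⟨h, hhK, hh⟩ := (prodAut_isSylowIn F₁ F₂ ha₁ ha₂).conj_le hXK hXp
  have hle : X.map (MulAut.conj h).toMonoidHom ≤ prodAutB S₁ S₂ P₁ P₂ ⊓
      MulAction.stabilizer (MulAut (↥P₁ × ↥P₂)) ((h * g) • P.comap (prodIncl P₁ P₂)) := by
    rintro _ ⟨x, hx, rfl⟩
    have hx' := MulAction.mem_stabilizer_iff.mp (hXst hx)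
    refine Subgroup.mem_inf.mpr ⟨hh x hx, MulAction.mem_stabilizer_iff.mpr ?_⟩
    show (h * x * h⁻¹) • ((h * g) • P.comap (prodIncl P₁ P₂)) = (h * g) • P.comap (prodIncl P₁ P₂)
    rw [mul_smul h g, ← mul_smul (h * x * h⁻¹) h, inv_mul_cancel_right, mul_smul, hx']
  have hcard1 : Nat.card X ≤ Nat.card ↥(prodAutB S₁ S₂ P₁ P₂ ⊓
      MulAction.stabilizer (MulAut (↥P₁ × ↥P₂)) ((h * g) • P.comap (prodIncl P₁ P₂))) := by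
    rw [← Subgroup.card_map_of_injective (f := (MulAut.conj h).toMonoidHom) (MulAut.conj h).injective]
    exact Subgroup.card_le_of_le hle
  have hcard2 := hmax (h * g) ((prodAutK F₁ F₂ P₁ P₂).mul_mem hhK hgK)
  have hWX' := Subgroup.eq_of_le_of_card_ge hWX (hcard1.trans hcard2)
  rw [← hWX']
  exact inf_le_left

theorem prod_automized_of_max [Finite S₁] [Finite S₂] {p : ℕ} [Fact p.Prime]
    (h₁ : IsPGroup p S₁) (h₂ : IsPGroup p S₂)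
    (hE : IsProductSystem F₁ F₂ E) (hP : P ≤ S₁.prod S₂)
    (hp₁ : P.map (MonoidHom.fst Ω₁ Ω₂) = P₁) (hp₂ : P.map (MonoidHom.snd Ω₁ Ω₂) = P₂)
    (hmax : ∀ X : Subgroup (MulAut (↥P₁ × ↥P₂)), X ≤ prodAutK F₁ F₂ P₁ P₂ →
        X ≤ MulAction.stabilizer (MulAut (↥P₁ × ↥P₂)) (P.comap (prodIncl P₁ P₂)) →
        IsPGroup p X →
        prodAutB S₁ S₂ P₁ P₂ ⊓
          MulAction.stabilizer (MulAut (↥P₁ × ↥P₂)) (P.comap (prodIncl P₁ P₂)) ≤ X →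
        X ≤ prodAutB S₁ S₂ P₁ P₂) :
    E.IsFullyAutomized p P := by
  have hP₁ : P₁ ≤ S₁ := hp₁ ▸ map_fst_le_of_le hP
  have hP₂ : P₂ ≤ S₂ := hp₂ ▸ map_snd_le_of_le hP
  have hSp : IsPGroup p (S₁.prod S₂) := by
    rintro ⟨x, hx⟩
    obtain ⟨k₁, hk₁⟩ := h₁ ⟨x.1, hx.1⟩
    obtain ⟨k₂, hk₂⟩ := h₂ ⟨x.2, hx.2⟩
    have hk₁' : x.1 ^ (p ^ k₁) = 1 := congrArg Subtype.val hk₁
    have hk₂' : x.2 ^ (p ^ k₂) = 1 := congrArg Subtype.val hk₂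
    refine ⟨k₁ + k₂, Subtype.ext (Prod.ext ?_ ?_)⟩
    · show x.1 ^ (p ^ (k₁ + k₂)) = 1
      rw [pow_add, pow_mul, hk₁', one_pow]
    · show x.2 ^ (p ^ (k₁ + k₂)) = 1
      rw [pow_add, mul_comm, pow_mul, hk₂', one_pow]
  refine ⟨hP, ?_⟩
  have hT₀p : IsPGroup p ((autInducedBy (S₁.prod S₂) P).subgroupOf (E.autGroup P)) :=
    (autInducedBy_isPGroup hSp P).comap_subtype
  refine ⟨⟨(autInducedBy (S₁.prod S₂) P).subgroupOf (E.autGroup P), hT₀p, ?_⟩, rfl⟩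
  intro Q hQp hTQ
  refine le_antisymm ?_ hTQ
  have hXp : IsPGroup p (Q.map (E.autGroup P).subtype) := hQp.map _
  have hSX : autInducedBy (S₁.prod S₂) P ≤ Q.map (E.autGroup P).subtype := by
    intro α hα
    have hαA := autInducedBy_le_autGroup E hP hα
    exact ⟨⟨α, hαA⟩, hTQ (Subgroup.mem_subgroupOf.mpr hα), rfl⟩
  let Xh : Subgroup (MulAut (↥P₁ × ↥P₂)) :=
    { carrier := {θ | θ ∈ prodAutK F₁ F₂ P₁ P₂ ∧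
        ∃ α ∈ Q.map (E.autGroup P).subtype, IndAut P P₁ P₂ θ α}
      mul_mem' := by
        rintro θ θ' ⟨hθ, α, hα, hi⟩ ⟨hθ', α', hα', hi'⟩
        exact ⟨Subgroup.mul_mem _ hθ hθ', α * α', Subgroup.mul_mem _ hα hα', hi.mul hi'⟩
      one_mem' := ⟨Subgroup.one_mem _, 1, Subgroup.one_mem _, indAut_one⟩
      inv_mem' := by
        rintro θ ⟨hθ, α, hα, hi⟩
        exact ⟨Subgroup.inv_mem _ hθ, α⁻¹, Subgroup.inv_mem _ hα, hi.inv hp₁.le hp₂.le⟩ }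
  have hXhK : Xh ≤ prodAutK F₁ F₂ P₁ P₂ := fun θ h => h.1
  have hXhst : Xh ≤ MulAction.stabilizer (MulAut (↥P₁ × ↥P₂)) (P.comap (prodIncl P₁ P₂)) := by
    rintro θ ⟨-, α, -, hi⟩
    exact MulAction.mem_stabilizer_iff.mpr (hi.smul_eq hp₁.le hp₂.le)
  have hXhp : IsPGroup p Xh := by
    rintro ⟨θ, hθK, α, hαX, hind⟩
    obtain ⟨k, hk⟩ := hXp ⟨α, hαX⟩
    have hk' : α ^ (p ^ k) = 1 := congrArg Subtype.val hk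
    refine ⟨k, Subtype.ext ?_⟩
    show θ ^ (p ^ k) = 1
    have h1 := hind.pow (p ^ k)
    rw [hk'] at h1
    obtain ⟨a, -, rfl⟩ := hθK
    rw [← map_pow] at h1 ⊢
    exact indAut_eq_one hp₁ hp₂ h1
  have hWXh : prodAutB S₁ S₂ P₁ P₂ ⊓
      MulAction.stabilizer (MulAut (↥P₁ × ↥P₂)) (P.comap (prodIncl P₁ P₂)) ≤ Xh := by
    rintro θ ⟨hθB, hθst⟩
    have hθK := prodAutB_le F₁ F₂ hP₁ hP₂ hθB
    obtain ⟨α, -, hind⟩ := exists_indAut_of_stab hE hP hp₁ hp₂ hθK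
      (MulAction.mem_stabilizer_iff.mp hθst)
    exact ⟨hθK, α, hSX (indAut_mem_autInducedBy hp₁.le hp₂.le hθB hind), hind⟩
  have hXhB := hmax Xh hXhK hXhst hXhp hWXh
  intro q hq
  rw [Subgroup.mem_subgroupOf]
  obtain ⟨θ, hθK, -, hind⟩ := exists_indAut_of_mem_autGroup hE hP hp₁ hp₂ q.2
  have hθXh : θ ∈ Xh := ⟨hθK, q.1, ⟨q, hq, rfl⟩, hind⟩
  exact indAut_mem_autInducedBy hp₁.le hp₂.le (hXhB hθXh) hind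

end sys

end Cfsg.Agent.Lib.Helper26
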