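import Mathlib
import Cfsg.Prelude.Def_FusionReduction
import Cfsg.Agent.Lib.Helper26.FusHyp
import Cfsg.Agent.Lib.Helper26.FusGrpHyp
import Cfsg.Agent.Lib.Helper26.FusStab2

set_option autoImplicit false

namespace Cfsg.Agent.Lib.Helper26

open Cfsg Cfsg.FusionSystem

universe u

variable {Ω : Type u} [Group Ω] {S : Subgroup Ω}

/-- Equality of the map sets of two systems over possibly different subgroups. -/
def HomEq {T₁ T₂ : Subgroup Ω} (E₁ : FusionSystem T₁) (E₂ : FusionSystem T₂) : Prop :=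
  ∀ P : Subgroup Ω, E₁.Hom P = E₂.Hom P

theorem HomEq.symm {T₁ T₂ : Subgroup Ω} {E₁ : FusionSystem T₁} {E₂ : FusionSystem T₂}
    (h : HomEq E₁ E₂) : HomEq E₂ E₁ := fun P => (h P).symm

theorem HomEq.base {T₁ T₂ : Subgroup Ω} {E₁ : FusionSystem T₁} {E₂ : FusionSystem T₂}
    (h : HomEq E₁ E₂) : T₁ = T₂ := by
  apply le_antisymm
  · have h1 : T₁.subtype ∈ E₂.Hom T₁ := by
      rw [← h T₁]
      exact id_mem E₁ le_rfl
    exact (E₂.le_of_mem h1).1
  · have h1 : T₂.subtype ∈ E₁.Hom T₂ := by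
      rw [h T₂]
      exact id_mem E₂ le_rfl
    exact (E₁.le_of_mem h1).1

theorem HomEq.rec' {T₁ T₂ : Subgroup Ω} {E₁ : FusionSystem T₁} {E₂ : FusionSystem T₂}
    (h : HomEq E₁ E₂) (C : ∀ {T : Subgroup Ω}, FusionSystem T → Prop) (h1 : C E₁) : C E₂ := by
  have hT := h.base
  subst hT
  have e : E₁ = E₂ := fusionSystem_ext h
  subst e
  exact h1

/-- `O^p(Aut_F(P))` as a subgroup of `Aut(P)`. -/
def opGen (F : FusionSystem S) (p : ℕ) (P : Subgroup Ω) : Subgroup (MulAut P) :=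
  (pResidual p (F.autGroup P)).map (F.autGroup P).subtype

theorem mem_opGen (F : FusionSystem S) {p : ℕ} {P : Subgroup Ω} {α : MulAut P}
    (hα : α ∈ F.autGroup P) (hc : Nat.Coprime (orderOf α) p) : α ∈ opGen F p P := by
  refine ⟨⟨α, hα⟩, Subgroup.subset_closure ?_, rfl⟩
  show Nat.Coprime (orderOf (⟨α, hα⟩ : F.autGroup P)) p
  rw [Subgroup.orderOf_mk]
  exact hc

theorem opGen_le_of (F : FusionSystem S) {p : ℕ} {P : Subgroup Ω} {H : Subgroup (MulAut P)}
    (h : ∀ α ∈ F.autGroup P, Nat.Coprime (orderOf α) p → α ∈ H) : opGen F p P ≤ H := by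
  show Subgroup.map _ _ ≤ H
  rw [Subgroup.map_le_iff_le_comap]
  show Subgroup.closure _ ≤ _
  rw [Subgroup.closure_le]
  intro a ha
  have ha' : Nat.Coprime (orderOf a) p := ha
  refine h a a.2 ?_
  rw [Subgroup.orderOf_coe]
  exact ha'

theorem opGen_le (F : FusionSystem S) (p : ℕ) (P : Subgroup Ω) : opGen F p P ≤ F.autGroup P := by
  rintro _ ⟨a, -, rfl⟩
  exact a.2

/-- Two saturated subsystems of `p`-power index over the same subgroup: inclusion. -/
theorem pPowerIndex_le {p : ℕ} [Fact p.Prime] (F : FusionSystem S) {T : Subgroup Ω} [Finite T]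
    (hT : IsPGroup p T) (E₁ E₂ : FusionSystem T) (h₁s : E₁.IsSaturated p)
    (h₁ : E₁.HasPPowerIndexIn F p) (h₂ : E₂.HasPPowerIndexIn F p) : E₁ ≤ E₂ := by
  apply Cfsg.Agent.S5082.result p hT E₁ h₁s E₂
  intro P hP α hα
  have hfa := fullyAutomized_of_alperin hT E₁ h₁s hP
  have hPT : P ≤ T := hfa.1
  obtain ⟨β, t, s, hβ, hs, ht, hαβ⟩ := autGroup_decomp E₁ hfa α hα
  have hα' : α = (β : MulAut P) * t := MulEquiv.ext hαβ
  rw [hα']
  apply mul_mem
  · have hle : E₁.autGroup P ≤ F.autGroup P := Subgroup.closure_mono (fun γ hγ => h₁.1 P hγ)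
    have h3 := pResidual_transport (p := p) (MonoidHom.id (MulAut P)) (fun _ _ h => h)
      (E₁.autGroup P) (F.autGroup P) (fun a ha => hle ha) β hβ
    exact h₂.2.2 P hPT ⟨_, h3, rfl⟩
  · exact autInducedBy_le_autGroup E₂ hPT (mem_autInducedBy_iff.mpr ⟨s, hs, ht⟩)

theorem pPowerIndex_homEq {p : ℕ} [Fact p.Prime] (F : FusionSystem S) {T₁ T₂ : Subgroup Ω}
    (hT : T₁ = T₂) [Finite T₁] (hp : IsPGroup p T₁) (E₁ : FusionSystem T₁) (E₂ : FusionSystem T₂)
    (h₁s : E₁.IsSaturated p) (h₂s : E₂.IsSaturated p) (h₁ : E₁.HasPPowerIndexIn F p)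
    (h₂ : E₂.HasPPowerIndexIn F p) : HomEq E₁ E₂ := by
  subst hT
  intro P
  exact Set.Subset.antisymm (pPowerIndex_le F hp E₁ E₂ h₁s h₁ h₂ P)
    (pPowerIndex_le F hp E₂ E₁ h₂s h₂ h₁ P)

theorem pPrimeResidual_homEq {T : Subgroup Ω} (D : FusionSystem T) {p : ℕ}
    (D₁ D₂ : FusionSystem T) (h₁ : D.IsPPrimeResidual p D₁) (h₂ : D.IsPPrimeResidual p D₂) :
    HomEq D₁ D₂ :=
  fun P => Set.Subset.antisymm (h₁.2.2 D₂ h₂.1 h₂.2.1 P) (h₂.2.2 D₁ h₁.1 h₁.2.1 P)

theorem pPowerIndex_self (F : FusionSystem S) (p : ℕ) : F.HasPPowerIndexIn F p :=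
  ⟨fun _ => subset_rfl, hyperfocal_le F p, fun P _ => opGen_le F p P⟩

/-- A residual limit of a system that is Hom-equal to a stable system is that stable system. -/
theorem residualLimit_of_stable {p : ℕ} {U T₂ : Subgroup Ω} {L : FusionSystem U}
    {E₂ : FusionSystem T₂} (h : IsResidualLimitOf L E₂ p) :
    ∀ {T : Subgroup Ω} (E : FusionSystem T), Fact p.Prime → Finite T → IsPGroup p T →
      E.hyperfocalSubgroup p = T → E.IsPPrimeResidual p E → HomEq E₂ E → HomEq L E := by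
  induction h with
  | stable F p h1 h2 =>
    intro T E _ _ _ _ _ hEq
    exact hEq
  | step F p D D' hD hD' hlim ih =>
    intro T E hp hfin hTp hhyp hres hEq
    have key : ∀ (D D' : FusionSystem (F.hyperfocalSubgroup p)), F.IsPResidual p D →
        D.IsPPrimeResidual p D' → HomEq D' E := by
      refine hEq.symm.rec' (C := fun {T'} X =>
        ∀ (D D' : FusionSystem (X.hyperfocalSubgroup p)),
          X.IsPResidual p D → D.IsPPrimeResidual p D' → HomEq D' E) ?_
      intro D D' hD hD'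
      have hle : E.hyperfocalSubgroup p ≤ T := hyperfocal_le E p
      haveI : Finite ↥(E.hyperfocalSubgroup p) := finite_of_le hle
      have h1 : HomEq D E := pPowerIndex_homEq E hhyp (hTp.to_le hle) D E hD.1 hres.1 hD.2
        (pPowerIndex_self E p)
      have h2 : ∀ D'' : FusionSystem T, E.IsPPrimeResidual p D'' → HomEq D'' E :=
        fun D'' hD'' => pPrimeResidual_homEq E D'' E hD'' hres
      exact h1.symm.rec' (C := fun {T'} X =>
        ∀ D'' : FusionSystem T', X.IsPPrimeResidual p D'' → HomEq D'' E) h2 D' hD'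
    exact ih E hp hfin hTp hhyp hres (key D D' hD hD')

theorem residualLimit_inv {p : ℕ} {U T : Subgroup Ω} {L : FusionSystem U} {E : FusionSystem T}
    (h : IsResidualLimitOf L E p) :
    (HomEq L E ∧ E.hyperfocalSubgroup p = T ∧ E.IsPPrimeResidual p E) ∨
    ∃ (D D' : FusionSystem (E.hyperfocalSubgroup p)), E.IsPResidual p D ∧
      D.IsPPrimeResidual p D' ∧ IsResidualLimitOf L D' p := by
  cases h with
  | stable _ _ h1 h2 => exact Or.inl ⟨fun _ => rfl, h1, h2⟩
  | step _ _ D D' hD hD' hlim => exact Or.inr ⟨D, D', hD, hD', hlim⟩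

/-- Residual limits of Hom-equal systems are Hom-equal. -/
theorem residualLimit_unique {p : ℕ} {U₁ T₁ : Subgroup Ω} {L₁ : FusionSystem U₁}
    {E₁ : FusionSystem T₁} (h : IsResidualLimitOf L₁ E₁ p) :
    Fact p.Prime → Finite T₁ → IsPGroup p T₁ →
      ∀ {U₂ T₂ : Subgroup Ω} {L₂ : FusionSystem U₂} {E₂ : FusionSystem T₂},
        IsResidualLimitOf L₂ E₂ p → HomEq E₁ E₂ → HomEq L₁ L₂ := by
  induction h with
  | stable F p h1 h2 =>
    intro hp hfin hTp U₂ T₂ L₂ E₂ h2' hEq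
    exact (residualLimit_of_stable h2' F hp hfin hTp h1 h2 hEq.symm).symm
  | step F p D D' hD hD' hlim ih =>
    intro hp hfin hTp U₂ T₂ L₂ E₂ h2' hEq
    rcases residualLimit_inv h2' with ⟨hLE, h1', h2''⟩ | ⟨D₂, D₂', hD₂, hD₂', hlim₂⟩
    · have hT := hEq.base
      subst hT
      have h3 := residualLimit_of_stable (IsResidualLimitOf.step F p D D' hD hD' hlim) E₂ hp hfin
        hTp h1' h2'' hEq
      exact fun P => (h3 P).trans (hLE P).symm
    · have hle := hyperfocal_le F p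
      haveI := hfin
      haveI : Finite ↥(F.hyperfocalSubgroup p) := finite_of_le hle
      have key : ∀ (D₂ D₂' : FusionSystem (E₂.hyperfocalSubgroup p)), E₂.IsPResidual p D₂ →
          D₂.IsPPrimeResidual p D₂' → HomEq D' D₂' := by
        refine hEq.rec' (C := fun {T'} X =>
          ∀ (D₂ D₂' : FusionSystem (X.hyperfocalSubgroup p)), X.IsPResidual p D₂ →
            D₂.IsPPrimeResidual p D₂' → HomEq D' D₂') ?_
        intro D₂ D₂' hD₂ hD₂'
        haveI := hp
        have h1 : HomEq D D₂ :=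
          pPowerIndex_homEq F rfl (hTp.to_le hle) D D₂ hD.1 hD₂.1 hD.2 hD₂.2
        have e : D = D₂ := fusionSystem_ext h1
        subst e
        exact pPrimeResidual_homEq D D' D₂' hD' hD₂'
      exact ih hp inferInstance (hTp.to_le hle) hlim₂ (key D₂ D₂' hD₂ hD₂')

/-- A subsystem of `p`-power index over a strongly closed subgroup has the same hyperfocal
subgroup. -/
theorem hyperfocal_eq_of_pPowerIndex [Finite S] {p : ℕ} [Fact p.Prime] (hS : IsPGroup p S)
    (F : FusionSystem S) {T : Subgroup Ω} (hTsc : F.StronglyClosed T) (E : FusionSystem T)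
    (hidx : E.HasPPowerIndexIn F p) : E.hyperfocalSubgroup p = F.hyperfocalSubgroup p := by
  have hTS := hTsc.1
  apply le_antisymm (hyperfocal_mono F E hidx.1 hTS p)
  show Subgroup.closure _ ≤ _
  rw [Subgroup.closure_le]
  rintro y ⟨P, α, x, hP, hα, rfl⟩
  have hfinP : Finite P := finite_of_le hP
  let 𝒜 : Subgroup (MulAut P) :=
    { carrier := {γ | ∀ z : P, (z : Ω)⁻¹ * ((γ z : P) : Ω) ∈ E.hyperfocalSubgroup p}
      one_mem' := fun z => by
        show (z : Ω)⁻¹ * (z : Ω) ∈ _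
        rw [inv_mul_cancel]
        exact Subgroup.one_mem _
      mul_mem' := by
        intro a b ha hb z
        have e : (z : Ω)⁻¹ * ((a (b z) : P) : Ω) =
            ((z : Ω)⁻¹ * ((b z : P) : Ω)) * (((b z : P) : Ω)⁻¹ * ((a (b z) : P) : Ω)) := by
          group
        show (z : Ω)⁻¹ * ((a (b z) : P) : Ω) ∈ _
        rw [e]
        exact mul_mem (hb z) (ha (b z))
      inv_mem' := by
        intro a ha z
        have h1 := ha (a⁻¹ z)
        rw [MulAut.apply_inv_self] at h1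
        have e : (z : Ω)⁻¹ * ((a⁻¹ z : P) : Ω) = (((a⁻¹ z : P) : Ω)⁻¹ * (z : Ω))⁻¹ := by group
        show (z : Ω)⁻¹ * ((a⁻¹ z : P) : Ω) ∈ _
        rw [e]
        exact inv_mem h1 }
  suffices h : opGen F p P ≤ 𝒜 from h ⟨α, hα, rfl⟩ x
  apply opGen_le_of
  intro β hβ hcop z
  -- powers of `β` lie in `O^p`
  have hcopm : ∀ m : ℕ, Nat.Coprime (orderOf (β ^ m)) p :=
    fun m => Nat.Coprime.coprime_dvd_left (orderOf_pow_dvd m) hcop
  have hcT : ∀ m : ℕ, (z : Ω)⁻¹ * (((β ^ m) z : P) : Ω) ∈ T := by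
    intro m
    apply hidx.2.1
    have hm : (⟨β ^ m, pow_mem hβ m⟩ : F.autGroup P) ∈ pResidual p (F.autGroup P) := by
      apply Subgroup.subset_closure
      show Nat.Coprime (orderOf (⟨β ^ m, pow_mem hβ m⟩ : F.autGroup P)) p
      rw [Subgroup.orderOf_mk]
      exact hcopm m
    exact mem_hyperfocal F p hP ⟨β ^ m, pow_mem hβ m⟩ hm z
  -- the key property on `P ⊓ T`
  have hstar : ∀ h : P, (h : Ω) ∈ T →
      (h : Ω)⁻¹ * ((β h : P) : Ω) ∈ E.hyperfocalSubgroup p := by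
    intro h hhT
    have hVP : P ⊓ T ≤ P := inf_le_left
    have hfinV : Finite ↥(P ⊓ T) := finite_of_le (hVP.trans hP)
    have hmap : ∀ x : ↥(P ⊓ T), ((β (Subgroup.inclusion hVP x) : P) : Ω) ∈ P ⊓ T :=
      fun x => ⟨(β _).2, stronglyClosed_aut_invariant F hTsc hP hβ _ x.2.2⟩
    obtain ⟨κ, hκ, eκ⟩ := exists_autGroup_restrict F hP hVP hβ hmap
    have hpow : ∀ (m : ℕ) (x : ↥(P ⊓ T)),
        (β ^ m) (Subgroup.inclusion hVP x) = Subgroup.inclusion hVP ((κ ^ m) x) := by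
      intro m
      induction m with
      | zero => intro x; rfl
      | succ m ih =>
        intro x
        rw [pow_succ', pow_succ', MulAut.mul_apply, MulAut.mul_apply, ih, eκ]
    have hκ1 : κ ^ orderOf β = 1 := by
      apply MulEquiv.ext
      intro x
      have h1 := hpow (orderOf β) x
      rw [pow_orderOf_eq_one] at h1
      exact (Subgroup.inclusion_injective hVP h1).symm
    have hκcop : Nat.Coprime (orderOf κ) p :=
      Nat.Coprime.coprime_dvd_left (orderOf_dvd_of_pow_eq_one hκ1) hcop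
    have hκE : κ ∈ E.autGroup (P ⊓ T) := hidx.2.2 (P ⊓ T) inf_le_right (mem_opGen F hκ hκcop)
    have hκres : (⟨κ, hκE⟩ : E.autGroup (P ⊓ T)) ∈ pResidual p (E.autGroup (P ⊓ T)) := by
      apply Subgroup.subset_closure
      show Nat.Coprime (orderOf (⟨κ, hκE⟩ : E.autGroup (P ⊓ T))) p
      rw [Subgroup.orderOf_mk]
      exact hκcop
    have h2 := mem_hyperfocal E p (inf_le_right : P ⊓ T ≤ T) ⟨κ, hκE⟩ hκres ⟨h, ⟨h.2, hhT⟩⟩
    have h3 := congrArg (fun w : P => (w : Ω)) (eκ ⟨h, ⟨h.2, hhT⟩⟩)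
    have h4 : ((β h : P) : Ω) = ((κ ⟨h, ⟨h.2, hhT⟩⟩ : ↥(P ⊓ T)) : Ω) := h3
    rw [h4]
    exact h2
  -- the induction
  have hind : ∀ m : ℕ, (((z : Ω)⁻¹ * ((β z : P) : Ω)) ^ m)⁻¹ *
      ((z : Ω)⁻¹ * (((β ^ m) z : P) : Ω)) ∈ E.hyperfocalSubgroup p := by
    intro m
    induction m with
    | zero =>
      show (((z : Ω)⁻¹ * ((β z : P) : Ω)) ^ 0)⁻¹ * ((z : Ω)⁻¹ * (z : Ω)) ∈ _
      rw [pow_zero, inv_one, one_mul, inv_mul_cancel]
      exact Subgroup.one_mem _
    | succ m ih =>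
      have h1 := hstar (z⁻¹ * (β ^ m) z) (hcT m)
      have e1 : (β ^ (m + 1)) z = β z * β (z⁻¹ * (β ^ m) z) := by
        rw [map_mul, map_inv, mul_inv_cancel_left, pow_succ', MulAut.mul_apply]
      have e2 : (((z : Ω)⁻¹ * ((β z : P) : Ω)) ^ (m + 1))⁻¹ *
          ((z : Ω)⁻¹ * (((β ^ (m + 1)) z : P) : Ω)) =
          ((((z : Ω)⁻¹ * ((β z : P) : Ω)) ^ m)⁻¹ * ((z : Ω)⁻¹ * (((β ^ m) z : P) : Ω))) *
          ((((z⁻¹ * (β ^ m) z : P)) : Ω)⁻¹ * ((β (z⁻¹ * (β ^ m) z) : P) : Ω)) := by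
        rw [e1, pow_succ']
        push_cast
        generalize ((z : Ω)⁻¹ * ((β z : P) : Ω)) ^ m = w
        group
      rw [e2]
      exact mul_mem ih h1
  have hn := hind (orderOf β)
  rw [pow_orderOf_eq_one] at hn
  have hn' : (((z : Ω)⁻¹ * ((β z : P) : Ω)) ^ orderOf β) ∈ E.hyperfocalSubgroup p := by
    have h5 : (z : Ω)⁻¹ * (((1 : MulAut P) z : P) : Ω) = 1 := inv_mul_cancel _
    rw [h5, mul_one] at hn
    exact (Subgroup.inv_mem_iff _).mp hn
  -- coprimality
  have hPp : IsPGroup p P := hS.to_le hP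
  obtain ⟨k, hk⟩ := IsPGroup.iff_orderOf.mp hPp (z⁻¹ * β z)
  have hord : orderOf ((z : Ω)⁻¹ * ((β z : P) : Ω)) = p ^ k := by
    rw [← hk]
    exact Subgroup.orderOf_coe (z⁻¹ * β z)
  have hc2 : (orderOf β).Coprime (orderOf ((z : Ω)⁻¹ * ((β z : P) : Ω))) := by
    rw [hord]
    exact Nat.Coprime.pow_right k hcop
  obtain ⟨m, hm⟩ := exists_pow_eq_self_of_coprime hc2
  show (z : Ω)⁻¹ * ((β z : P) : Ω) ∈ E.hyperfocalSubgroup p
  rw [← hm]
  exact pow_mem hn' m

/-- Residual limits of a system and of a saturated subsystem of `p`-power index over a strongly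
closed subgroup agree. -/
theorem residualLimit_of_pPowerIndex [Finite S] {p : ℕ} [Fact p.Prime] (hS : IsPGroup p S)
    (F : FusionSystem S) (hF : F.IsSaturated p) {T : Subgroup Ω} (hTsc : F.StronglyClosed T)
    (E : FusionSystem T) (hEs : E.IsSaturated p) (hidx : E.HasPPowerIndexIn F p)
    {U V : Subgroup Ω} (Finf : FusionSystem U) (hFinf : Finf.IsResidualLimitOf F p)
    (Einf : FusionSystem V) (hEinf : Einf.IsResidualLimitOf E p) : HomEq Finf Einf := by
  have hTS := hTsc.1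
  have hfinT : Finite T := finite_of_le hTS
  have hTp : IsPGroup p T := hS.to_le hTS
  have hhyp := hyperfocal_eq_of_pPowerIndex hS F hTsc E hidx
  rcases residualLimit_inv hFinf with ⟨hLF, h1, h2⟩ | ⟨D, D', hD, hD', hlim⟩
  · -- `F` stable
    have hTeq : T = S := le_antisymm hTS (h1 ▸ hidx.2.1)
    have hEF : HomEq E F := pPowerIndex_homEq F hTeq hTp E F hEs hF hidx (pPowerIndex_self F p)
    have h3 := residualLimit_of_stable hEinf F inferInstance inferInstance hS h1 h2 hEF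
    exact fun P => (hLF P).trans (h3 P).symm
  · have hleF := hyperfocal_le F p
    have hfinH : Finite ↥(F.hyperfocalSubgroup p) := finite_of_le hleF
    have hHp : IsPGroup p ↥(F.hyperfocalSubgroup p) := hS.to_le hleF
    rcases residualLimit_inv hEinf with ⟨hLE, h1, h2⟩ | ⟨D₂, D₂', hD₂, hD₂', hlim₂⟩
    · -- `E` stable
      have hTeq : F.hyperfocalSubgroup p = T := hhyp.symm.trans h1
      have hDE : HomEq D E := pPowerIndex_homEq F hTeq hHp D E hD.1 hEs hD.2 hidx
      have h3 : ∀ D'' : FusionSystem T, E.IsPPrimeResidual p D'' → HomEq D'' E :=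
        fun D'' hD'' => pPrimeResidual_homEq E D'' E hD'' h2
      have h4 : HomEq D' E := hDE.symm.rec' (C := fun {T'} X =>
        ∀ D'' : FusionSystem T', X.IsPPrimeResidual p D'' → HomEq D'' E) h3 D' hD'
      have h5 := residualLimit_of_stable hlim E inferInstance hfinT hTp h1 h2 h4
      exact fun P => (h5 P).trans (hLE P).symm
    · -- both steps
      have hD₂F : D₂.HasPPowerIndexIn F p := by
        refine ⟨fun P φ hφ => hidx.1 P (hD₂.2.1 P hφ), hhyp.ge, fun P hP => ?_⟩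
        have hPT : P ≤ T := hP.trans (hyperfocal_le E p)
        refine le_trans ?_ (hD₂.2.2.2 P hP)
        apply opGen_le_of
        intro β hβ hcop
        exact mem_opGen E (hidx.2.2 P hPT (mem_opGen F hβ hcop)) hcop
      have hDD₂ : HomEq D D₂ :=
        pPowerIndex_homEq F hhyp.symm hHp D D₂ hD.1 hD₂.1 hD.2 hD₂F
      have h3 : ∀ D'' : FusionSystem (F.hyperfocalSubgroup p), D.IsPPrimeResidual p D'' →
          HomEq D' D'' := fun D'' hD'' => pPrimeResidual_homEq D D' D'' hD' hD''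
      have h4 : HomEq D' D₂' := hDD₂.rec' (C := fun {T'} X =>
        ∀ D'' : FusionSystem T', X.IsPPrimeResidual p D'' → HomEq D' D'') h3 D₂' hD₂'
      exact residualLimit_unique hlim inferInstance hfinH hHp hlim₂ h4

end Cfsg.Agent.Lib.Helper26
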