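import Mathlib
import Cfsg.Agent.Lib.Helper26.FusNorm

set_option autoImplicit false

namespace Cfsg.Agent.Lib.Helper26

open Cfsg

open scoped Pointwise

theorem eq_one_of_pow_pow {M : Type*} [Group M] {p q : ℕ} (hp : p.Prime) (hq : q.Prime)
    (hpq : p ≠ q) {y : M} {a b : ℕ} (h1 : y ^ p ^ a = 1) (h2 : y ^ q ^ b = 1) : y = 1 := by
  have d1 := orderOf_dvd_of_pow_eq_one h1
  have d2 := orderOf_dvd_of_pow_eq_one h2
  have hc : (p ^ a).Coprime (q ^ b) := Nat.Coprime.pow _ _ ((Nat.coprime_primes hp hq).mpr hpq)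
  exact orderOf_eq_one_iff.mp (Nat.dvd_one.mp (hc ▸ Nat.dvd_gcd d1 d2))

theorem isPGroup_zpowers_of_pow {G : Type*} [Group G] {p : ℕ} {g : G} {k : ℕ}
    (h : g ^ p ^ k = 1) : IsPGroup p (Subgroup.zpowers g) := by
  rintro ⟨x, hx⟩
  obtain ⟨n, rfl⟩ := Subgroup.mem_zpowers_iff.mp hx
  refine ⟨k, Subtype.ext ?_⟩
  show (g ^ n) ^ p ^ k = 1
  rw [← zpow_natCast, ← zpow_mul, mul_comm, zpow_mul, zpow_natCast, h, one_zpow]

/-- The group-theoretic core of the Tate-type argument: a finite group with a self-normalizing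
Sylow `p`-subgroup `S₀`, a normal subgroup `Q₀` between the derived and the Frattini subgroup of
`S₀`, and a normal self-centralizing `p`-subgroup `R₀ ≥ Q₀`, is a `p`-group. -/
theorem tate_core {M : Type*} [Group M] [Finite M] {p : ℕ} [hp : Fact p.Prime]
    (S₀ Q₀ R₀ : Subgroup M)
    (hSp : IsPGroup p S₀) (hmax : ∀ P : Subgroup M, IsPGroup p P → S₀ ≤ P → P = S₀)
    (hQR : Q₀ ≤ R₀) (hRS : R₀ ≤ S₀) (hQn : Q₀.Normal) (hRn : R₀.Normal)
    (hcent : Subgroup.centralizer (R₀ : Set M) ≤ R₀)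
    (hnorm : Subgroup.normalizer (S₀ : Set M) ≤ S₀)
    (hcomm : ∀ x ∈ S₀, ∀ y ∈ S₀, x * y * x⁻¹ * y⁻¹ ∈ Q₀)
    (hfrat : ∀ P₁ : Subgroup M, P₁ ≤ S₀ → Q₀ ⊔ P₁ = S₀ → P₁ = S₀) : S₀ = ⊤ := by
  classical
  have hQS : Q₀ ≤ S₀ := hQR.trans hRS
  let P : Sylow p M := ⟨S₀, hSp, fun {Q} hQ hle => hmax Q hQ hle⟩
  let f := QuotientGroup.mk' Q₀
  have hf : Function.Surjective f := QuotientGroup.mk'_surjective Q₀
  let Pb : Sylow p (M ⧸ Q₀) := P.mapSurjective hf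
  have hNC : Subgroup.normalizer ((Pb : Subgroup (M ⧸ Q₀)) : Set (M ⧸ Q₀)) ≤
      Subgroup.centralizer ((Pb : Subgroup (M ⧸ Q₀)) : Set (M ⧸ Q₀)) := by
    intro mb hmb
    obtain ⟨m, rfl⟩ := hf mb
    have hmS : m ∈ S₀ := by
      apply hnorm
      apply mem_normalizer_of_conj_mem
      intro s hs
      have h1 : f m * f s * (f m)⁻¹ ∈ (Pb : Subgroup (M ⧸ Q₀)) :=
        (Subgroup.mem_normalizer_iff.mp hmb (f s)).mp ⟨s, hs, rfl⟩
      obtain ⟨s', hs', hs'e⟩ := h1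
      have h2 : f s' = f (m * s * m⁻¹) := by rw [hs'e, map_mul, map_mul, map_inv]
      have h3 : s'⁻¹ * (m * s * m⁻¹) ∈ Q₀ := QuotientGroup.eq.mp h2
      have h4 : m * s * m⁻¹ = s' * (s'⁻¹ * (m * s * m⁻¹)) := by group
      rw [h4]
      exact S₀.mul_mem hs' (hQS h3)
    rw [Subgroup.mem_centralizer_iff]
    rintro _ ⟨s, hs, rfl⟩
    have h5 := hcomm m⁻¹ (inv_mem hmS) s⁻¹ (inv_mem hs)
    rw [← map_mul, ← map_mul]
    apply QuotientGroup.eq.mpr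
    have h6 : (s * m)⁻¹ * (m * s) = m⁻¹ * s⁻¹ * m⁻¹⁻¹ * s⁻¹⁻¹ := by group
    rw [h6]
    exact h5
  have hcompl : Subgroup.IsComplement' (MonoidHom.transferSylow Pb hNC).ker
      (Pb : Subgroup (M ⧸ Q₀)) := MonoidHom.ker_transferSylow_isComplement' Pb hNC
  have hdisj : ∀ Q' : Subgroup (M ⧸ Q₀), IsPGroup p Q' →
      Disjoint (MonoidHom.transferSylow Pb hNC).ker Q' :=
    MonoidHom.ker_transferSylow_disjoint Pb hNC
  let L : Subgroup M := (MonoidHom.transferSylow Pb hNC).ker.comap f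
  haveI hLn : L.Normal := Subgroup.Normal.comap (MonoidHom.normal_ker _) f
  have hLS : ∀ m : M, ∃ l ∈ L, ∃ s ∈ S₀, m = l * s := by
    intro m
    obtain ⟨⟨k, t⟩, hkt⟩ := hcompl.2 (f m)
    obtain ⟨s, hs, hst⟩ : ∃ s ∈ S₀, f s = t.1 := t.2
    refine ⟨m * s⁻¹, ?_, s, hs, by group⟩
    show f (m * s⁻¹) ∈ (MonoidHom.transferSylow Pb hNC).ker
    have h1 : f (m * s⁻¹) = k.1 := by
      have h2 : (k.1 : M ⧸ Q₀) * t.1 = f m := hkt
      rw [map_mul, map_inv, hst, ← h2, mul_inv_cancel_right]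
    rw [h1]
    exact k.2
  have hpL : ∀ y ∈ L, (∃ k : ℕ, y ^ p ^ k = 1) → y ∈ Q₀ := by
    rintro y hy ⟨k, hk⟩
    have h0 : (f y) ^ p ^ k = 1 := by rw [← map_pow, hk, map_one]
    have h1 : IsPGroup p (Subgroup.zpowers (f y)) := isPGroup_zpowers_of_pow h0
    have h2 := hdisj _ h1
    have h3 : f y ∈ (MonoidHom.transferSylow Pb hNC).ker ⊓ Subgroup.zpowers (f y) :=
      ⟨hy, Subgroup.mem_zpowers _⟩
    rw [disjoint_iff.mp h2, Subgroup.mem_bot] at h3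
    exact (QuotientGroup.eq_one_iff y).mp h3
  -- every prime divisor of |L| is p
  have hq : ∀ q : ℕ, q.Prime → q ∣ Nat.card L → q = p := by
    intro q hqp hqd
    by_contra hqne
    haveI : Fact q.Prime := ⟨hqp⟩
    obtain ⟨Y₀⟩ : Nonempty (Sylow q ↥L) := inferInstance
    have hY₀ne : (Y₀ : Subgroup L) ≠ ⊥ := Y₀.ne_bot_of_dvd_card hqd
    obtain ⟨⟨y₀, hy₀⟩, hy₀1⟩ := (Subgroup.ne_bot_iff_exists_ne_one).mp hY₀ne
    have hfr := Sylow.normalizer_sup_eq_top Y₀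
    obtain ⟨H, hH⟩ : ∃ H : Subgroup M, H = Subgroup.normalizer
      (((Y₀ : Subgroup L).map L.subtype : Subgroup M) : Set M) := ⟨_, rfl⟩
    rw [← hH] at hfr
    obtain ⟨T₁⟩ : Nonempty (Sylow p ↥H) := inferInstance
    let φ : ↥H →* M ⧸ L := (QuotientGroup.mk' L).comp H.subtype
    have hφ : Function.Surjective φ := by
      intro mb
      obtain ⟨m, rfl⟩ := QuotientGroup.mk'_surjective L mb
      have hm : m ∈ ((H ⊔ L : Subgroup M) : Set M) := by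
        rw [hfr]
        exact Set.mem_univ m
      rw [Subgroup.mul_normal H L] at hm
      obtain ⟨h, hh, l, hl, rfl⟩ := Set.mem_mul.mp hm
      refine ⟨⟨h, hh⟩, ?_⟩
      show (QuotientGroup.mk' L) h = (QuotientGroup.mk' L) (h * l)
      have hl1 : (QuotientGroup.mk' L) l = 1 := (QuotientGroup.eq_one_iff l).mpr hl
      rw [map_mul, hl1, mul_one]
    have hML : IsPGroup p (M ⧸ L) := by
      intro mb
      obtain ⟨m, rfl⟩ := QuotientGroup.mk'_surjective L mb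
      obtain ⟨l, hl, s, hs, rfl⟩ := hLS m
      obtain ⟨k, hk⟩ := hSp ⟨s, hs⟩
      refine ⟨k, ?_⟩
      have hl1 : (QuotientGroup.mk' L) l = 1 := (QuotientGroup.eq_one_iff l).mpr hl
      have h1 : (QuotientGroup.mk' L) (l * s) = (QuotientGroup.mk' L) s := by
        rw [map_mul, hl1, one_mul]
      have h2 : s ^ p ^ k = 1 := congrArg Subtype.val hk
      rw [h1, ← map_pow, h2, map_one]
    let Tb : Sylow p (M ⧸ L) := T₁.mapSurjective hφ
    have hTb : (⊤ : Subgroup (M ⧸ L)) = (Tb : Subgroup (M ⧸ L)) :=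
      Tb.is_maximal' (hML.to_subgroup ⊤) le_top
    have hcover : ∀ m : M, ∃ t ∈ (T₁ : Subgroup H), ((t : H) : M)⁻¹ * m ∈ L := by
      intro m
      have h1 : (QuotientGroup.mk' L) m ∈ (Tb : Subgroup (M ⧸ L)) := hTb ▸ Subgroup.mem_top _
      obtain ⟨t, ht, hte⟩ := h1
      exact ⟨t, ht, QuotientGroup.eq.mp hte⟩
    have hP₁p : IsPGroup p ((T₁ : Subgroup H).map H.subtype) := T₁.isPGroup'.map H.subtype
    have hP₁H : (T₁ : Subgroup H).map H.subtype ≤ H := Subgroup.map_subtype_le _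
    obtain ⟨P', hP'⟩ := hP₁p.exists_le_sylow
    obtain ⟨g, hg⟩ := MulAction.exists_smul_eq M P P'
    have hP'mem : ∀ x, x ∈ (P' : Subgroup M) ↔ g⁻¹ * x * g ∈ S₀ := by
      intro x
      rw [← hg]
      show x ∈ MulAut.conj g • (P : Subgroup M) ↔ _
      rw [Subgroup.mem_pointwise_smul_iff_inv_smul_mem]
      have h1 : (MulAut.conj g)⁻¹ • x = g⁻¹ * x * g := by
        rw [← map_inv]
        show g⁻¹ * x * g⁻¹⁻¹ = _
        rw [inv_inv]
      rw [h1]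
    have hP₂S : ((T₁ : Subgroup H).map H.subtype).map (MulAut.conj g⁻¹).toMonoidHom ≤ S₀ := by
      rintro _ ⟨x, hx, rfl⟩
      show g⁻¹ * x * g⁻¹⁻¹ ∈ S₀
      rw [inv_inv]
      exact (hP'mem x).mp (hP' hx)
    have hsup : Q₀ ⊔ ((T₁ : Subgroup H).map H.subtype).map (MulAut.conj g⁻¹).toMonoidHom = S₀ := by
      apply le_antisymm (sup_le hQS hP₂S)
      intro s hs
      have hx : g * s * g⁻¹ ∈ (P' : Subgroup M) := by
        apply (hP'mem _).mpr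
        have h1 : g⁻¹ * (g * s * g⁻¹) * g = s := by group
        rw [h1]
        exact hs
      obtain ⟨t, ht, htl⟩ := hcover (g * s * g⁻¹)
      have htP₁ : ((t : H) : M) ∈ (T₁ : Subgroup H).map H.subtype := ⟨t, ht, rfl⟩
      have htP' : ((t : H) : M) ∈ (P' : Subgroup M) := hP' htP₁
      have hlP' : ((t : H) : M)⁻¹ * (g * s * g⁻¹) ∈ (P' : Subgroup M) := mul_mem (inv_mem htP') hx
      obtain ⟨k, hk⟩ := P'.isPGroup' ⟨_, hlP'⟩
      have hlQ : ((t : H) : M)⁻¹ * (g * s * g⁻¹) ∈ Q₀ :=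
        hpL _ htl ⟨k, congrArg Subtype.val hk⟩
      have hs' : s = (g⁻¹ * ((t : H) : M) * g⁻¹⁻¹) *
          (g⁻¹ * (((t : H) : M)⁻¹ * (g * s * g⁻¹)) * g) := by group
      rw [hs', sup_comm]
      exact Subgroup.mul_mem_sup ⟨_, htP₁, rfl⟩ (hQn.conj_mem' _ hlQ g)
    have hP₂ := hfrat _ hP₂S hsup
    have hQH : Q₀ ≤ H := by
      intro c hc
      have h1 : g⁻¹ * c * g ∈
          ((T₁ : Subgroup H).map H.subtype).map (MulAut.conj g⁻¹).toMonoidHom := by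
        rw [hP₂]
        exact hQS (hQn.conj_mem' c hc g)
      obtain ⟨x, hx, hxe⟩ := h1
      have h2 : g⁻¹ * x * g⁻¹⁻¹ = g⁻¹ * c * g := hxe
      rw [inv_inv] at h2
      have h3 : x = c := mul_left_cancel (mul_right_cancel h2)
      rw [← h3]
      exact hP₁H hx
    have hyL : (y₀ : M) ∈ L := y₀.2
    have hyY : (y₀ : M) ∈ (Y₀ : Subgroup L).map L.subtype := ⟨y₀, hy₀, rfl⟩
    obtain ⟨b, hb⟩ := Y₀.isPGroup' ⟨y₀, hy₀⟩
    have hyq : (y₀ : M) ^ q ^ b = 1 := by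
      have h1 : ((y₀ ^ q ^ b : L) : M) = ((1 : L) : M) := congrArg (fun z : L => (z : M))
        (congrArg Subtype.val hb)
      simpa using h1
    have hpq : p ≠ q := fun h => hqne h.symm
    have hyQ : ∀ c ∈ Q₀, c * (y₀ : M) = (y₀ : M) * c := by
      intro c hc
      have hcN : c ∈ Subgroup.normalizer
          (((Y₀ : Subgroup L).map L.subtype : Subgroup M) : Set M) := hH ▸ hQH hc
      have h1 : c * (y₀ : M) * c⁻¹ ∈ (Y₀ : Subgroup L).map L.subtype :=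
        (Subgroup.mem_normalizer_iff.mp hcN _).mp hyY
      have hwY : c * (y₀ : M) * c⁻¹ * (y₀ : M)⁻¹ ∈ (Y₀ : Subgroup L).map L.subtype :=
        mul_mem h1 (inv_mem hyY)
      have hwQ : c * (y₀ : M) * c⁻¹ * (y₀ : M)⁻¹ ∈ Q₀ := by
        have h2 : c * (y₀ : M) * c⁻¹ * (y₀ : M)⁻¹ = c * ((y₀ : M) * c⁻¹ * (y₀ : M)⁻¹) := by group
        rw [h2]
        exact mul_mem hc (hQn.conj_mem _ (inv_mem hc) _)
      have hw1 : c * (y₀ : M) * c⁻¹ * (y₀ : M)⁻¹ = 1 := by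
        obtain ⟨w₀, hw₀, hw₀e⟩ := hwY
        obtain ⟨b', hb'⟩ := Y₀.isPGroup' ⟨w₀, hw₀⟩
        obtain ⟨a', ha'⟩ := hSp ⟨_, hQS hwQ⟩
        have h3 : ((w₀ ^ q ^ b' : L) : M) = ((1 : L) : M) := congrArg (fun z : L => (z : M))
          (congrArg Subtype.val hb')
        have h4 : (c * (y₀ : M) * c⁻¹ * (y₀ : M)⁻¹) ^ q ^ b' = 1 := by
          rw [← hw₀e]
          simpa using h3
        exact eq_one_of_pow_pow hp.out hqp hpq (congrArg Subtype.val ha') h4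
      calc c * (y₀ : M) = (c * (y₀ : M) * c⁻¹ * (y₀ : M)⁻¹) * ((y₀ : M) * c) := by group
        _ = (y₀ : M) * c := by rw [hw1, one_mul]
    have hyR : (y₀ : M) ∈ Subgroup.centralizer (R₀ : Set M) := by
      rw [Subgroup.mem_centralizer_iff]
      intro r hr
      have hcR : (y₀ : M) * r * (y₀ : M)⁻¹ * r⁻¹ ∈ R₀ :=
        mul_mem (hRn.conj_mem r hr _) (inv_mem hr)
      have hcL : (y₀ : M) * r * (y₀ : M)⁻¹ * r⁻¹ ∈ L := by
        have h2 : (y₀ : M) * r * (y₀ : M)⁻¹ * r⁻¹ = (y₀ : M) * (r * (y₀ : M)⁻¹ * r⁻¹) := by group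
        rw [h2]
        exact mul_mem hyL (hLn.conj_mem _ (inv_mem hyL) r)
      obtain ⟨a', ha'⟩ := hSp ⟨_, hRS hcR⟩
      have ha'' : ((y₀ : M) * r * (y₀ : M)⁻¹ * r⁻¹) ^ p ^ a' = 1 := congrArg Subtype.val ha'
      have hcQ : (y₀ : M) * r * (y₀ : M)⁻¹ * r⁻¹ ∈ Q₀ := hpL _ hcL ⟨a', ha''⟩
      have hcy := hyQ _ hcQ
      have hpow : ∀ n : ℕ, (y₀ : M) ^ n * r * ((y₀ : M) ^ n)⁻¹ =
          ((y₀ : M) * r * (y₀ : M)⁻¹ * r⁻¹) ^ n * r := by
        intro n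
        induction n with
        | zero => simp
        | succ n ih =>
          have hcyn : ((y₀ : M) * r * (y₀ : M)⁻¹ * r⁻¹) ^ n * (y₀ : M) =
              (y₀ : M) * ((y₀ : M) * r * (y₀ : M)⁻¹ * r⁻¹) ^ n :=
            (Commute.pow_left (show Commute _ _ from hcy) n).eq
          calc (y₀ : M) ^ (n + 1) * r * ((y₀ : M) ^ (n + 1))⁻¹
              = (y₀ : M) * ((y₀ : M) ^ n * r * ((y₀ : M) ^ n)⁻¹) * (y₀ : M)⁻¹ := by
                rw [pow_succ']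
                group
            _ = (y₀ : M) * (((y₀ : M) * r * (y₀ : M)⁻¹ * r⁻¹) ^ n * r) * (y₀ : M)⁻¹ := by rw [ih]
            _ = ((y₀ : M) * ((y₀ : M) * r * (y₀ : M)⁻¹ * r⁻¹) ^ n) * (r * (y₀ : M)⁻¹) := by group
            _ = (((y₀ : M) * r * (y₀ : M)⁻¹ * r⁻¹) ^ n * (y₀ : M)) * (r * (y₀ : M)⁻¹) := by
                rw [hcyn]
            _ = ((y₀ : M) * r * (y₀ : M)⁻¹ * r⁻¹) ^ n * ((y₀ : M) * r * (y₀ : M)⁻¹ * r⁻¹) * r := by
                group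
            _ = ((y₀ : M) * r * (y₀ : M)⁻¹ * r⁻¹) ^ (n + 1) * r := by rw [pow_succ]
      have h1 := hpow (q ^ b)
      rw [hyq, one_mul, inv_one, mul_one] at h1
      have hcq : ((y₀ : M) * r * (y₀ : M)⁻¹ * r⁻¹) ^ q ^ b = 1 := (mul_eq_right.mp h1.symm)
      have hc1 : (y₀ : M) * r * (y₀ : M)⁻¹ * r⁻¹ = 1 :=
        eq_one_of_pow_pow hp.out hqp hpq ha'' hcq
      calc r * (y₀ : M) = ((y₀ : M) * r * (y₀ : M)⁻¹ * r⁻¹)⁻¹ * ((y₀ : M) * r) := by group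
        _ = (y₀ : M) * r := by rw [hc1, inv_one, one_mul]
    have hyS : (y₀ : M) ∈ S₀ := hRS (hcent hyR)
    obtain ⟨a', ha'⟩ := hSp ⟨_, hyS⟩
    have hy1 : (y₀ : M) = 1 := eq_one_of_pow_pow hp.out hqp hpq (congrArg Subtype.val ha') hyq
    exact hy₀1 (Subtype.ext (Subtype.ext hy1))
  -- L is a p-group
  have hLcard : Nat.card L = p ^ (Nat.card L).primeFactorsList.length :=
    Nat.eq_prime_pow_of_unique_prime_dvd Nat.card_pos.ne' (fun {d} hd hdvd => hq d hd hdvd)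
  have hLp : IsPGroup p L := IsPGroup.of_card hLcard
  apply top_le_iff.mp
  intro m _
  obtain ⟨l, hl, s, hs, rfl⟩ := hLS m
  obtain ⟨k, hk⟩ := hLp ⟨l, hl⟩
  exact S₀.mul_mem (hQS (hpL l hl ⟨k, congrArg Subtype.val hk⟩)) hs

end Cfsg.Agent.Lib.Helper26
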