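import Mathlib
import Cfsg.Agent.Lib.Helper26.FusPreModel
import Cfsg.Agent.Lib.Helper26.TateCore
import Cfsg.Agent.Lib.Helper26.FusExt
import Cfsg.Agent.S5080
import Cfsg.Agent.S5082

set_option autoImplicit false

namespace Cfsg.Agent.Lib.Helper26

open Cfsg Cfsg.FusionSystem

universe u

variable {Ω : Type u} [Group Ω] {T : Subgroup Ω}

/-- Tate-type theorem for fusion systems, local form: if `Q` is normal in the saturated system
`N` over `T`, lies between the derived and the Frattini subgroup of `T`, and every map of `N`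
defined on `T` is inner, then the automizer of every essential subgroup is induced by `T`. -/
theorem tate_autGroup [Finite T] {p : ℕ} [Fact p.Prime] (hT : IsPGroup p T) (N : FusionSystem T)
    (hN : N.IsSaturated p) {Q : Subgroup Ω} (hQn : N.IsNormal Q)
    (hself : ∀ φ ∈ N.Hom T, ∃ g ∈ T, ∀ x : T, φ x = g * x * g⁻¹)
    (hcomm : ∀ x ∈ T, ∀ y ∈ T, x * y * x⁻¹ * y⁻¹ ∈ Q)
    (hfrat : ∀ P₁ : Subgroup Ω, P₁ ≤ T → Q ⊔ P₁ = T → P₁ = T)
    {R : Subgroup Ω} (hess : N.IsEssential p R) : N.autGroup R ≤ autInducedBy T R := by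
  classical
  have hRrad : N.IsRadical p R := Cfsg.Agent.S5080.result p hT N hN R hess
  have hRc : N.IsCentric R := hess.1
  have hRfn : N.IsFullyNormalized R := hess.2.1
  have hRT : R ≤ T := hRc.1
  have hfinR : Finite R := finite_of_le hRT
  have hQR : Q ≤ R := normal_le_of_centric_radical hT N hQn hRc hRrad
  have hRnorm : T ≤ Subgroup.normalizer (R : Set Ω) := by
    intro t ht
    apply mem_normalizer_of_conj_mem
    intro r hr
    have h1 := hcomm t ht r (hRT hr)
    have h2 : t * r * t⁻¹ = (t * r * t⁻¹ * r⁻¹) * r := by group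
    rw [h2]
    exact R.mul_mem (hQR h1) hr
  have hcen : centralizerIn T R ≤ R := hRc.2 R (isConj_refl N hRT)
  obtain ⟨hfc, haut⟩ := fullyNormalized_props hT N hN hRfn
  have hrec := fullyCentralized_receptive hT N hN hfc
  obtain ⟨M, iM, fM, ι, ρ, hι, hρι, hsurj, hρA, hker, hconj⟩ :=
    exists_premodel hT N hRT hRnorm hcen hrec haut
  let j : R →* T := Subgroup.inclusion hRT
  have hsc := stronglyClosed_of_isNormal N hQn
  have hkey : ∀ m : M, ρ m ∈ autInducedBy T R → m ∈ ι.range := by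
    intro m hm
    obtain ⟨g, hg, hgx⟩ := mem_autInducedBy_iff.mp hm
    have h1 : ρ (m * (ι ⟨g, hg⟩)⁻¹) = 1 := by
      rw [map_mul, map_inv, mul_inv_eq_one]
      apply MulEquiv.ext
      intro x
      apply Subtype.ext
      rw [hgx, hρι]
    obtain ⟨z, -, hz⟩ := hker _ h1
    have h2 : m = ι ⟨z, hRT z.2⟩ * ι ⟨g, hg⟩ := by
      rw [← hz]
      group
    rw [h2, ← map_mul]
    exact ⟨_, rfl⟩
  have hQ₀n : ((Q.subgroupOf R).map (ι.comp j)).Normal := by
    constructor
    rintro _ ⟨q, hq, rfl⟩ m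
    have h1 : m * ι (j q) * m⁻¹ = ι (j (ρ m q)) := hconj m q
    refine ⟨ρ m q, ?_, h1.symm⟩
    exact Subgroup.mem_subgroupOf.mpr
      (stronglyClosed_aut_invariant N hsc hRT (hρA m) q (Subgroup.mem_subgroupOf.mp hq))
  have htop : ι.range = ⊤ := by
    apply tate_core (p := p) ι.range ((Q.subgroupOf R).map (ι.comp j)) (ι.comp j).range
    · exact hT.of_surjective ι.rangeRestrict ι.rangeRestrict_surjective
    · intro P hP hle
      apply le_antisymm _ hle
      intro m hmP
      apply hkey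
      obtain ⟨Syl, hSyl⟩ := haut.2
      have hX : IsPGroup p (P.map ρ) := hP.map ρ
      have hX' : IsPGroup p ((P.map ρ).subgroupOf (N.autGroup R)) := hX.comap_subtype
      have hle' : (Syl : Subgroup ↥(N.autGroup R)) ≤ (P.map ρ).subgroupOf (N.autGroup R) := by
        rw [hSyl]
        intro a ha
        rw [Subgroup.mem_subgroupOf] at ha ⊢
        obtain ⟨g, hg, hgx⟩ := mem_autInducedBy_iff.mp ha
        refine ⟨ι ⟨g, hg⟩, hle ⟨_, rfl⟩, ?_⟩
        apply MulEquiv.ext
        intro x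
        apply Subtype.ext
        rw [hρι, hgx]
      have heq := Syl.is_maximal' hX' hle'
      have h3 : (⟨ρ m, hρA m⟩ : ↥(N.autGroup R)) ∈ (P.map ρ).subgroupOf (N.autGroup R) :=
        Subgroup.mem_subgroupOf.mpr ⟨m, hmP, rfl⟩
      rw [heq, hSyl, Subgroup.mem_subgroupOf] at h3
      exact h3
    · exact Subgroup.map_le_range _ _
    · rintro _ ⟨q, rfl⟩
      exact ⟨j q, rfl⟩
    · exact hQ₀n
    · constructor
      rintro _ ⟨q, rfl⟩ m
      exact ⟨ρ m q, (hconj m q).symm⟩
    · intro m hm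
      have h1 : ρ m = 1 := by
        apply MulEquiv.ext
        intro q
        have h2 := Subgroup.mem_centralizer_iff.mp hm (ι (j q)) ⟨q, rfl⟩
        have h3 : m * ι (j q) * m⁻¹ = ι (j q) := by
          rw [← h2]
          group
        have h4 : ι (j (ρ m q)) = ι (j q) := (hconj m q).symm.trans h3
        have h5 : j (ρ m q) = j q := hι h4
        exact Subgroup.inclusion_injective hRT h5
      obtain ⟨z, -, hz⟩ := hker m h1
      exact ⟨z, hz.symm⟩
    · intro m hm
      apply hkey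
      have hφ : R.subtype.comp ((ρ m)⁻¹).toMonoidHom ∈ N.Hom R :=
        autGroup_hom_mem N hRT (inv_mem (hρA m))
      have hrange : (R.subtype.comp ((ρ m)⁻¹).toMonoidHom).range = R := by
        ext y
        constructor
        · rintro ⟨x, rfl⟩
          exact (((ρ m)⁻¹) x).2
        · intro hy
          refine ⟨(ρ m) ⟨y, hy⟩, ?_⟩
          show ((((ρ m)⁻¹) ((ρ m) ⟨y, hy⟩) : R) : Ω) = y
          rw [MulAut.inv_apply_self]
      obtain ⟨ψ, hψ, hψe⟩ := hrec.2 R _ hφ hrange
      have hext : extender T R (R.subtype.comp ((ρ m)⁻¹).toMonoidHom) = T := by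
        apply le_antisymm ((extender_le_normalizerIn T R _).trans (normalizerIn_le T R))
        intro s hs
        apply mem_extender_of_conj_mem _ hs (hRnorm hs)
        rw [inv_inv]
        have hm' : m⁻¹ ∈ Subgroup.normalizer ((ι.range : Subgroup M) : Set M) := inv_mem hm
        have h1 : m⁻¹ * ι ⟨s, hs⟩ * m⁻¹⁻¹ ∈ ι.range :=
          (Subgroup.mem_normalizer_iff.mp hm' _).mp ⟨_, rfl⟩
        obtain ⟨s', hs'⟩ := h1
        have h2 : (ρ m)⁻¹ * R.normalizerMonoidHom ⟨s, hRnorm hs⟩ * ρ m = ρ (ι s') := by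
          have e1 : R.normalizerMonoidHom ⟨s, hRnorm hs⟩ = ρ (ι ⟨s, hs⟩) := by
            apply MulEquiv.ext
            intro x
            apply Subtype.ext
            rw [hρι]
            rfl
          rw [e1, hs', map_mul, map_mul, map_inv, inv_inv]
        rw [h2]
        exact mem_autInducedBy_iff.mpr ⟨s', s'.2, fun x => hρι s' x⟩
      obtain ⟨ψ', hψ', hψ'e⟩ := hom_cast N hext hψ
      obtain ⟨g, hg, hgx⟩ := hself ψ' hψ'
      have h1 : (ρ m)⁻¹ ∈ autInducedBy T R := by
        refine mem_autInducedBy_iff.mpr ⟨g, hg, fun x => ?_⟩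
        have hx1 : (x : Ω) ∈ extender T R (R.subtype.comp ((ρ m)⁻¹).toMonoidHom) :=
          le_extender N hφ x.2
        have e1 := hψe x x.2 hx1
        have e2 := hψ'e x hx1 (hRT x.2)
        have e3 := hgx ⟨x, hRT x.2⟩
        rw [e2, e1] at e3
        exact e3
      have h2 := inv_mem h1
      rw [inv_inv] at h2
      exact h2
    · rintro _ ⟨s, rfl⟩ _ ⟨t, rfl⟩
      have h1 := hcomm s s.2 t t.2
      refine ⟨⟨_, hQR h1⟩, Subgroup.mem_subgroupOf.mpr h1, ?_⟩
      show ι (j ⟨_, hQR h1⟩) = _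
      have e1 : j ⟨_, hQR h1⟩ = s * t * s⁻¹ * t⁻¹ := Subtype.ext rfl
      rw [e1]
      simp only [map_mul, map_inv]
    · intro P₁ hP₁ hsup
      have hle1 : (P₁.comap ι).map T.subtype ≤ T := by
        rintro _ ⟨x, -, rfl⟩
        exact x.2
      have h1 : (P₁.comap ι).map T.subtype = T := by
        apply hfrat _ hle1
        apply le_antisymm (sup_le hQn.1 hle1)
        intro t ht
        have h2 : ι ⟨t, ht⟩ ∈ (((Q.subgroupOf R).map (ι.comp j) ⊔ P₁ : Subgroup M) : Set M) := by
          rw [hsup]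
          exact ⟨_, rfl⟩
        rw [Subgroup.normal_mul] at h2
        obtain ⟨_, ⟨q, hq, rfl⟩, h, hh, e⟩ := h2
        have e' : ι (j q) * h = ι ⟨t, ht⟩ := e
        have h3 : h = ι ((j q)⁻¹ * ⟨t, ht⟩) := by
          rw [map_mul, map_inv, ← e']
          group
        have h4 : (j q)⁻¹ * ⟨t, ht⟩ ∈ P₁.comap ι := by
          show ι _ ∈ P₁
          rw [← h3]
          exact hh
        have h5 : t = (q : Ω) * ((q : Ω)⁻¹ * t) := by group
        rw [h5]
        exact Subgroup.mul_mem_sup (Subgroup.mem_subgroupOf.mp hq) ⟨_, h4, rfl⟩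
      apply le_antisymm hP₁
      rintro _ ⟨t, rfl⟩
      have h2 : (t : Ω) ∈ (P₁.comap ι).map T.subtype := by
        rw [h1]
        exact t.2
      obtain ⟨t', ht', e⟩ := h2
      have e2 : t' = t := Subtype.ext e
      rw [← e2]
      exact ht'
  intro a ha
  obtain ⟨m, rfl⟩ := hsurj a ha
  have hm : m ∈ ι.range := htop ▸ Subgroup.mem_top m
  obtain ⟨s, rfl⟩ := hm
  exact mem_autInducedBy_iff.mpr ⟨s, s.2, fun x => hρι s x⟩

/-- Tate-type theorem for fusion systems: under the hypotheses of `tate_autGroup` the system is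
the inner system of `T`. -/
theorem tate_fusion [Finite T] {p : ℕ} [Fact p.Prime] (hT : IsPGroup p T) (N : FusionSystem T)
    (hN : N.IsSaturated p) {Q : Subgroup Ω} (hQn : N.IsNormal Q)
    (hself : ∀ φ ∈ N.Hom T, ∃ g ∈ T, ∀ x : T, φ x = g * x * g⁻¹)
    (hcomm : ∀ x ∈ T, ∀ y ∈ T, x * y * x⁻¹ * y⁻¹ ∈ Q)
    (hfrat : ∀ P₁ : Subgroup Ω, P₁ ≤ T → Q ⊔ P₁ = T → P₁ = T) (P : Subgroup Ω) :
    N.Hom P = (innerFusionSystem T).Hom P := by
  apply Set.Subset.antisymm _ (inner_le N P)
  apply Cfsg.Agent.S5082.result p hT N hN (innerFusionSystem T)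
  rintro R (rfl | hess)
  · apply Subgroup.closure_mono
    intro α hα
    obtain ⟨g, hg, hgx⟩ := hself _ hα
    exact ⟨le_rfl, g, hg, hgx⟩
  · exact (tate_autGroup hT N hN hQn hself hcomm hfrat hess).trans
      (autInducedBy_le_autGroup (innerFusionSystem T) hess.1.1)

end Cfsg.Agent.Lib.Helper26
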