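import Mathlib
import Cfsg.Prelude.Def_Transfer
import Cfsg.Agent.Lib.Helper26.GenExA
import Cfsg.Agent.Lib.Helper16.Basic

/-!
# Generic group lemmas for generalized extraspecial groups, part 2 (helper26)
-/

set_option autoImplicit false

namespace Cfsg.Agent.Lib.Helper26

open scoped commutatorElement

/-- A copy of `Fin n` without algebraic structure. -/
structure FinBox (n : ℕ) : Type where
  /-- the underlying element -/
  val : Fin n

/-- `FinBox n` is equivalent to `Fin n`. -/
def finBoxEquiv (n : ℕ) : FinBox n ≃ Fin n :=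
  ⟨FinBox.val, FinBox.mk, fun _ => rfl, fun _ => rfl⟩

section generic

/-- All commutators of a finite `p`-group lie in its Frattini subgroup. -/
theorem comm_mem_frattini {P : Type*} [Group P] [Finite P] {p : ℕ} [Fact p.Prime]
    (hP : IsPGroup p P) (a b : P) : a * b * a⁻¹ * b⁻¹ ∈ frattini P := by
  have hp := (Fact.out : p.Prime)
  unfold frattini Order.radical
  simp only [Subgroup.mem_iInf]
  intro M hM
  have hnil : Group.IsNilpotent P := hP.isNilpotent
  have hnc : NormalizerCondition P := Group.normalizerCondition_of_isNilpotent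
  haveI hMn : M.Normal := Subgroup.NormalizerCondition.normal_of_coatom M hnc hM
  have hQp : IsPGroup p (P ⧸ M) := hP.to_quotient M
  have hdvd : p ∣ Nat.card (P ⧸ M) := by
    obtain ⟨k, hk⟩ := IsPGroup.iff_card.mp hQp
    rcases Nat.eq_zero_or_pos k with h0 | h0
    · exfalso
      rw [h0, pow_zero] at hk
      have h1 : M.index = 1 := hk
      exact hM.1 (Subgroup.index_eq_one.mp h1)
    · rw [hk]
      exact dvd_pow_self p h0.ne'
  obtain ⟨cb, hcb⟩ := exists_prime_orderOf_dvd_card' p hdvd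
  obtain ⟨c, rfl⟩ := QuotientGroup.mk'_surjective M cb
  have hle : M ≤ (Subgroup.zpowers (QuotientGroup.mk' M c)).comap (QuotientGroup.mk' M) := by
    intro m hm
    rw [Subgroup.mem_comap]
    have h1 : QuotientGroup.mk' M m = 1 := (QuotientGroup.eq_one_iff m).mpr hm
    rw [h1]
    exact Subgroup.one_mem _
  have hcM : c ∉ M := by
    intro h
    have h1 : QuotientGroup.mk' M c = 1 := (QuotientGroup.eq_one_iff c).mpr h
    rw [h1, orderOf_one] at hcb
    exact hp.one_lt.ne hcb
  have hlt : M < (Subgroup.zpowers (QuotientGroup.mk' M c)).comap (QuotientGroup.mk' M) :=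
    lt_of_le_of_ne hle (fun h => hcM (h ▸ (Subgroup.mem_comap.mpr (Subgroup.mem_zpowers _))))
  have htop := hM.2 _ hlt
  have hmem : ∀ g : P, QuotientGroup.mk' M g ∈ Subgroup.zpowers (QuotientGroup.mk' M c) := by
    intro g
    have h1 : g ∈ (Subgroup.zpowers (QuotientGroup.mk' M c)).comap (QuotientGroup.mk' M) :=
      htop ▸ Subgroup.mem_top g
    exact h1
  obtain ⟨k, hk⟩ := Subgroup.mem_zpowers_iff.mp (hmem a)
  obtain ⟨l, hl⟩ := Subgroup.mem_zpowers_iff.mp (hmem b)
  have h2 : QuotientGroup.mk' M (a * b * a⁻¹ * b⁻¹) = 1 := by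
    rw [map_mul, map_mul, map_mul, map_inv, map_inv, ← hk, ← hl]
    have hc : Commute (QuotientGroup.mk' M c ^ k) (QuotientGroup.mk' M c ^ l) :=
      ((Commute.refl _).zpow_left k).zpow_right l
    rw [hc.eq]
    group
  exact (QuotientGroup.eq_one_iff _).mp h2

/-- A nonabelian group of order `p ^ 3` is extraspecial. -/
theorem isExtraspecial_of_card_cube {H : Type*} [Group H] [Finite H] {p : ℕ} [Fact p.Prime]
    (hcard : Nat.card H = p ^ 3) (hnab : ∃ a b : H, a * b ≠ b * a) : Cfsg.IsExtraspecial p H := by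
  have hp := (Fact.out : p.Prime)
  have hH : IsPGroup p H := IsPGroup.of_card hcard
  haveI : Nontrivial H := by
    obtain ⟨a, b, hab⟩ := hnab
    exact ⟨⟨a * b, b * a, hab⟩⟩
  have hZdvd : Nat.card (Subgroup.center H) ∣ p ^ 3 :=
    hcard ▸ Subgroup.card_subgroup_dvd_card _
  obtain ⟨k, hk3, hk⟩ := (Nat.dvd_prime_pow hp).mp hZdvd
  have hquot := Subgroup.card_eq_card_quotient_mul_card_subgroup (Subgroup.center H)
  have hk0 : k ≠ 0 := by
    rintro rfl
    rw [pow_zero] at hk
    haveI := hH.center_nontrivial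
    have h1 : Subgroup.center H = ⊥ := Subgroup.eq_bot_of_card_eq _ hk
    obtain ⟨x, y, hxy⟩ := exists_pair_ne ↥(Subgroup.center H)
    apply hxy
    have hmem : ∀ g : H, g ∈ Subgroup.center H → g = 1 := fun g hg => by
      rw [h1] at hg
      exact Subgroup.mem_bot.mp hg
    exact Subtype.ext ((hmem x x.2).trans (hmem y y.2).symm)
  have hk3' : k ≠ 3 := by
    rintro rfl
    have htop : Subgroup.center H = ⊤ := Subgroup.eq_top_of_card_eq _ (hk.trans hcard.symm)
    obtain ⟨a, b, hab⟩ := hnab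
    apply hab
    have hb : b ∈ Subgroup.center H := htop ▸ Subgroup.mem_top b
    exact Subgroup.mem_center_iff.mp hb a
  have hk2 : k ≠ 2 := by
    rintro rfl
    have hq : Nat.card (H ⧸ Subgroup.center H) = p := by
      rw [hcard, hk] at hquot
      have h1 : p ^ 2 * p = p ^ 2 * Nat.card (H ⧸ Subgroup.center H) := by
        rw [mul_comm (p ^ 2) (Nat.card _), ← hquot]
        ring
      exact (Nat.eq_of_mul_eq_mul_left (pow_pos hp.pos 2) h1).symm
    haveI : IsCyclic (H ⧸ Subgroup.center H) := isCyclic_of_prime_card hq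
    obtain ⟨a, b, hab⟩ := hnab
    exact hab (commutative_of_cyclic_center_quotient (QuotientGroup.mk' (Subgroup.center H))
      (by rw [QuotientGroup.ker_mk']) a b)
  have hk1 : k = 1 := by omega
  rw [hk1, pow_one] at hk
  have hq : Nat.card (H ⧸ Subgroup.center H) = p ^ 2 := by
    rw [hcard, hk] at hquot
    have h1 : p * p ^ 2 = p * Nat.card (H ⧸ Subgroup.center H) := by
      rw [mul_comm p (Nat.card _), ← hquot]
      ring
    exact (Nat.eq_of_mul_eq_mul_left hp.pos h1).symm
  have hqc : ∀ a b : H ⧸ Subgroup.center H, a * b = b * a :=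
    IsPGroup.commutative_of_card_eq_prime_sq hq
  have hqpow : ∀ a : H ⧸ Subgroup.center H, a ^ p = 1 := by
    intro a
    have h1 : orderOf a ∣ p ^ 2 := hq ▸ orderOf_dvd_natCard a
    obtain ⟨j, hj2, hj⟩ := (Nat.dvd_prime_pow hp).mp h1
    have hj2' : j ≠ 2 := by
      rintro rfl
      haveI : IsCyclic (H ⧸ Subgroup.center H) := isCyclic_of_orderOf_eq_card a (hj.trans hq.symm)
      obtain ⟨a', b', hab⟩ := hnab
      exact hab (commutative_of_cyclic_center_quotient (QuotientGroup.mk' (Subgroup.center H))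
        (by rw [QuotientGroup.ker_mk']) a' b')
    have h2 : orderOf a ∣ p := by
      rw [hj]
      have hj1 : j ≤ 1 := by omega
      exact (pow_dvd_pow p hj1).trans (by rw [pow_one])
    exact orderOf_dvd_iff_pow_eq_one.mp h2
  -- commutators are central
  have hcc : ∀ a b : H, a * b * a⁻¹ * b⁻¹ ∈ Subgroup.center H := by
    intro a b
    have h1 : QuotientGroup.mk' (Subgroup.center H) (a * b * a⁻¹ * b⁻¹) = 1 := by
      rw [map_mul, map_mul, map_mul, map_inv, map_inv, hqc (QuotientGroup.mk' _ a)]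
      group
    exact (QuotientGroup.eq_one_iff _).mp h1
  have hcle : commutator H ≤ Subgroup.center H := by
    rw [_root_.commutator_def, Subgroup.commutator_le]
    intro a _ b _
    rw [commutatorElement_def]
    exact hcc a b
  have hcne : Nat.card (commutator H) ≠ 1 := by
    intro h1
    have hbot : commutator H = ⊥ := Subgroup.eq_bot_of_card_eq _ h1
    obtain ⟨a, b, hab⟩ := hnab
    apply hab
    have h2 : ⁅a, b⁆ ∈ commutator H := by
      rw [_root_.commutator_def]
      exact Subgroup.commutator_mem_commutator (Subgroup.mem_top a) (Subgroup.mem_top b)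
    rw [hbot, Subgroup.mem_bot, commutatorElement_def] at h2
    calc a * b = (a * b * a⁻¹ * b⁻¹) * (b * a) := by group
      _ = b * a := by rw [h2, one_mul]
  have hceq : commutator H = Subgroup.center H := by
    apply Subgroup.eq_of_le_of_card_ge hcle
    have h1 : Nat.card (commutator H) ∣ p := hk ▸ Subgroup.card_dvd_of_le hcle
    rcases (Nat.dvd_prime hp).mp h1 with h2 | h2
    · exact absurd h2 hcne
    · rw [hk, h2]
  have hfeq : frattini H = Subgroup.center H := by
    apply le_antisymm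
    · have h1 := Cfsg.Agent.Lib.Helper16.Basic.frattini_le_ker_of_elementary (p := p)
        (QuotientGroup.mk' (Subgroup.center H)) (fun x y => hqc _ _) (fun x => hqpow _)
      rwa [QuotientGroup.ker_mk'] at h1
    · rw [← hceq, _root_.commutator_def, Subgroup.commutator_le]
      intro a _ b _
      rw [commutatorElement_def]
      exact comm_mem_frattini hH a b
  exact ⟨⟨hH, hfeq, hceq⟩, hk⟩

theorem exponent_eq_prime {H : Type*} [Group H] [Nontrivial H] {p : ℕ} (hp : p.Prime)
    (h : ∀ a : H, a ^ p = 1) : Monoid.exponent H = p := by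
  have h1 : Monoid.exponent H ∣ p := Monoid.exponent_dvd_of_forall_pow_eq_one h
  rcases (Nat.dvd_prime hp).mp h1 with h2 | h2
  · exfalso
    rw [Monoid.exp_eq_one_iff] at h2
    exact not_subsingleton H h2
  · exact h2

/-- A finite group has a copy in `Type`. -/
theorem exists_group_type0 (H : Type*) [Group H] [Finite H] :
    ∃ (E : Type) (_ : Group E), Nonempty (H ≃* E) := by
  obtain ⟨e, he⟩ : ∃ e : FinBox (Nat.card H) ≃ H, e = (finBoxEquiv _).trans (Finite.equivFin H).symm :=
    ⟨_, rfl⟩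
  letI : Group (FinBox (Nat.card H)) := e.group
  refine ⟨FinBox (Nat.card H), inferInstance, ⟨?_⟩⟩
  exact
    { toEquiv := e.symm
      map_mul' := fun a b => by
        show e.symm (a * b) = e.symm (e (e.symm a) * e (e.symm b))
        rw [e.apply_symm_apply, e.apply_symm_apply] }

/-- A finite commutative group has a commutative copy in `Type`. -/
theorem exists_commGroup_type0 (H : Type*) [Group H] [Finite H] (hc : ∀ a b : H, a * b = b * a) :
    ∃ (A : Type) (_ : CommGroup A), Nonempty (H ≃* A) := by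
  letI : CommGroup H := { ‹Group H› with mul_comm := hc }
  obtain ⟨e, he⟩ : ∃ e : FinBox (Nat.card H) ≃ H, e = (finBoxEquiv _).trans (Finite.equivFin H).symm :=
    ⟨_, rfl⟩
  letI : CommGroup (FinBox (Nat.card H)) := e.commGroup
  refine ⟨FinBox (Nat.card H), inferInstance, ⟨?_⟩⟩
  exact
    { toEquiv := e.symm
      map_mul' := fun a b => by
        show e.symm (a * b) = e.symm (e (e.symm a) * e (e.symm b))
        rw [e.apply_symm_apply, e.apply_symm_apply] }

/-- A homomorphism from the dihedral group of order 8. -/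
theorem exists_dihedral_hom {G : Type*} [Group G] (y s : G) (hy : y ^ 4 = 1) (hs : s * s = 1)
    (hsy : s * y * s⁻¹ = y⁻¹) :
    ∃ f : DihedralGroup 4 →* G, f (DihedralGroup.r 1) = y ∧ f (DihedralGroup.sr 0) = s := by
  have hadd : ∀ i j : ZMod 4, y ^ (i + j).val = y ^ i.val * y ^ j.val := by
    intro i j
    rw [ZMod.val_add, ← pow_eq_pow_mod _ hy, pow_add]
  have hneg : ∀ i : ZMod 4, y ^ (-i).val = (y ^ i.val)⁻¹ := by
    intro i
    have h1 := hadd (-i) i
    rw [neg_add_cancel, ZMod.val_zero, pow_zero] at h1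
    exact eq_inv_of_mul_eq_one_left h1.symm
  have hsub : ∀ i j : ZMod 4, y ^ (j - i).val = (y ^ i.val)⁻¹ * y ^ j.val := by
    intro i j
    rw [sub_eq_neg_add, hadd, hneg]
  have hconj : ∀ k : ℕ, s * (y ^ k)⁻¹ = y ^ k * s := by
    intro k
    have h1 : s * y ^ k * s⁻¹ = (y ^ k)⁻¹ := by
      rw [← inv_pow, ← hsy, conj_pow]
    have h2 : s⁻¹ = s := inv_eq_of_mul_eq_one_left hs
    rw [h2] at h1
    calc s * (y ^ k)⁻¹ = s * (s * y ^ k * s) := by rw [h1]
      _ = (s * s) * y ^ k * s := by simp only [mul_assoc]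
      _ = y ^ k * s := by rw [hs, one_mul]
  let f : DihedralGroup 4 → G := fun d =>
    match d with
    | DihedralGroup.r i => y ^ i.val
    | DihedralGroup.sr i => s * y ^ i.val
  have hmul : ∀ a b : DihedralGroup 4, f (a * b) = f a * f b := by
    intro a b
    cases a with
    | r i =>
      cases b with
      | r j =>
        rw [DihedralGroup.r_mul_r]
        exact hadd i j
      | sr j =>
        rw [DihedralGroup.r_mul_sr]
        show s * y ^ (j - i).val = y ^ i.val * (s * y ^ j.val)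
        rw [hsub, ← mul_assoc, hconj, mul_assoc]
    | sr i =>
      cases b with
      | r j =>
        rw [DihedralGroup.sr_mul_r]
        show s * y ^ (i + j).val = s * y ^ i.val * y ^ j.val
        rw [hadd, mul_assoc]
      | sr j =>
        rw [DihedralGroup.sr_mul_sr]
        show y ^ (j - i).val = s * y ^ i.val * (s * y ^ j.val)
        rw [hsub]
        calc (y ^ i.val)⁻¹ * y ^ j.val = (s * s) * (y ^ i.val)⁻¹ * y ^ j.val := by
              rw [hs, one_mul]
          _ = s * (s * (y ^ i.val)⁻¹) * y ^ j.val := by simp only [mul_assoc]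
          _ = s * (y ^ i.val * s) * y ^ j.val := by rw [hconj]
          _ = s * y ^ i.val * (s * y ^ j.val) := by simp only [mul_assoc]
  refine ⟨MonoidHom.mk' f hmul, ?_, ?_⟩
  · show y ^ (1 : ZMod 4).val = y
    rw [show (1 : ZMod 4).val = 1 from rfl, pow_one]
  · show s * y ^ (0 : ZMod 4).val = s
    rw [ZMod.val_zero, pow_zero, mul_one]

/-- A subgroup of index `p` over `H` inside `L` together with an outside element generate `L`. -/
theorem le_of_card_eq_prime_mul {G : Type*} [Group G] [Finite G] {p : ℕ} (hp : p.Prime)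
    {H L M : Subgroup G} (hHL : H ≤ L) (hcard : Nat.card L = p * Nat.card H) (hHM : H ≤ M)
    {x : G} (hxM : x ∈ M) (hxL : x ∈ L) (hxH : x ∉ H) : L ≤ M := by
  have h1 : Nat.card H ∣ Nat.card ↥(M ⊓ L) := Subgroup.card_dvd_of_le (le_inf hHM hHL)
  have h2 : Nat.card ↥(M ⊓ L) ∣ Nat.card L := Subgroup.card_dvd_of_le inf_le_right
  obtain ⟨t, ht⟩ := h1
  rw [hcard, ht] at h2
  have hHpos : 0 < Nat.card H := Nat.card_pos
  have h3 : t ∣ p := by
    have h4 : Nat.card H * t ∣ Nat.card H * p := by rwa [mul_comm p] at h2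
    exact (Nat.mul_dvd_mul_iff_left hHpos).mp h4
  rcases (Nat.dvd_prime hp).mp h3 with rfl | rfl
  · exfalso
    rw [mul_one] at ht
    have h5 : H = M ⊓ L := Subgroup.eq_of_le_of_card_ge (le_inf hHM hHL) ht.le
    exact hxH (h5 ▸ ⟨hxM, hxL⟩)
  · have h5 : M ⊓ L = L :=
      Subgroup.eq_of_le_of_card_ge inf_le_right (by rw [hcard, ht, mul_comm])
    rw [← h5]
    exact inf_le_left

/-- `x ↦ [x, v]` as a homomorphism into a central subgroup containing all commutators. -/
def commHomN {Q : Type*} [Group Q] (N : Subgroup Q) (hN : N ≤ Subgroup.center Q)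
    (hcomm : ∀ x y : Q, x * y * x⁻¹ * y⁻¹ ∈ N) (v : Q) : Q →* N :=
  MonoidHom.mk' (fun x => ⟨x * v * x⁻¹ * v⁻¹, hcomm x v⟩) (by
    intro x y
    apply Subtype.ext
    have hc : ∀ g : Q, g * (y * v * y⁻¹ * v⁻¹) = (y * v * y⁻¹ * v⁻¹) * g :=
      fun g => Subgroup.mem_center_iff.mp (hN (hcomm y v)) g
    show x * y * v * (x * y)⁻¹ * v⁻¹ = (x * v * x⁻¹ * v⁻¹) * (y * v * y⁻¹ * v⁻¹)
    calc x * y * v * (x * y)⁻¹ * v⁻¹ = x * (y * v * y⁻¹ * v⁻¹) * (v * x⁻¹ * v⁻¹) := by group
      _ = (y * v * y⁻¹ * v⁻¹) * x * (v * x⁻¹ * v⁻¹) := by rw [hc x]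
      _ = (y * v * y⁻¹ * v⁻¹) * (x * v * x⁻¹ * v⁻¹) := by group
      _ = (x * v * x⁻¹ * v⁻¹) * (y * v * y⁻¹ * v⁻¹) := (hc _).symm)

theorem commHomN_apply {Q : Type*} [Group Q] (N : Subgroup Q) (hN : N ≤ Subgroup.center Q)
    (hcomm : ∀ x y : Q, x * y * x⁻¹ * y⁻¹ ∈ N) (v x : Q) :
    ((commHomN N hN hcomm v x : N) : Q) = x * v * x⁻¹ * v⁻¹ := rfl

theorem commHomN_eq_one_iff {Q : Type*} [Group Q] (N : Subgroup Q) (hN : N ≤ Subgroup.center Q)
    (hcomm : ∀ x y : Q, x * y * x⁻¹ * y⁻¹ ∈ N) (v x : Q) :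
    commHomN N hN hcomm v x = 1 ↔ x * v = v * x := by
  constructor
  · intro h
    have h1 : x * v * x⁻¹ * v⁻¹ = 1 := congrArg Subtype.val h
    calc x * v = (x * v * x⁻¹ * v⁻¹) * (v * x) := by group
      _ = v * x := by rw [h1, one_mul]
  · intro h
    apply Subtype.ext
    show x * v * x⁻¹ * v⁻¹ = 1
    rw [h]
    group

/-- A homomorphism onto a nontrivial part of a group of order `p` has kernel of index `p`. -/
theorem card_eq_prime_mul_card_ker {G N : Type*} [Group G] [Group N] [Finite G] {p : ℕ}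
    [Fact p.Prime] (hN : Nat.card N = p) (f : G →* N) (hf : ∃ x : G, f x ≠ 1) :
    Nat.card G = p * Nat.card f.ker := by
  haveI : Fact (Nat.card N).Prime := ⟨hN ▸ (Fact.out : p.Prime)⟩
  have h1 : f.range = ⊤ := by
    rcases Subgroup.eq_bot_or_eq_top_of_prime_card f.range with h | h
    · exfalso
      obtain ⟨x, hx⟩ := hf
      have h2 : f x ∈ f.range := ⟨x, rfl⟩
      rw [h] at h2
      exact hx (Subgroup.mem_bot.mp h2)
    · exact h
  have h2 : f.ker.index = p := by
    rw [Subgroup.index_ker, h1, Subgroup.card_top, hN]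
  rw [← Subgroup.card_mul_index f.ker, h2, mul_comm]

/-- Complements in elementary abelian groups given as groups with commuting elements. -/
theorem exists_compl_card {V : Type*} [Group V] (hc : ∀ a b : V, a * b = b * a) {p : ℕ}
    [Fact p.Prime] (hexp : ∀ v : V, v ^ p = 1) (Z : Subgroup V) :
    ∃ A : Subgroup V, Z ⊓ A = ⊥ ∧ (∀ v : V, ∃ z ∈ Z, ∃ a ∈ A, z * a = v) ∧
      Nat.card Z * Nat.card A = Nat.card V := by
  letI : CommGroup V := { ‹Group V› with mul_comm := hc }
  obtain ⟨A, h1, h2⟩ := exists_compl_of_elementary hexp Z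
  have h3 : ∀ v : V, ∃ z ∈ Z, ∃ a ∈ A, z * a = v := by
    intro v
    have hv : v ∈ Z ⊔ A := h2 ▸ Subgroup.mem_top v
    exact Subgroup.mem_sup.mp hv
  refine ⟨A, h1, h3, ?_⟩
  have hcompl : Subgroup.IsComplement' Z A :=
    Subgroup.isComplement'_of_disjoint_and_mul_eq_univ (disjoint_iff.mpr h1)
      (Set.eq_univ_of_forall fun v => by
        obtain ⟨z, hz, a, ha, hza⟩ := h3 v
        exact Set.mem_mul.mpr ⟨z, hz, a, ha, hza⟩)
  exact hcompl.card_mul_card

/-- A complement in the centre to a central subgroup, when the centre is elementary abelian. -/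
theorem exists_center_compl {G : Type*} [Group G] [Finite G] {p : ℕ} [Fact p.Prime]
    (Z : Subgroup G) (hZ : Z ≤ Subgroup.center G) (hexp : ∀ k ∈ Subgroup.center G, k ^ p = 1) :
    ∃ A : Subgroup G, A ≤ Subgroup.center G ∧ Z ⊓ A = ⊥ ∧
      (∀ k ∈ Subgroup.center G, ∃ z ∈ Z, ∃ a ∈ A, z * a = k) ∧
      Nat.card Z * Nat.card A = Nat.card (Subgroup.center G) := by
  have hc : ∀ a b : ↥(Subgroup.center G), a * b = b * a := by
    intro a b
    apply Subtype.ext
    exact (Subgroup.mem_center_iff.mp a.2 b).symm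
  have hexp' : ∀ v : ↥(Subgroup.center G), v ^ p = 1 := by
    intro v
    apply Subtype.ext
    rw [Subgroup.coe_pow]
    exact hexp v v.2
  obtain ⟨A', h1, h2, h3⟩ := exists_compl_card hc hexp' (Z.subgroupOf (Subgroup.center G))
  refine ⟨A'.map (Subgroup.center G).subtype, ?_, ?_, ?_, ?_⟩
  · rintro _ ⟨k, -, rfl⟩
    exact k.2
  · rw [eq_bot_iff]
    rintro _ ⟨hxZ, ⟨k, hk, rfl⟩⟩
    have h4 : k ∈ Z.subgroupOf (Subgroup.center G) ⊓ A' := ⟨Subgroup.mem_subgroupOf.mpr hxZ, hk⟩
    rw [h1, Subgroup.mem_bot] at h4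
    rw [h4]
    exact Subgroup.one_mem _
  · intro k hk
    obtain ⟨z, hz, a, ha, hza⟩ := h2 ⟨k, hk⟩
    refine ⟨z, Subgroup.mem_subgroupOf.mp hz, a, ⟨a, ha, rfl⟩, ?_⟩
    exact congrArg Subtype.val hza
  · rw [← h3, Subgroup.card_map_of_injective (Subgroup.subtype_injective _),
      Nat.card_congr (Subgroup.subgroupOfEquivOfLe hZ).toEquiv]

end generic

end Cfsg.Agent.Lib.Helper26
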