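import Mathlib
import Cfsg.Agent.Lib.Helper26.GenExB

/-!
# Structure of groups with commutator subgroup of order `p` and an elementary abelian
centralizer (helper26)
-/

set_option autoImplicit false

namespace Cfsg.Agent.Lib.Helper26

open scoped commutatorElement

universe u

theorem structure_trichotomy {G : Type u} [Group G] [Finite G] {p : ℕ} [Fact p.Prime]
    (hG : IsPGroup p G) (hZp : Nat.card (commutator G) = p)
    (hpow : ∀ a : G, a ^ p ∈ commutator G)
    (C : Subgroup G) (hCel : ∀ a ∈ C, ∀ b ∈ C, a * b = b * a ∧ a ^ p = 1)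
    (z₁ : G) (hz₁ : ∀ g : G, g ∈ C ↔ g * z₁ = z₁ * g) (hCne : ∃ x : G, x ∉ C) :
    (p = 2 ∧ ∃ (A : Type) (_ : CommGroup A), (∀ a : A, a ^ 2 = 1) ∧
      Nonempty (G ≃* DihedralGroup 4 × A)) ∨
    (p ≠ 2 ∧ ∃ (E : Type) (_ : Group E) (A : Type) (_ : CommGroup A), Cfsg.IsExtraspecial p E ∧
      Nat.card E = p ^ 3 ∧ Monoid.exponent E = p ∧ (∀ a : A, a ^ p = 1) ∧
      Nonempty (G ≃* E × A)) ∨
    (p ≠ 2 ∧ ∀ x : G, x ∉ C → x ^ p ≠ 1) := by
  have hp := (Fact.out : p.Prime)
  haveI : (commutator G).Normal := inferInstance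
  have hZc : commutator G ≤ Subgroup.center G := le_center_of_card_prime hG (commutator G) hZp
  have hcomm : ∀ x y : G, x * y * x⁻¹ * y⁻¹ ∈ commutator G := fun x y => by
    have h1 : ⁅x, y⁆ ∈ commutator G := by
      rw [_root_.commutator_def]
      exact Subgroup.commutator_mem_commutator (Subgroup.mem_top x) (Subgroup.mem_top y)
    rwa [commutatorElement_def] at h1
  have hcen : ∀ z ∈ commutator G, ∀ g : G, g * z = z * g := fun z hz g =>
    Subgroup.mem_center_iff.mp (hZc hz) g
  have hZpow : ∀ z ∈ commutator G, z ^ p = 1 := by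
    intro z hz
    have h1 := pow_card_eq_one' (G := ↥(commutator G)) (x := ⟨z, hz⟩)
    rw [hZp] at h1
    have h2 := congrArg Subtype.val h1
    rwa [Subgroup.coe_pow] at h2
  obtain ⟨x, hxC⟩ := hCne
  have hz₁C : z₁ ∈ C := (hz₁ z₁).mpr rfl
  have hKC : Subgroup.center G ≤ C := fun k hk => (hz₁ k).mpr (Subgroup.mem_center_iff.mp hk z₁).symm
  -- counting
  have hcardG : Nat.card G = p * Nat.card C := by
    have h1 := card_eq_prime_mul_card_ker hZp (commHomN (commutator G) hZc hcomm z₁)
      ⟨x, fun h => hxC ((hz₁ x).mpr ((commHomN_eq_one_iff _ hZc hcomm z₁ x).mp h))⟩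
    have h2 : (commHomN (commutator G) hZc hcomm z₁).ker = C := by
      ext g
      rw [MonoidHom.mem_ker, commHomN_eq_one_iff, hz₁]
    rw [h2] at h1
    exact h1
  have hcardtop : Nat.card (⊤ : Subgroup G) = p * Nat.card C := by
    rw [Subgroup.card_top, hcardG]
  have hcenter : ∀ c ∈ C, c * x = x * c → c ∈ Subgroup.center G := by
    intro c hc hcx
    have h1 : (⊤ : Subgroup G) ≤ Subgroup.centralizer {c} := by
      refine le_of_card_eq_prime_mul hp le_top hcardtop ?_ (x := x) ?_ (Subgroup.mem_top x) hxC
      · intro d hd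
        rw [Subgroup.mem_centralizer_iff]
        intro h hh
        rw [Set.mem_singleton_iff] at hh
        rw [hh]
        exact ((hCel c hc d hd).1)
      · rw [Subgroup.mem_centralizer_iff]
        intro h hh
        rw [Set.mem_singleton_iff] at hh
        rw [hh]
        exact hcx
    rw [Subgroup.mem_center_iff]
    intro g
    have h2 := h1 (Subgroup.mem_top g)
    rw [Subgroup.mem_centralizer_iff] at h2
    exact (h2 c rfl).symm
  have hcardC : Nat.card C = p * Nat.card (Subgroup.center G) := by
    have h1 := card_eq_prime_mul_card_ker hZp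
      ((commHomN (commutator G) hZc hcomm x).comp C.subtype)
      ⟨⟨z₁, hz₁C⟩, fun h => hxC ((hz₁ x).mpr
        ((commHomN_eq_one_iff _ hZc hcomm x z₁).mp h).symm)⟩
    have h2 : ((commHomN (commutator G) hZc hcomm x).comp C.subtype).ker =
        (Subgroup.center G).subgroupOf C := by
      ext c
      rw [MonoidHom.mem_ker, Subgroup.mem_subgroupOf]
      show commHomN (commutator G) hZc hcomm x (c : G) = 1 ↔ _
      rw [commHomN_eq_one_iff]
      constructor
      · intro h
        exact hcenter c c.2 h
      · intro h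
        exact (Subgroup.mem_center_iff.mp h x).symm
    rw [h2, Nat.card_congr (Subgroup.subgroupOfEquivOfLe hKC).toEquiv] at h1
    exact h1
  obtain ⟨A, hAK, hZA, hdec, hcardK⟩ := exists_center_compl (p := p) (commutator G) hZc
    (fun k hk => (hCel k (hKC hk) k (hKC hk)).2)
  rw [hZp] at hcardK
  have hcardG3 : Nat.card G = p * (p * (p * Nat.card A)) := by
    rw [hcardG, hcardC, hcardK]
  have hAcen : ∀ a ∈ A, ∀ g : G, g * a = a * g := fun a ha g =>
    Subgroup.mem_center_iff.mp (hAK ha) g
  have hAc : ∀ a b : ↥A, a * b = b * a := by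
    intro a b
    apply Subtype.ext
    exact (hAcen a a.2 b).symm
  have hApow : ∀ a : ↥A, a ^ p = 1 := by
    intro a
    apply Subtype.ext
    rw [Subgroup.coe_pow]
    exact (hCel a (hKC (hAK a.2)) a (hKC (hAK a.2))).2
  have hxz : x * z₁ ≠ z₁ * x := fun h => hxC ((hz₁ x).mpr h)
  have hz₁K : z₁ ∉ Subgroup.center G := fun h => hxz (Subgroup.mem_center_iff.mp h x)
  obtain ⟨A₀, instA, ⟨eA⟩⟩ := exists_commGroup_type0 ↥A hAc
  have hA₀pow : ∀ a : A₀, a ^ p = 1 := by
    intro a
    have h1 := hApow (eA.symm a)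
    rw [← eA.apply_symm_apply a, ← map_pow, h1, map_one]
  by_cases hp2 : p = 2
  · left
    refine ⟨hp2, A₀, instA, fun a => hp2 ▸ hA₀pow a, ?_⟩
    subst hp2
    -- an element outside `C` with nontrivial square
    have hz₁sq : z₁ * z₁ = 1 := by
      have h1 := (hCel z₁ hz₁C z₁ hz₁C).2
      rwa [pow_two] at h1
    obtain ⟨y, hyC, hyy⟩ : ∃ y : G, y ∉ C ∧ y * y ≠ 1 := by
      by_cases hxx : x * x = 1
      · refine ⟨x * z₁, fun h => hxC ?_, fun h => hxz ?_⟩
        · have h1 := C.mul_mem h (C.inv_mem hz₁C)
          rwa [mul_inv_cancel_right] at h1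
        · have h1 : x⁻¹ = x := inv_eq_of_mul_eq_one_left hxx
          have h2 : z₁⁻¹ = z₁ := inv_eq_of_mul_eq_one_left hz₁sq
          have h3 : (x * z₁)⁻¹ = x * z₁ := inv_eq_of_mul_eq_one_left h
          rw [mul_inv_rev, h1, h2] at h3
          exact h3.symm
      · exact ⟨x, hxC, hxx⟩
    obtain ⟨u, hu1, huniq⟩ := (Nat.card_eq_two_iff' (1 : ↥(commutator G))).mp hZp
    have hZeq : ∀ a ∈ commutator G, ∀ b ∈ commutator G, a ≠ 1 → b ≠ 1 → a = b := by
      intro a ha b hb ha1 hb1
      have h1 := huniq ⟨a, ha⟩ (fun h => ha1 (congrArg Subtype.val h))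
      have h2 := huniq ⟨b, hb⟩ (fun h => hb1 (congrArg Subtype.val h))
      exact congrArg Subtype.val (h1.trans h2.symm)
    have hyyZ : y * y ∈ commutator G := by
      have h1 := hpow y
      rwa [pow_two] at h1
    have hw1 : z₁ * y * z₁⁻¹ * y⁻¹ ≠ 1 := by
      intro h
      apply hyC
      rw [hz₁]
      calc y * z₁ = (z₁ * y * z₁⁻¹ * y⁻¹)⁻¹ * (z₁ * y) := by group
        _ = z₁ * y := by rw [h, inv_one, one_mul]
    have hweq := hZeq _ (hcomm z₁ y) _ hyyZ hw1 hyy
    have hy4 : y ^ 4 = 1 := by
      have h1 := hZpow _ hyyZ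
      calc y ^ 4 = (y * y) ^ 2 := by simp only [pow_succ, pow_zero, one_mul, mul_assoc]
        _ = 1 := h1
    have hsy : z₁ * y * z₁⁻¹ = y⁻¹ := by
      have h1 : z₁ * y * z₁⁻¹ = y * y * y := by
        calc z₁ * y * z₁⁻¹ = (z₁ * y * z₁⁻¹ * y⁻¹) * y := by group
          _ = y * y * y := by rw [hweq]
      rw [h1]
      apply eq_inv_of_mul_eq_one_left
      calc y * y * y * y = y ^ 4 := by simp only [pow_succ, pow_zero, one_mul, mul_assoc]
        _ = 1 := hy4
    obtain ⟨f, hf1, hf0⟩ := exists_dihedral_hom y z₁ hy4 hz₁sq hsy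
    have hfA : ∀ (d : DihedralGroup 4) (a : ↥A), Commute (f d) (A.subtype a) := fun d a =>
      hAcen a a.2 (f d)
    have hsurj : Function.Surjective (f.noncommCoprod A.subtype hfA) := by
      have hyH : y ∈ (f.noncommCoprod A.subtype hfA).range :=
        ⟨(DihedralGroup.r 1, 1), by rw [MonoidHom.noncommCoprod_apply, hf1, map_one, mul_one]⟩
      have hzH : z₁ ∈ (f.noncommCoprod A.subtype hfA).range :=
        ⟨(DihedralGroup.sr 0, 1), by rw [MonoidHom.noncommCoprod_apply, hf0, map_one, mul_one]⟩
      have hAH : A ≤ (f.noncommCoprod A.subtype hfA).range := fun a ha =>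
        ⟨(1, ⟨a, ha⟩), by rw [MonoidHom.noncommCoprod_apply, map_one, one_mul]; rfl⟩
      have hZH : commutator G ≤ (f.noncommCoprod A.subtype hfA).range := by
        intro z hz
        by_cases hz1 : z = 1
        · rw [hz1]
          exact Subgroup.one_mem _
        · rw [hZeq z hz _ hyyZ hz1 hyy]
          exact Subgroup.mul_mem _ hyH hyH
      have hKH : Subgroup.center G ≤ (f.noncommCoprod A.subtype hfA).range := by
        intro k hk
        obtain ⟨z, hz, a, ha, hza⟩ := hdec k hk
        rw [← hza]
        exact Subgroup.mul_mem _ (hZH hz) (hAH ha)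
      have hCH : C ≤ (f.noncommCoprod A.subtype hfA).range :=
        le_of_card_eq_prime_mul hp hKC hcardC hKH hzH hz₁C hz₁K
      have htop : (⊤ : Subgroup G) ≤ (f.noncommCoprod A.subtype hfA).range :=
        le_of_card_eq_prime_mul hp le_top hcardtop hCH hyH (Subgroup.mem_top y) hyC
      intro g
      exact htop (Subgroup.mem_top g)
    have hbij : Function.Bijective (f.noncommCoprod A.subtype hfA) := by
      apply hsurj.bijective_of_nat_card_le
      rw [Nat.card_prod, DihedralGroup.nat_card, hcardG3]
      apply le_of_eq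
      ring
    exact ⟨(MulEquiv.ofBijective _ hbij).symm.trans
      (MulEquiv.prodCongr (MulEquiv.refl _) eA)⟩
  · by_cases hex : ∃ x' : G, x' ∉ C ∧ x' ^ p = 1
    · right
      left
      refine ⟨hp2, ?_⟩
      obtain ⟨x', hx'C, hx'p⟩ := hex
      have hodd : 2 ∣ p - 1 := by
        rcases hp.eq_two_or_odd' with h | h
        · exact absurd h hp2
        · obtain ⟨k, hk⟩ := h
          exact ⟨k, by omega⟩
      -- every element has order dividing `p`
      have hall : ∀ g : G, g ^ p = 1 := by
        have hmul : ∀ a b : G, a ^ p = 1 → b ^ p = 1 → (a * b) ^ p = 1 := by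
          intro a b ha hb
          have hd : b * a = a * b * (b⁻¹ * a⁻¹ * (b⁻¹)⁻¹ * (a⁻¹)⁻¹) := by group
          have hdc := hcen _ (hcomm b⁻¹ a⁻¹)
          rw [mul_pow_of_central_comm a b _ hd hdc p, ha, hb, one_mul, one_mul,
            Nat.mul_div_assoc p hodd, pow_mul, hZpow _ (hcomm b⁻¹ a⁻¹), one_pow]
        let Hp : Subgroup G :=
          { carrier := {g | g ^ p = 1}
            one_mem' := one_pow p
            mul_mem' := fun {a b} ha hb => hmul a b ha hb
            inv_mem' := fun {a} ha => by
              show a⁻¹ ^ p = 1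
              rw [inv_pow, show a ^ p = 1 from ha, inv_one] }
        have htop : (⊤ : Subgroup G) ≤ Hp :=
          le_of_card_eq_prime_mul hp le_top hcardtop (fun c hc => (hCel c hc c hc).2)
            (x := x') hx'p (Subgroup.mem_top x') hx'C
        intro g
        exact htop (Subgroup.mem_top g)
      have hexpV : ∀ v : Abelianization G, v ^ p = 1 := by
        intro v
        obtain ⟨g, rfl⟩ := QuotientGroup.mk_surjective v
        have h1 : (Abelianization.of g) ^ p = 1 := by rw [← map_pow, hall g, map_one]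
        exact h1
      obtain ⟨B, hB1, hB2⟩ := exists_compl_of_elementary hexpV (A.map Abelianization.of)
      have hEA : ∀ (e : ↥(B.comap Abelianization.of)) (a : ↥A),
          Commute ((B.comap Abelianization.of).subtype e) (A.subtype a) := fun e a =>
        hAcen a a.2 e
      have hinj : Function.Injective
          ((B.comap Abelianization.of).subtype.noncommCoprod A.subtype hEA) := by
        rw [injective_iff_map_eq_one]
        rintro ⟨e, a⟩ h
        rw [MonoidHom.noncommCoprod_apply] at h
        have h1 : (e : G) * (a : G) = 1 := h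
        have h2 : (e : G) = (a : G)⁻¹ := eq_inv_of_mul_eq_one_left h1
        have h3 : Abelianization.of (a : G) ∈ B := by
          have h4 : Abelianization.of (e : G) ∈ B := e.2
          rw [h2, map_inv] at h4
          exact (Subgroup.inv_mem_iff B).mp h4
        have h5 : Abelianization.of (a : G) ∈ A.map Abelianization.of ⊓ B :=
          ⟨⟨a, a.2, rfl⟩, h3⟩
        rw [hB1, Subgroup.mem_bot] at h5
        have h6 : (a : G) ∈ commutator G := by
          rw [← Abelianization.ker_of G]
          exact h5
        have h7 : (a : G) ∈ commutator G ⊓ A := ⟨h6, a.2⟩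
        rw [hZA, Subgroup.mem_bot] at h7
        have h8 : (e : G) = 1 := by rw [h2, h7, inv_one]
        exact Prod.ext (Subtype.ext h8) (Subtype.ext h7)
      have hsurj : Function.Surjective
          ((B.comap Abelianization.of).subtype.noncommCoprod A.subtype hEA) := by
        intro g
        have hg : Abelianization.of g ∈ A.map Abelianization.of ⊔ B := hB2 ▸ Subgroup.mem_top _
        obtain ⟨y, ⟨a, ha, rfl⟩, z, hz, hyz⟩ := Subgroup.mem_sup.mp hg
        have he : g * a⁻¹ ∈ B.comap Abelianization.of := by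
          rw [Subgroup.mem_comap, map_mul, map_inv, ← hyz, mul_comm, inv_mul_cancel_left]
          exact hz
        refine ⟨(⟨g * a⁻¹, he⟩, ⟨a, ha⟩), ?_⟩
        rw [MonoidHom.noncommCoprod_apply]
        show g * a⁻¹ * a = g
        rw [inv_mul_cancel_right]
      have hbij : Function.Bijective
          ((B.comap Abelianization.of).subtype.noncommCoprod A.subtype hEA) := ⟨hinj, hsurj⟩
      have hcardE : Nat.card ↥(B.comap Abelianization.of) = p ^ 3 := by
        have h1 := Nat.card_congr (Equiv.ofBijective _ hbij)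
        rw [Nat.card_prod, hcardG3] at h1
        have hApos : 0 < Nat.card A := Nat.card_pos
        have h2 : Nat.card ↥(B.comap Abelianization.of) * Nat.card A = p ^ 3 * Nat.card A := by
          rw [h1]
          ring
        exact Nat.eq_of_mul_eq_mul_right hApos h2
      have hEnab : ∃ a b : ↥(B.comap Abelianization.of), a * b ≠ b * a := by
        by_contra hcon
        push_neg at hcon
        obtain ⟨⟨e, a⟩, h⟩ := hsurj x
        obtain ⟨⟨e', a'⟩, h'⟩ := hsurj z₁
        rw [MonoidHom.noncommCoprod_apply] at h h'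
        have h1 : (e : G) * (a : G) = x := h
        have h2 : (e' : G) * (a' : G) = z₁ := h'
        apply hxz
        rw [← h1, ← h2]
        have hee : Commute (e : G) (e' : G) := congrArg Subtype.val (hcon e e')
        have hea' : Commute (e : G) (a' : G) := hAcen a' a'.2 e
        have hae' : Commute (a : G) (e' : G) := (hAcen a a.2 e').symm
        have haa' : Commute (a : G) (a' : G) := (hAcen a a.2 a').symm
        exact ((hee.mul_right hea').mul_left (hae'.mul_right haa')).eq
      obtain ⟨E, instE, ⟨eE⟩⟩ := exists_group_type0 ↥(B.comap Abelianization.of)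
      haveI : Finite E := Finite.of_equiv _ eE.toEquiv
      have hcardE' : Nat.card E = p ^ 3 := by
        rw [← Nat.card_congr eE.toEquiv, hcardE]
      have hEnab' : ∃ a b : E, a * b ≠ b * a := by
        obtain ⟨a, b, hab⟩ := hEnab
        refine ⟨eE a, eE b, fun h => hab (eE.injective ?_)⟩
        rw [map_mul, map_mul, h]
      haveI : Nontrivial E := by
        obtain ⟨a, b, hab⟩ := hEnab'
        exact ⟨⟨a * b, b * a, hab⟩⟩
      have hEpow : ∀ e : E, e ^ p = 1 := by
        intro e
        have h1 : (eE.symm e) ^ p = 1 := by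
          apply Subtype.ext
          rw [Subgroup.coe_pow]
          exact hall _
        rw [← eE.apply_symm_apply e, ← map_pow, h1, map_one]
      exact ⟨E, instE, A₀, instA, isExtraspecial_of_card_cube hcardE' hEnab', hcardE',
        exponent_eq_prime hp hEpow, hA₀pow,
        ⟨(MulEquiv.ofBijective _ hbij).symm.trans (MulEquiv.prodCongr eE eA)⟩⟩
    · right
      right
      push_neg at hex
      exact ⟨hp2, hex⟩

end Cfsg.Agent.Lib.Helper26
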