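import Mathlib
import Cfsg.Agent.Lib.Helper26.GenExF
import Cfsg.Agent.Lib.Helper26.GenExE
import Cfsg.Agent.Lib.Helper26.FusFactor
import Cfsg.Agent.Lib.Helper26.FusNorm

/-!
# The central elements of order `p` of a strongly closed subgroup with "metacyclic-like"
`Ω₁` form a strongly closed subgroup (helper26)
-/

set_option autoImplicit false

namespace Cfsg.Agent.Lib.Helper26

open Cfsg Cfsg.FusionSystem

universe u

variable {Ω : Type u} [Group Ω] {S : Subgroup Ω}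

theorem stronglyClosed_zpowers_of_omega [Finite S] {p : ℕ} [Fact p.Prime] (hS : IsPGroup p S)
    (F : FusionSystem S) (hF : F.IsSaturated p) {P : Subgroup Ω} (hP : F.StronglyClosed P)
    (hp2 : p ≠ 2) {z : Ω} (hzP : z ∈ P) (hz1 : z ≠ 1) (hzp : z ^ p = 1)
    (hzc : ∀ g ∈ P, g * z = z * g)
    (hA : ∀ x ∈ P, ∀ y ∈ P, x ^ p = 1 → y ^ p = 1 → x * y = y * x ∧ (x * y) ^ p = 1)
    (hZmem : ∀ v ∈ P, v ^ p = 1 → (∀ g ∈ P, g * v = v * g) → ∃ k : ℤ, v = z ^ k)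
    (hcomm : ∀ g ∈ P, ∀ v ∈ P, v ^ p = 1 → ∃ k : ℤ, g * v * g⁻¹ * v⁻¹ = z ^ k)
    (hdec : ∀ z₁ ∈ P, z₁ ^ p = 1 → (∃ g ∈ P, g * z₁ ≠ z₁ * g) → ∀ v ∈ P, v ^ p = 1 →
      ∃ i j : ℤ, v = z ^ i * z₁ ^ j) :
    F.StronglyClosed (Subgroup.zpowers z) := by
  have hp := (Fact.out : p.Prime)
  have hPS := hP.1
  haveI : Finite P := finite_of_le hPS
  obtain ⟨Z₀, hZ₀def⟩ : ∃ Z₀ : Subgroup Ω, Z₀ = Subgroup.zpowers z := ⟨_, rfl⟩
  rw [← hZ₀def]
  have hzZ : z ∈ Z₀ := hZ₀def ▸ Subgroup.mem_zpowers z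
  have hZmem' : ∀ w ∈ Z₀, ∃ k : ℤ, w = z ^ k := by
    intro w hw
    rw [hZ₀def] at hw
    obtain ⟨k, hk⟩ := Subgroup.mem_zpowers_iff.mp hw
    exact ⟨k, hk.symm⟩
  have hZP : Z₀ ≤ P := by
    intro w hw
    obtain ⟨k, rfl⟩ := hZmem' w hw
    exact P.zpow_mem hzP k
  have hZp : Nat.card Z₀ = p := by
    rw [hZ₀def, Nat.card_zpowers, orderOf_eq_prime hzp hz1]
  have hZS : Z₀ ≤ S := hZP.trans hPS
  haveI : Finite Z₀ := finite_of_le hZS
  have hZpow : ∀ w ∈ Z₀, w ^ p = 1 := by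
    intro w hw
    obtain ⟨k, rfl⟩ := hZmem' w hw
    rw [← zpow_natCast, ← zpow_mul, mul_comm, zpow_mul, zpow_natCast, hzp, one_zpow]
  have hcen : ∀ w ∈ Z₀, ∀ g ∈ P, g * w = w * g := by
    intro w hw g hg
    obtain ⟨k, rfl⟩ := hZmem' w hw
    exact ((show Commute g z from hzc g hg).zpow_right k).eq
  have hZin : ∀ v ∈ P, v ^ p = 1 → (∀ g ∈ P, g * v = v * g) → v ∈ Z₀ := by
    intro v hv hvp hvc
    obtain ⟨k, rfl⟩ := hZmem v hv hvp hvc
    exact Z₀.zpow_mem hzZ k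
  have hcommZ : ∀ g ∈ P, ∀ v ∈ P, v ^ p = 1 → g * v * g⁻¹ * v⁻¹ ∈ Z₀ := by
    intro g hg v hv hvp
    obtain ⟨k, hk⟩ := hcomm g hg v hv hvp
    rw [hk]
    exact Z₀.zpow_mem hzZ k
  have hPn := stronglyClosed_le_normalizer F hP
  have hconjP : ∀ s ∈ S, ∀ g ∈ P, s * g * s⁻¹ ∈ P := fun s hs g hg =>
    (Subgroup.mem_normalizer_iff.mp (hPn hs) g).mp hg
  -- the subgroup `V` of elements of order dividing `p`
  obtain ⟨V, hVmem⟩ : ∃ V : Subgroup Ω, ∀ x, x ∈ V ↔ (x ∈ P ∧ x ^ p = 1) :=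
    ⟨{ carrier := {x | x ∈ P ∧ x ^ p = 1}
       one_mem' := ⟨P.one_mem, one_pow p⟩
       mul_mem' := fun {a b} ha hb => ⟨P.mul_mem ha.1 hb.1, (hA a ha.1 b hb.1 ha.2 hb.2).2⟩
       inv_mem' := fun {a} ha => ⟨P.inv_mem ha.1, by rw [inv_pow, ha.2, inv_one]⟩ },
      fun x => Iff.rfl⟩
  have hVP : V ≤ P := fun x hx => ((hVmem x).mp hx).1
  have hVS : V ≤ S := hVP.trans hPS
  haveI : Finite V := finite_of_le hVS
  have hVpow : ∀ x ∈ V, x ^ p = 1 := fun x hx => ((hVmem x).mp hx).2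
  have hpowV : ∀ c : V, c ^ p = 1 := fun c =>
    Subtype.ext (by rw [Subgroup.coe_pow]; exact hVpow _ c.2)
  have hVc : ∀ a b : V, a * b = b * a := fun a b =>
    Subtype.ext ((hA a (hVP a.2) b (hVP b.2) (hVpow _ a.2) (hVpow _ b.2)).1)
  have hZ₀V : Z₀ ≤ V := fun w hw => (hVmem w).mpr ⟨hZP hw, hZpow w hw⟩
  have hVn : S ≤ Subgroup.normalizer (V : Set Ω) := by
    intro s hs
    apply mem_normalizer_of_conj_mem
    intro g hg
    exact (hVmem _).mpr ⟨hconjP s hs g (hVP hg),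
      by rw [conj_pow, hVpow g hg, mul_one, mul_inv_cancel]⟩
  have hZn : S ≤ Subgroup.normalizer (Z₀ : Set Ω) := by
    intro s hs
    apply mem_normalizer_of_conj_mem
    intro w hw
    apply hZin _ (hconjP s hs w (hZP hw)) (by rw [conj_pow, hZpow w hw, mul_one, mul_inv_cancel])
    intro g hg
    have h1 : s⁻¹ * g * s ∈ P := by
      have h := hconjP s⁻¹ (S.inv_mem hs) g hg
      rwa [inv_inv] at h
    have h2 := hcen w hw _ h1
    calc g * (s * w * s⁻¹) = s * ((s⁻¹ * g * s) * w) * s⁻¹ := by group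
      _ = s * (w * (s⁻¹ * g * s)) * s⁻¹ := by rw [h2]
      _ = s * w * s⁻¹ * g := by group
  have hfn : F.IsFullyNormalized V := by
    refine ⟨hVS, fun Q _ => ?_⟩
    have h1 : normalizerIn S V = S := by
      apply le_antisymm (normalizerIn_le S V)
      intro s hs
      exact mem_normalizerIn_iff.mpr ⟨hs, hVn hs⟩
    rw [h1]
    exact Subgroup.card_le_of_le (normalizerIn_le S Q)
  have hrecV := fullyCentralized_receptive hS F hF (fullyNormalized_props hS F hF hfn).1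
  have hmain : ∀ φ ∈ F.Hom Z₀, ∀ y : Z₀, φ y ∈ Z₀ := by
    intro φ hφ y
    by_contra hyn
    obtain ⟨Z₁, hZ₁def⟩ : ∃ Z₁ : Subgroup Ω, Z₁ = φ.range := ⟨_, rfl⟩
    have hconj : F.IsConj Z₀ Z₁ := ⟨φ, hφ, hZ₁def.symm⟩
    obtain ⟨z₁, hz₁def⟩ : ∃ z₁ : Ω, z₁ = φ y := ⟨_, rfl⟩
    rw [← hz₁def] at hyn
    have hz₁ : z₁ ∈ Z₁ := by
      rw [hZ₁def, hz₁def]
      exact ⟨y, rfl⟩
    have hZ₁S : Z₁ ≤ S := isConj_le_right F hconj
    haveI : Finite Z₁ := finite_of_le hZ₁S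
    have hZ₁p : Nat.card Z₁ = p := by rw [← isConj_card F hconj, hZp]
    have hZ₁V : Z₁ ≤ V := by
      rw [hZ₁def]
      rintro _ ⟨y', rfl⟩
      refine (hVmem _).mpr ⟨hP.2 Z₀ hZP φ hφ y', ?_⟩
      have h1 : y' ^ p = 1 := Subtype.ext (by rw [Subgroup.coe_pow]; exact hZpow _ y'.2)
      rw [← map_pow, h1, map_one]
    have hZ₁P : Z₁ ≤ P := hZ₁V.trans hVP
    have hz₁P : z₁ ∈ P := hZ₁P hz₁
    have hz₁p : z₁ ^ p = 1 := hVpow _ (hZ₁V hz₁)
    have hVcZ : V ≤ Subgroup.centralizer (Z₁ : Set Ω) := by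
      intro g hg
      rw [Subgroup.mem_centralizer_iff]
      intro u hu
      exact (hA u (hZ₁P hu) g (hVP hg) (hVpow _ (hZ₁V hu)) (hVpow _ hg)).1
    -- the automorphism `e` of `V` mapping `Z₁` onto `Z₀`
    obtain ⟨ρ, hρ, hρ1, hρ2⟩ := exists_hom_centralizer hS F hF hZS hZn hconj hVS hVcZ hZ₁V
    have hρC : ∀ c : V, ρ c ∈ V := by
      intro c
      refine (hVmem _).mpr ⟨hP.2 V hVP ρ hρ c, ?_⟩
      rw [← map_pow, hpowV c, map_one]
    have hρrange : ρ.range = V := by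
      have hinj := F.injective_of_mem hρ
      apply Subgroup.eq_of_le_of_card_ge
      · rintro _ ⟨c, rfl⟩
        exact hρC c
      · exact le_of_eq (Nat.card_congr (MonoidHom.ofInjective hinj).toEquiv)
    obtain ⟨e, he, hev⟩ : ∃ e : MulAut V, e ∈ IsoSet F V V ∧
        ∀ c : V, ((e c : V) : Ω) = ρ c := exists_iso_of_mem F hρ hρrange
    have heA : e ∈ F.autGroup V := (mem_autGroup_iff F hVS).mpr he
    obtain ⟨x, hxP, hz₁x⟩ : ∃ x ∈ P, x * z₁ ≠ z₁ * x := by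
      by_contra hcon
      push_neg at hcon
      exact hyn (hZin z₁ hz₁P hz₁p hcon)
    have hxS : x ∈ S := hPS hxP
    have hxN : x ∈ Subgroup.normalizer (V : Set Ω) := hVn hxS
    have hz₀Z : x * z₁ * x⁻¹ * z₁⁻¹ ∈ Z₀ := hcommZ x hxP z₁ hz₁P hz₁p
    have hz₀1 : x * z₁ * x⁻¹ * z₁⁻¹ ≠ 1 := by
      intro h
      apply hz₁x
      calc x * z₁ = (x * z₁ * x⁻¹ * z₁⁻¹) * (z₁ * x) := by group
        _ = z₁ * x := by rw [h, one_mul]
    obtain ⟨z₀, hz₀def⟩ : ∃ z₀ : Ω, z₀ = x * z₁ * x⁻¹ * z₁⁻¹ := ⟨_, rfl⟩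
    rw [← hz₀def] at hz₀Z hz₀1
    obtain ⟨zc₀, hzc₀⟩ : ∃ zc₀ : V, zc₀ = ⟨z₀, hZ₀V hz₀Z⟩ := ⟨_, rfl⟩
    obtain ⟨zc₁, hzc₁⟩ : ∃ zc₁ : V, zc₁ = ⟨z₁, hZ₁V hz₁⟩ := ⟨_, rfl⟩
    have hzc₀v : (zc₀ : Ω) = z₀ := by rw [hzc₀]
    have hzc₁v : (zc₁ : Ω) = z₁ := by rw [hzc₁]
    have hez₁Z : ((e zc₁ : V) : Ω) ∈ Z₀ := by
      rw [hev, hzc₁]
      exact hρ1 z₁ hz₁
    have hez₀ : ((e zc₀ : V) : Ω) ∉ Z₀ := by
      intro h1
      obtain ⟨z', hz', hz'e⟩ := hρ2 _ h1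
      have h2 : e ⟨z', hZ₁V hz'⟩ = e zc₀ := Subtype.ext ((hev _).trans hz'e)
      have h3 : z' = z₀ := by
        have h4 := congrArg Subtype.val (e.injective h2)
        rw [hzc₀v] at h4
        exact h4
      rw [h3] at hz'
      have h5 := eq_of_prime_card_of_mem hZ₁p hZp hz' hz₀Z hz₀1
      exact hyn (h5 ▸ hz₁)
    have hvP : ((e zc₀ : V) : Ω) ∈ P := hVP (e zc₀).2
    have hvp : ((e zc₀ : V) : Ω) ^ p = 1 := hVpow _ (e zc₀).2
    obtain ⟨g, hgP, hgv⟩ : ∃ g ∈ P, g * ((e zc₀ : V) : Ω) ≠ ((e zc₀ : V) : Ω) * g := by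
      by_contra hcon
      push_neg at hcon
      exact hez₀ (hZin _ hvP hvp hcon)
    have hdZ : g * ((e zc₀ : V) : Ω) * g⁻¹ * ((e zc₀ : V) : Ω)⁻¹ ∈ Z₀ := hcommZ g hgP _ hvP hvp
    have hd1 : g * ((e zc₀ : V) : Ω) * g⁻¹ * ((e zc₀ : V) : Ω)⁻¹ ≠ 1 := by
      intro h
      apply hgv
      calc g * ((e zc₀ : V) : Ω)
          = (g * ((e zc₀ : V) : Ω) * g⁻¹ * ((e zc₀ : V) : Ω)⁻¹) * (((e zc₀ : V) : Ω) * g) := by
            group
        _ = ((e zc₀ : V) : Ω) * g := by rw [h, one_mul]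
    obtain ⟨n, hn⟩ := exists_pow_of_prime_card hZp hdZ hd1 (Z₀.inv_mem hez₁Z)
    have hx''P : g ^ n ∈ P := P.pow_mem hgP n
    have hx''N : g ^ n ∈ Subgroup.normalizer (V : Set Ω) := hVn (hPS hx''P)
    have hx''v : g ^ n * ((e zc₀ : V) : Ω) * (g ^ n)⁻¹ * ((e zc₀ : V) : Ω)⁻¹ =
        ((e zc₁ : V) : Ω)⁻¹ := by
      rw [hn]
      exact comm_pow_eq g _ (hcen _ hdZ g hgP) n
    -- the automorphisms
    obtain ⟨t, htdef⟩ : ∃ t : MulAut V, t = V.normalizerMonoidHom ⟨x, hxN⟩ := ⟨_, rfl⟩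
    obtain ⟨t'', ht''def⟩ : ∃ t'' : MulAut V, t'' = V.normalizerMonoidHom ⟨g ^ n, hx''N⟩ :=
      ⟨_, rfl⟩
    have htv : ∀ c : V, ((t c : V) : Ω) = x * c * x⁻¹ := fun c => by
      rw [htdef]
      rfl
    have ht''v : ∀ c : V, ((t'' c : V) : Ω) = g ^ n * c * (g ^ n)⁻¹ := fun c => by
      rw [ht''def]
      rfl
    have htI : t ∈ autInducedBy S V := by
      rw [htdef]
      exact conj_mem_autInducedBy hxS hxN
    have htA : t ∈ F.autGroup V := autInducedBy_le_autGroup F hVS htI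
    have ht''A : t'' ∈ F.autGroup V := by
      rw [ht''def]
      exact autInducedBy_le_autGroup F hVS (conj_mem_autInducedBy (hPS hx''P) hx''N)
    obtain ⟨s, hsdef⟩ : ∃ s : MulAut V, s = e⁻¹ * t'' * e := ⟨_, rfl⟩
    have hsA : s ∈ F.autGroup V := by
      rw [hsdef]
      exact mul_mem (mul_mem (inv_mem heA) ht''A) heA
    have hsv : ∀ c : V, s c = e⁻¹ (t'' (e c)) := fun c => by
      rw [hsdef]
      rfl
    have hbt : ∀ c : V, ∃ k : ℤ, t c = zc₀ ^ k * c := by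
      intro c
      obtain ⟨k, hk⟩ := exists_zpow_of_prime_card hZp hz₀Z hz₀1
        (hcommZ x hxP c (hVP c.2) (hVpow _ c.2))
      refine ⟨k, Subtype.ext ?_⟩
      rw [htv, Subgroup.coe_mul, Subgroup.coe_zpow, hzc₀v, ← hk]
      group
    have hbs : ∀ c : V, ∃ k : ℤ, s c = zc₁ ^ k * c := by
      intro c
      have h1 : g ^ n * ((e c : V) : Ω) * (g ^ n)⁻¹ * ((e c : V) : Ω)⁻¹ ∈ Z₀ :=
        hcommZ _ hx''P _ (hVP (e c).2) (hVpow _ (e c).2)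
      obtain ⟨z', hz', hz'e⟩ := hρ2 _ h1
      obtain ⟨k, hk⟩ := exists_zpow_of_prime_card hZ₁p hz₁
        (fun h => hyn (h ▸ Z₀.one_mem)) hz'
      refine ⟨k, ?_⟩
      have h2 : t'' (e c) = e (zc₁ ^ k * c) := by
        apply Subtype.ext
        rw [ht''v, map_mul, Subgroup.coe_mul]
        have h3 : zc₁ ^ k = ⟨z', hZ₁V hz'⟩ :=
          Subtype.ext (by rw [Subgroup.coe_zpow, hzc₁v]; exact hk.symm)
        rw [h3, hev ⟨z', hZ₁V hz'⟩, hz'e]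
        group
      rw [hsv, h2]
      exact MulAut.inv_apply_self _ e _
    have hbt0 : t zc₀ = zc₀ := by
      apply Subtype.ext
      rw [htv, hzc₀v, hcen z₀ hz₀Z x hxP]
      group
    have hbt1 : t zc₁ = zc₀ * zc₁ := by
      apply Subtype.ext
      rw [htv, Subgroup.coe_mul, hzc₀v, hzc₁v, hz₀def]
      group
    have hbs1 : s zc₁ = zc₁ := by
      rw [hsv]
      have h1 : t'' (e zc₁) = e zc₁ := by
        apply Subtype.ext
        rw [ht''v, hcen _ hez₁Z _ hx''P]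
        group
      rw [h1]
      exact MulAut.inv_apply_self _ e _
    have hbs0 : s zc₀ = zc₁⁻¹ * zc₀ := by
      rw [hsv]
      have h1 : t'' (e zc₀) = e (zc₁⁻¹ * zc₀) := by
        apply Subtype.ext
        rw [ht''v, map_mul, map_inv, Subgroup.coe_mul, Subgroup.coe_inv, ← hx''v]
        group
      rw [h1]
      exact MulAut.inv_apply_self _ e _
    obtain ⟨hcomm_h, hinv_h⟩ := braid_square hVc t s zc₀ zc₁ hbt hbs hbt0 hbt1 hbs1 hbs0
    have hinv_h1 := braid_square_inv hVc t s zc₀ zc₁ hbt0 hbt1 hbs1 hbs0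
    obtain ⟨h, hhdef⟩ : ∃ h : MulAut V, h = (t * s * t) * (t * s * t) := ⟨_, rfl⟩
    rw [← hhdef] at hcomm_h hinv_h hinv_h1
    have hhA : h ∈ F.autGroup V := by
      rw [hhdef]
      exact mul_mem (mul_mem (mul_mem htA hsA) htA) (mul_mem (mul_mem htA hsA) htA)
    have hhinv : ∀ c : V, h c = c⁻¹ := by
      intro c
      obtain ⟨i, j, hij⟩ := hdec z₁ hz₁P hz₁p ⟨x, hxP, hz₁x⟩ c (hVP c.2) (hVpow _ c.2)
      obtain ⟨k, hk⟩ := exists_zpow_of_prime_card hZp hz₀Z hz₀1 hzZ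
      have h1 : c = zc₀ ^ (k * i) * zc₁ ^ j := Subtype.ext (by
        rw [Subgroup.coe_mul, Subgroup.coe_zpow, Subgroup.coe_zpow, hzc₀v, hzc₁v, zpow_mul, ← hk]
        exact hij)
      rw [h1, map_mul, map_zpow, map_zpow, hinv_h, hinv_h1, inv_zpow, inv_zpow, ← mul_inv_rev,
        hVc (zc₁ ^ j) (zc₀ ^ (k * i))]
    have hconjh : ∀ ν : MulAut V, h * ν * h⁻¹ = ν := by
      intro ν
      apply MulEquiv.ext
      intro c
      have h1 : h⁻¹ c = c⁻¹ := by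
        calc h⁻¹ c = h⁻¹ (h c⁻¹) := by rw [hhinv, inv_inv]
          _ = c⁻¹ := MulAut.inv_apply_self _ h _
      show h (ν (h⁻¹ c)) = ν c
      rw [h1, map_inv, hhinv, inv_inv]
    have hext_mem : ∀ g' ∈ S, g' ∈ extender S V (V.subtype.comp (MulEquiv.toMonoidHom h)) := by
      intro g' hg'
      apply mem_extender_of_conj_mem h hg' (hVn hg')
      rw [hconjh]
      exact conj_mem_autInducedBy hg' (hVn hg')
    have hhrange : (V.subtype.comp (MulEquiv.toMonoidHom h)).range = V := by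
      ext y'
      constructor
      · rintro ⟨c, rfl⟩
        exact (h c).2
      · intro hy
        refine ⟨h⁻¹ ⟨y', hy⟩, ?_⟩
        show ((h (h⁻¹ ⟨y', hy⟩) : V) : Ω) = y'
        rw [MulAut.apply_inv_self]
    obtain ⟨ht', hht', hext'⟩ := hrecV.2 V _ (autGroup_hom_mem F hVS hhA) hhrange
    have hPext : P ≤ extender S V (V.subtype.comp (MulEquiv.toMonoidHom h)) :=
      fun g' hg' => hext_mem g' (hPS hg')
    have hψ := restrict_mem F hht' hPext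
    obtain ⟨ψ, hψdef⟩ : ∃ ψ : P →* Ω, ψ = ht'.comp (Subgroup.inclusion hPext) := ⟨_, rfl⟩
    rw [← hψdef] at hψ
    have hψP : ∀ a : P, ψ a ∈ P := fun a => hP.2 P le_rfl ψ hψ a
    have hψinj : Function.Injective ψ := F.injective_of_mem hψ
    have hψ'inj : Function.Injective (ψ.codRestrict P hψP) := by
      intro a b hab
      apply hψinj
      exact congrArg Subtype.val hab
    have hψ'bij : Function.Bijective (ψ.codRestrict P hψP) :=
      ⟨hψ'inj, Finite.injective_iff_surjective.mp hψ'inj⟩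
    obtain ⟨η, hηdef⟩ : ∃ η : MulAut P, η = MulEquiv.ofBijective (ψ.codRestrict P hψP) hψ'bij :=
      ⟨_, rfl⟩
    have hηv : ∀ a : P, ((η a : P) : Ω) = ψ a := fun a => by
      rw [hηdef]
      rfl
    have hη : ∀ a : P, a ^ p = 1 → η a = a⁻¹ := by
      intro a ha
      have haV : (a : Ω) ∈ V := (hVmem _).mpr ⟨a.2, by
        have h1 := congrArg Subtype.val ha
        rwa [Subgroup.coe_pow] at h1⟩
      apply Subtype.ext
      rw [hηv, hψdef]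
      have h1 : ht' ⟨(a : Ω), hPext a.2⟩ = ((h ⟨(a : Ω), haV⟩ : V) : Ω) := hext' _ haV _
      show ht' ⟨(a : Ω), hPext a.2⟩ = ((a⁻¹ : P) : Ω)
      rw [h1, hhinv]
      rfl
    have hab := comm_of_inverting_aut (hS.to_le hPS) hp2 η hη ⟨x, hxP⟩ ⟨z₁, hz₁P⟩
    exact hz₁x (congrArg Subtype.val hab)
  refine ⟨hZS, ?_⟩
  intro Q hQ φ hφ y
  by_cases hy1 : (y : Ω) = 1
  · have h1 : y = 1 := Subtype.ext hy1
    rw [h1, map_one]
    exact Z₀.one_mem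
  · have hQeq : Q = Z₀ := by
      apply le_antisymm hQ
      intro w hw
      obtain ⟨k, rfl⟩ := exists_zpow_of_prime_card hZp (hQ y.2) hy1 hw
      exact Q.zpow_mem y.2 k
    subst hQeq
    exact hmain φ hφ y

end Cfsg.Agent.Lib.Helper26
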