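import Mathlib

/-!
# A product of two copies as functions on `Fin 2` (helper26)
-/

set_option autoImplicit false

namespace Cfsg.Agent.Lib.Helper26

/-- `A × A ≃ (Fin 2 → A)` in multiplicative notation. -/
def mulProdFinTwo (A : Type*) [AddCommGroup A] :
    Multiplicative A × Multiplicative A ≃* Multiplicative (Fin 2 → A) where
  toFun x := Multiplicative.ofAdd ![Multiplicative.toAdd x.1, Multiplicative.toAdd x.2]
  invFun f := (Multiplicative.ofAdd (Multiplicative.toAdd f 0),
    Multiplicative.ofAdd (Multiplicative.toAdd f 1))
  left_inv x := by
    apply Prod.ext <;> simp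
  right_inv f := by
    apply Multiplicative.toAdd.injective
    funext i
    fin_cases i <;> simp
  map_mul' x y := by
    apply Multiplicative.toAdd.injective
    funext i
    fin_cases i <;> simp

end Cfsg.Agent.Lib.Helper26
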