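import Mathlib
import Cfsg.Agent.S1969
import Cfsg.Agent.Lib.Helper12.KInf
import Cfsg.Agent.Lib.Helper12.QStab
import Cfsg.Agent.Lib.Helper12.KInfStable
import Cfsg.Agent.Lib.Helper9.QdStab

set_option autoImplicit false

namespace Cfsg.Agent.Lib.Helper26

open Cfsg

universe u

/-- In a `Qd(p)`-free group (`p` odd) the normalizer of the lower K-infinity subgroup of a given
Sylow `p`-subgroup controls strong fusion in that Sylow subgroup. -/
theorem qd_free_ctl {H : Type u} [Group H] [Finite H] {p : ℕ} [Fact p.Prime] (hp : p ≠ 2)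
    (hqd : ¬ Cfsg.Involves ↥(Cfsg.qd p) H) (T : Sylow p H) :
    Cfsg.Agent.S1969.Ctl ⊤ (T : Subgroup H)
      (Subgroup.normalizer
        ((Cfsg.inducedFunctor Cfsg.kInfLower (T : Subgroup H) : Subgroup H) : Set H)) := by
  have hst := Cfsg.Agent.Lib.Helper9.QdStab.sections_pstable_of_qd_free hp hqd
  have hq : Cfsg.Agent.Lib.Helper12.QStab.QStab p H :=
    Cfsg.Agent.Lib.Helper12.QStab.qstab_of_sections hst
  have hHyp : Cfsg.Agent.S1969.Hyp p Cfsg.kInfLower H := by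
    intro Y _ K f hf hc T
    haveI : Finite Y := Finite.of_surjective f hf
    exact (Cfsg.Agent.Lib.Helper12.KInfStable.kinf_normal_of_stable
      (Cfsg.Agent.Lib.Helper12.QStab.qstab_section hq K f hf) hc T).1
  exact Cfsg.Agent.S1969.main Cfsg.kInfLower
    (Cfsg.Agent.Lib.Helper12.KInf.isChar_kInfLower p) _ H rfl hHyp T

/-- The group-theoretic core of the solvability of the fusion system of a `Qd(p)`-free group:
above every proper strongly closed subgroup `R` of a Sylow `p`-subgroup `P` there is a strictly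
larger subgroup `W ≤ P` such that every conjugation map between subgroups of `P` containing `R`
agrees modulo `R` with conjugation by an element normalizing `W`. -/
theorem qd_free_factor_ctl {G : Type u} [Group G] [Finite G] {p : ℕ} [Fact p.Prime] (hp : p ≠ 2)
    (hqd : ¬ Cfsg.Involves ↥(Cfsg.qd p) G) (P : Sylow p G) (R : Subgroup G)
    (hRP : R ≤ (P : Subgroup G)) (hRne : R ≠ (P : Subgroup G))
    (hR : ∀ g : G, ∀ r ∈ R, g * r * g⁻¹ ∈ (P : Subgroup G) → g * r * g⁻¹ ∈ R) :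
    ∃ W : Subgroup G, R ≤ W ∧ W ≤ (P : Subgroup G) ∧ W ≠ R ∧
      ∀ (A : Subgroup G), R ≤ A → A ≤ (P : Subgroup G) → ∀ g : G,
        (∀ a ∈ A, g * a * g⁻¹ ∈ (P : Subgroup G)) →
        ∃ n : G, (∀ w, w ∈ W ↔ n * w * n⁻¹ ∈ W) ∧
          ∀ a ∈ A, (g * a * g⁻¹)⁻¹ * (n * a * n⁻¹) ∈ R := by
  have hnorm : ∀ g : G, (∀ r ∈ R, g * r * g⁻¹ ∈ R) → g ∈ Subgroup.normalizer (R : Set G) := by
    intro g hg
    rw [Subgroup.mem_normalizer_iff]
    intro x
    refine ⟨fun hx => hg x hx, fun hx => ?_⟩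
    have hinj : Function.Injective (fun r : R => (⟨g * r * g⁻¹, hg r r.2⟩ : R)) := by
      intro a b hab
      have h0 : g * (a : G) * g⁻¹ = g * (b : G) * g⁻¹ := congrArg (fun z : R => (z : G)) hab
      exact Subtype.ext (mul_left_cancel (mul_right_cancel h0))
    obtain ⟨r, hr⟩ := (Finite.injective_iff_surjective.mp hinj) ⟨g * x * g⁻¹, hx⟩
    have h2 : g * (r : G) * g⁻¹ = g * x * g⁻¹ := congrArg (fun z : R => (z : G)) hr
    have h3 : (r : G) = x := mul_left_cancel (mul_right_cancel h2)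
    rw [← h3]
    exact r.2
  obtain ⟨N, hN⟩ : ∃ N : Subgroup G, N = Subgroup.normalizer (R : Set G) := ⟨_, rfl⟩
  have hPN : (P : Subgroup G) ≤ N := by
    intro g hg
    rw [hN]
    exact hnorm g (fun r hr => hR g r hr
      ((P : Subgroup G).mul_mem ((P : Subgroup G).mul_mem hg (hRP hr)) ((P : Subgroup G).inv_mem hg)))
  have hRN : R ≤ N := hRP.trans hPN
  haveI hRn : (R.subgroupOf N).Normal := Subgroup.normal_subgroupOf_of_le_normalizer hN.le
  obtain ⟨π, hπ⟩ : ∃ π : ↥N →* ↥N ⧸ R.subgroupOf N, π = QuotientGroup.mk' (R.subgroupOf N) :=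
    ⟨_, rfl⟩
  have hπs : Function.Surjective π := by
    rw [hπ]
    exact QuotientGroup.mk'_surjective _
  have hπker : ∀ x : N, π x = 1 ↔ (x : G) ∈ R := by
    intro x
    rw [hπ]
    exact (QuotientGroup.eq_one_iff x).trans Subgroup.mem_subgroupOf
  have hqdH : ¬ Cfsg.Involves ↥(Cfsg.qd p) (↥N ⧸ R.subgroupOf N) :=
    Cfsg.Agent.Lib.Helper9.QdStab.qd_free_quotient
      (Cfsg.Agent.Lib.Helper9.QdStab.qd_free_subgroup hqd N) π hπs
  obtain ⟨T, hT⟩ : ∃ T : Sylow p (↥N ⧸ R.subgroupOf N),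
      (T : Subgroup (↥N ⧸ R.subgroupOf N)) = ((P : Subgroup G).subgroupOf N).map π :=
    ⟨(P.subtype hPN).mapSurjective hπs, by rw [Sylow.coe_mapSurjective]; rfl⟩
  have hctl := qd_free_ctl hp hqdH T
  obtain ⟨W₀, hW₀⟩ : ∃ W₀ : Subgroup (↥N ⧸ R.subgroupOf N),
      W₀ = Cfsg.inducedFunctor Cfsg.kInfLower (T : Subgroup (↥N ⧸ R.subgroupOf N)) := ⟨_, rfl⟩
  rw [← hW₀] at hctl
  have hW₀T : W₀ ≤ (T : Subgroup (↥N ⧸ R.subgroupOf N)) := by
    rw [hW₀]
    exact Subgroup.map_subtype_le _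
  have hTmem : ∀ x : N, π x ∈ (T : Subgroup (↥N ⧸ R.subgroupOf N)) ↔ (x : G) ∈ (P : Subgroup G) := by
    intro x
    rw [hT]
    constructor
    · rintro ⟨y, hy, hyx⟩
      have h1 : π (y⁻¹ * x) = 1 := by rw [map_mul, map_inv, hyx, inv_mul_cancel]
      have h2 := (hπker _).mp h1
      have h3 : (x : G) = (y : G) * ((y⁻¹ * x : N) : G) := by
        show (x : G) = (y : G) * ((y : G)⁻¹ * (x : G))
        group
      rw [h3]
      exact (P : Subgroup G).mul_mem (Subgroup.mem_subgroupOf.mp hy) (hRP h2)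
    · intro hx
      exact ⟨x, Subgroup.mem_subgroupOf.mpr hx, rfl⟩
  have hTne : (T : Subgroup (↥N ⧸ R.subgroupOf N)) ≠ ⊥ := by
    intro hbot
    apply hRne
    apply le_antisymm hRP
    intro x hx
    have h1 : π ⟨x, hPN hx⟩ ∈ (T : Subgroup (↥N ⧸ R.subgroupOf N)) := (hTmem _).mpr hx
    rw [hbot, Subgroup.mem_bot] at h1
    exact (hπker _).mp h1
  have hW₀ne : W₀ ≠ ⊥ := by
    rw [hW₀]
    exact ((Cfsg.Agent.S1969.isConj_induced Cfsg.kInfLower
      (Cfsg.Agent.Lib.Helper12.KInf.isChar_kInfLower p) _)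
        (T : Subgroup (↥N ⧸ R.subgroupOf N)) T.isPGroup').2.1 hTne
  refine ⟨(W₀.comap π).map N.subtype, ?_, ?_, ?_, ?_⟩
  · intro r hr
    refine ⟨⟨r, hRN hr⟩, ?_, rfl⟩
    show π ⟨r, hRN hr⟩ ∈ W₀
    rw [(hπker _).mpr hr]
    exact W₀.one_mem
  · rintro _ ⟨x, hx, rfl⟩
    exact (hTmem x).mp (hW₀T hx)
  · intro hWR
    apply hW₀ne
    rw [eq_bot_iff]
    intro w hw
    obtain ⟨x, rfl⟩ := hπs w
    have h1 : (x : G) ∈ (W₀.comap π).map N.subtype := ⟨x, hw, rfl⟩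
    rw [hWR] at h1
    exact Subgroup.mem_bot.mpr ((hπker x).mpr h1)
  · intro A hRA hAP g hg
    have hgN : g ∈ N := by
      rw [hN]
      exact hnorm g (fun r hr => hR g r hr (hg r (hRA hr)))
    have hA1 : (fun a : N => π a) '' {a : N | (a : G) ∈ A} ⊆
        ((T : Subgroup (↥N ⧸ R.subgroupOf N)) : Set (↥N ⧸ R.subgroupOf N)) := by
      rintro _ ⟨a, ha, rfl⟩
      exact (hTmem a).mpr (hAP ha)
    have hA2 : ∀ a ∈ (fun a : N => π a) '' {a : N | (a : G) ∈ A},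
        π ⟨g, hgN⟩ * a * (π ⟨g, hgN⟩)⁻¹ ∈ (T : Subgroup (↥N ⧸ R.subgroupOf N)) := by
      rintro _ ⟨a, ha, rfl⟩
      show π ⟨g, hgN⟩ * π a * (π ⟨g, hgN⟩)⁻¹ ∈ (T : Subgroup (↥N ⧸ R.subgroupOf N))
      rw [← map_inv, ← map_mul, ← map_mul]
      exact (hTmem _).mpr (hg a ha)
    obtain ⟨x, hx, hx2⟩ := hctl _ (π ⟨g, hgN⟩) (Subgroup.mem_top _) hA1 hA2
    obtain ⟨n, rfl⟩ := hπs x
    have hx' := Subgroup.mem_normalizer_iff.mp hx
    refine ⟨n, fun w => ?_, fun a ha => ?_⟩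
    · constructor
      · rintro ⟨y, hy, rfl⟩
        refine ⟨n * y * n⁻¹, ?_, rfl⟩
        show π (n * y * n⁻¹) ∈ W₀
        rw [map_mul, map_mul, map_inv]
        exact (hx' _).mp hy
      · rintro ⟨y, hy, hyw⟩
        have hyw' : (y : G) = n * w * (n : G)⁻¹ := hyw
        refine ⟨n⁻¹ * y * n, ?_, ?_⟩
        · show π (n⁻¹ * y * n) ∈ W₀
          apply (hx' _).mpr
          have h5 : π n * π (n⁻¹ * y * n) * (π n)⁻¹ = π y := by
            rw [← map_inv, ← map_mul, ← map_mul]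
            congr 1
            group
          rw [h5]
          exact hy
        · show (n : G)⁻¹ * (y : G) * (n : G) = w
          rw [hyw']
          group
    · have haN : a ∈ N := hPN (hAP ha)
      have h1 := hx2 (π ⟨a, haN⟩) ⟨⟨a, haN⟩, ha, rfl⟩
      have h2 : π ((⟨g, hgN⟩ * ⟨a, haN⟩ * (⟨g, hgN⟩ : N)⁻¹)⁻¹ * (n * ⟨a, haN⟩ * n⁻¹)) = 1 := by
        rw [map_mul, map_inv, map_mul, map_mul, map_inv, map_mul, map_mul, map_inv, h1]
        group
      exact (hπker _).mp h2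

end Cfsg.Agent.Lib.Helper26
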