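import Mathlib
import Cfsg.Prelude.Def_FusionComponents
import Cfsg.Agent.Lib.Helper26.FusFactor3

set_option autoImplicit false

namespace Cfsg.Agent.Lib.Helper26

open Cfsg Cfsg.FusionSystem

universe u v

section pre

variable {Ω : Type u} [Group Ω] {S : Subgroup Ω} {Ω' : Type v} [Group Ω']

/-- Every map of the system whose source is a full preimage along `θ` induces a homomorphism on
the subgroup it is the preimage of. -/
theorem exists_induced_pre (F : FusionSystem S) {S₀ : Subgroup Ω} (hS₀ : F.StronglyClosed S₀)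
    (θ : S →* Ω') (hker : ∀ s : S, θ s = 1 ↔ (s : Ω) ∈ S₀) {S' : Subgroup Ω'}
    (hrange : θ.range = S') {P' : Subgroup Ω'} (hP'S : P' ≤ S')
    {φ : ↥(preimageAlong θ P') →* Ω} (hφ : φ ∈ F.Hom (preimageAlong θ P')) :
    ∃ φ' : P' →* Ω', InducedAlong θ φ φ' := by
  have hP : preimageAlong θ P' ≤ S := preimageAlong_le θ P'
  have hφS : ∀ x : ↥(preimageAlong θ P'), φ x ∈ S := (F.le_of_mem hφ).2
  have hmem : ∀ x : ↥(preimageAlong θ P'), θ ⟨x, hP x.2⟩ ∈ P' := fun x => by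
    obtain ⟨_, h⟩ := (mem_preimageAlong_iff θ _).mp x.2
    exact h
  have hf : Function.Surjective ((θ.comp (Subgroup.inclusion hP)).codRestrict P' hmem) := by
    intro x'
    obtain ⟨y, hy⟩ := exists_preimage θ hrange hP'S x'
    exact ⟨y, Subtype.ext hy⟩
  have hk : ((θ.comp (Subgroup.inclusion hP)).codRestrict P' hmem).ker ≤
      (θ.comp (φ.codRestrict S hφS)).ker := by
    intro x hx
    rw [MonoidHom.mem_ker] at hx ⊢
    have h1 : θ ⟨x, hP x.2⟩ = 1 := congrArg (fun z : ↥P' => (z : Ω')) hx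
    have h2 : (x : Ω) ∈ S₀ := (hker _).mp h1
    have h3 : φ x ∈ S₀ := stronglyClosed_map_mem F hS₀ hφ x h2
    exact (hker ⟨φ x, hφS x⟩).mpr h3
  refine ⟨MonoidHom.liftOfSurjective _ hf ⟨θ.comp (φ.codRestrict S hφS), hk⟩, hP, hφS, hmem,
    fun x => ?_⟩
  exact MonoidHom.liftOfRightInverse_comp_apply _ _ _ ⟨θ.comp (φ.codRestrict S hφS), hk⟩ x

end pre

/-- If, above a strongly closed subgroup `R` of `P`, a strictly larger subgroup `W ≤ P` is such
that every conjugation map between overgroups of `R` in `P` agrees modulo `R` with conjugation by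
an element normalizing `W`, then every factor system of `F_P(G)` modulo `R` has a nontrivial
normal subgroup. -/
theorem factor_core_ne_bot {G : Type u} [Group G] (P : Subgroup G) (R W : Subgroup G)
    (hR : (groupFusionSystem P).StronglyClosed R) (hRW : R ≤ W) (hWP : W ≤ P) (hWR : W ≠ R)
    (hctl : ∀ (A : Subgroup G), R ≤ A → A ≤ P → ∀ g : G, (∀ a ∈ A, g * a * g⁻¹ ∈ P) →
        ∃ n : G, (∀ w, w ∈ W ↔ n * w * n⁻¹ ∈ W) ∧
          ∀ a ∈ A, (g * a * g⁻¹)⁻¹ * (n * a * n⁻¹) ∈ R)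
    {Ω' : Type v} [Group Ω'] {S' : Subgroup Ω'} (θ : P →* Ω') (E : FusionSystem S')
    (hE : (groupFusionSystem P).IsFactorSystem R θ E) : E.core ≠ ⊥ := by
  obtain ⟨hRS, hker, hrange, hHom⟩ := hE
  have hQ'S : imageAlong θ W ≤ S' := hrange ▸ imageAlong_le_range θ W
  have hQn : E.IsNormal (imageAlong θ W) := by
    refine ⟨hQ'S, fun P' φ' hφ' => ?_⟩
    obtain ⟨hP'S, φ, hφ, hind0⟩ := (hHom P' φ').mp hφ'
    obtain ⟨hA, hφS, hAP', hind⟩ := hind0
    obtain ⟨hAP, hφP, g, hg⟩ := hφ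
    have hgP : ∀ a ∈ preimageAlong θ P', g * a * g⁻¹ ∈ P := fun a ha => by
      have h0 := hφP ⟨a, ha⟩
      rw [hg] at h0
      exact h0
    have hRA : R ≤ preimageAlong θ P' := fun t ht =>
      (mem_preimageAlong_iff θ P').mpr ⟨hRS ht, by
        rw [(hker ⟨t, hRS ht⟩).mpr ht]
        exact P'.one_mem⟩
    obtain ⟨n, hnW, hnA⟩ := hctl (preimageAlong θ P') hRA hAP g hgP
    have hsupS : P' ⊔ imageAlong θ W ≤ S' := sup_le hP'S hQ'S
    have hD : preimageAlong θ (P' ⊔ imageAlong θ W) ≤ preimageAlong θ P' ⊔ W := by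
      have h1 : P' ⊔ imageAlong θ W ≤ imageAlong θ (preimageAlong θ P' ⊔ W) := by
        apply sup_le
        · intro x' hx'
          obtain ⟨y, hy⟩ := exists_preimage θ hrange hP'S ⟨x', hx'⟩
          exact (mem_imageAlong_iff θ _).mpr
            ⟨⟨y, preimageAlong_le θ P' y.2⟩, Subgroup.mem_sup_left y.2, hy⟩
        · intro x' hx'
          obtain ⟨s, hs, rfl⟩ := (mem_imageAlong_iff θ W).mp hx'
          exact (mem_imageAlong_iff θ _).mpr ⟨s, Subgroup.mem_sup_right hs, rfl⟩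
      intro y hy
      obtain ⟨hyS, hy'⟩ := (mem_preimageAlong_iff θ _).mp hy
      have h2 : y ∈ preimageAlong θ (imageAlong θ (preimageAlong θ P' ⊔ W)) :=
        (mem_preimageAlong_iff θ _).mpr ⟨hyS, h1 hy'⟩
      have h3 := preimage_image_le θ hker _ h2
      exact (sup_le le_rfl (hRA.trans le_sup_left)) h3
    have hnP : ∀ d ∈ preimageAlong θ P' ⊔ W, n * d * n⁻¹ ∈ P := by
      have h1 : preimageAlong θ P' ⊔ W ≤ P.comap (MulAut.conj n).toMonoidHom := by
        apply sup_le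
        · intro a ha
          show n * a * n⁻¹ ∈ P
          have h2 := hnA a ha
          have h4 : n * a * n⁻¹ = (g * a * g⁻¹) * ((g * a * g⁻¹)⁻¹ * (n * a * n⁻¹)) := by group
          rw [h4]
          exact P.mul_mem (hgP a ha) (hRS h2)
        · intro w hw
          show n * w * n⁻¹ ∈ P
          exact hWP ((hnW w).mp hw)
      intro d hd
      exact h1 hd
    have hDP : preimageAlong θ (P' ⊔ imageAlong θ W) ≤ P := preimageAlong_le θ _
    have hφ₂ : conjHom (preimageAlong θ (P' ⊔ imageAlong θ W)) n ∈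
        (groupFusionSystem P).Hom (preimageAlong θ (P' ⊔ imageAlong θ W)) :=
      ⟨hDP, fun x => hnP x (hD x.2), n, fun x => rfl⟩
    obtain ⟨ψ', hψ'ind⟩ := exists_induced_pre (groupFusionSystem P) hR θ hker hrange hsupS hφ₂
    have hψ'E : ψ' ∈ E.Hom (P' ⊔ imageAlong θ W) := (hHom _ ψ').mpr ⟨hsupS, _, hφ₂, hψ'ind⟩
    obtain ⟨hD', hφ₂S, hDP', hind2⟩ := hψ'ind
    refine ⟨ψ', hψ'E, fun x' => ?_, ?_⟩
    · obtain ⟨y, hy⟩ := exists_preimage θ hrange hP'S x'
      have hyD : (y : G) ∈ preimageAlong θ (P' ⊔ imageAlong θ W) :=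
        (mem_preimageAlong_iff θ _).mpr ⟨hA y.2, Subgroup.mem_sup_left (hAP' y)⟩
      have e1 : Subgroup.inclusion le_sup_left x' =
          ⟨θ ⟨((⟨y, hyD⟩ : ↥(preimageAlong θ (P' ⊔ imageAlong θ W))) : G), hD' hyD⟩,
            hDP' ⟨y, hyD⟩⟩ := Subtype.ext hy.symm
      have e2 : x' = ⟨θ ⟨y, hA y.2⟩, hAP' y⟩ := Subtype.ext hy.symm
      rw [e1, hind2, e2, hind]
      apply theta_eq_of θ hker
      show (n * (y : G) * n⁻¹)⁻¹ * φ y ∈ R
      rw [hg]
      have h5 := R.inv_mem (hnA y y.2)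
      have h6 : ((g * (y : G) * g⁻¹)⁻¹ * (n * (y : G) * n⁻¹))⁻¹ =
          (n * (y : G) * n⁻¹)⁻¹ * (g * (y : G) * g⁻¹) := by group
      rw [h6] at h5
      exact h5
    · apply le_antisymm
      · rintro _ ⟨z, hz, rfl⟩
        have hz' : (z : Ω') ∈ imageAlong θ W := Subgroup.mem_subgroupOf.mp hz
        obtain ⟨s, hs, hsz⟩ := (mem_imageAlong_iff θ W).mp hz'
        have hsD : (s : G) ∈ preimageAlong θ (P' ⊔ imageAlong θ W) :=
          (mem_preimageAlong_iff θ _).mpr ⟨s.2, by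
            show θ s ∈ P' ⊔ imageAlong θ W
            rw [hsz]
            exact z.2⟩
        have e1 : z = ⟨θ ⟨((⟨s, hsD⟩ : ↥(preimageAlong θ (P' ⊔ imageAlong θ W))) : G), hD' hsD⟩,
            hDP' ⟨s, hsD⟩⟩ := Subtype.ext hsz.symm
        rw [e1]
        show ψ' _ ∈ imageAlong θ W
        rw [hind2]
        exact (mem_imageAlong_iff θ W).mpr ⟨⟨_, hφ₂S ⟨s, hsD⟩⟩, (hnW s).mp hs, rfl⟩
      · intro q hq
        obtain ⟨s, hs, rfl⟩ := (mem_imageAlong_iff θ W).mp hq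
        have ht : n⁻¹ * (s : G) * n ∈ W := by
          apply (hnW _).mpr
          have h7 : n * (n⁻¹ * (s : G) * n) * n⁻¹ = s := by group
          rw [h7]
          exact hs
        have htP : n⁻¹ * (s : G) * n ∈ P := hWP ht
        have htQ : θ ⟨n⁻¹ * (s : G) * n, htP⟩ ∈ imageAlong θ W :=
          (mem_imageAlong_iff θ W).mpr ⟨⟨_, htP⟩, ht, rfl⟩
        have htD : n⁻¹ * (s : G) * n ∈ preimageAlong θ (P' ⊔ imageAlong θ W) :=
          (mem_preimageAlong_iff θ _).mpr ⟨htP, Subgroup.mem_sup_right htQ⟩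
        refine ⟨⟨θ ⟨_, hD' htD⟩, hDP' ⟨_, htD⟩⟩, Subgroup.mem_subgroupOf.mpr htQ, ?_⟩
        show ψ' ⟨θ ⟨((⟨_, htD⟩ : ↥(preimageAlong θ (P' ⊔ imageAlong θ W))) : G), hD' htD⟩,
            hDP' ⟨_, htD⟩⟩ = θ s
        rw [hind2]
        congr 1
        apply Subtype.ext
        show n * (n⁻¹ * (s : G) * n) * n⁻¹ = s
        group
  have hQne : imageAlong θ W ≠ ⊥ := by
    intro hbot
    apply hWR
    apply le_antisymm _ hRW
    intro w hw
    have h1 : θ ⟨w, hWP hw⟩ ∈ imageAlong θ W :=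
      (mem_imageAlong_iff θ W).mpr ⟨⟨w, hWP hw⟩, hw, rfl⟩
    rw [hbot, Subgroup.mem_bot] at h1
    exact (hker _).mp h1
  intro hcore
  apply hQne
  rw [eq_bot_iff, ← hcore]
  exact le_sSup hQn

end Cfsg.Agent.Lib.Helper26
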