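import Mathlib
import Cfsg.Prelude.Def_LocalEven
import Cfsg.Agent.Lib.Helper16.QuadSec5
import Cfsg.Agent.Lib.Helper26.FusModel3

/-!
# Visible `Qd(p)`-data (helper26)

`Vis p U θ`: a `p`-subgroup `U` of a group `X`, an additive surjection `θ` of `U` onto `𝔽_p²`, and
for every `A ∈ SL₂(p)` an element normalizing `U` and acting through `A`.  Such data give a section
`Qd(p)` (`involves_of_vis`), and every finite group involving `Qd(p)` has such data
(`exists_vis`).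
-/

set_option autoImplicit false

namespace Cfsg.Agent.Lib.Helper26

open Cfsg Cfsg.Agent.Lib.Helper16.QdOver Cfsg.Agent.Lib.Helper16.QuadSec
open scoped Matrix Pointwise

universe u

/-- visible `Qd(p)`-data on the subgroup `U` -/
def Vis (p : ℕ) {X : Type*} [Group X] (U : Subgroup X) (θ : X → (Fin 2 → ZMod p)) : Prop :=
  IsPGroup p U ∧ (∀ a ∈ U, ∀ b ∈ U, θ (a * b) = θ a + θ b) ∧ (∀ z, ∃ u ∈ U, θ u = z) ∧
    ∀ A : Matrix.SpecialLinearGroup (Fin 2) (ZMod p), ∃ k : X, (∀ u ∈ U, k * u * k⁻¹ ∈ U) ∧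
      ∀ u ∈ U, θ (k * u * k⁻¹) = A.1 *ᵥ θ u

theorem conj_mem_symm_of_finite {X : Type*} [Group X] (U : Subgroup X) [Finite U] (k : X)
    (h : ∀ u ∈ U, k * u * k⁻¹ ∈ U) : ∀ u ∈ U, k⁻¹ * u * k ∈ U := by
  intro u hu
  have hinj : Function.Injective (fun r : U => (⟨k * r * k⁻¹, h r r.2⟩ : U)) := by
    intro a b hab
    have h0 : k * (a : X) * k⁻¹ = k * (b : X) * k⁻¹ := congrArg (fun z : U => (z : X)) hab
    exact Subtype.ext (mul_left_cancel (mul_right_cancel h0))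
  obtain ⟨r, hr⟩ := (Finite.injective_iff_surjective.mp hinj) ⟨u, hu⟩
  have h2 : k * (r : X) * k⁻¹ = u := congrArg (fun z : U => (z : X)) hr
  have h3 : k⁻¹ * u * k = r := by
    rw [← h2]
    group
  rw [h3]
  exact r.2

theorem normalizer_of_conj_mem {X : Type*} [Group X] (U : Subgroup X) [Finite U] (k : X)
    (h : ∀ u ∈ U, k * u * k⁻¹ ∈ U) : k ∈ Subgroup.normalizer (U : Set X) := by
  rw [Subgroup.mem_normalizer_iff]
  intro x
  refine ⟨fun hx => h x hx, fun hx => ?_⟩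
  have h1 := conj_mem_symm_of_finite U k h _ hx
  have h2 : k⁻¹ * (k * x * k⁻¹) * k = x := by group
  rw [h2] at h1
  exact h1

/-- visible data give a section `Qd(p)` -/
theorem involves_of_vis {X : Type u} [Group X] [Finite X] {p : ℕ} [Fact p.Prime] (hp : p ≠ 2)
    (U : Subgroup X) (θ : X → (Fin 2 → ZMod p)) (h : Vis p U θ) : Involves ↥(Cfsg.qd p) X := by
  classical
  obtain ⟨hUp, hadd, hsurj, hact⟩ := h
  have hpp : p.Prime := Fact.out
  have hθ1 : θ 1 = 0 := by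
    have h1 := hadd 1 U.one_mem 1 U.one_mem
    rw [mul_one] at h1
    exact add_eq_left.mp h1.symm
  have hθinv : ∀ x ∈ U, θ x⁻¹ = -θ x := by
    intro x hx
    have h1 := hadd x⁻¹ (U.inv_mem hx) x hx
    rw [inv_mul_cancel, hθ1] at h1
    exact eq_neg_of_add_eq_zero_left h1.symm
  have hmv1 : ∀ v : Fin 2 → ZMod p,
      (1 : Matrix.SpecialLinearGroup (Fin 2) (ZMod p)).1 *ᵥ v = v := fun v => by
    rw [Matrix.SpecialLinearGroup.coe_one, Matrix.one_mulVec]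
  have hmvm : ∀ (A B : Matrix.SpecialLinearGroup (Fin 2) (ZMod p)) (v : Fin 2 → ZMod p),
      (A * B).1 *ᵥ v = A.1 *ᵥ (B.1 *ᵥ v) := fun A B v => by
    rw [Matrix.SpecialLinearGroup.coe_mul, Matrix.mulVec_mulVec]
  let Kg : Subgroup (X × Matrix.SpecialLinearGroup (Fin 2) (ZMod p)) :=
    { carrier := {y | (∀ u ∈ U, y.1 * u * y.1⁻¹ ∈ U) ∧ (∀ u ∈ U, y.1⁻¹ * u * y.1 ∈ U) ∧
        ∀ u ∈ U, θ (y.1 * u * y.1⁻¹) = y.2.1 *ᵥ θ u}
      mul_mem' := by
        rintro a b ⟨ha1, ha2, ha3⟩ ⟨hb1, hb2, hb3⟩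
        refine ⟨fun u hu => ?_, fun u hu => ?_, fun u hu => ?_⟩
        · have e : (a * b).1 * u * (a * b).1⁻¹ = a.1 * (b.1 * u * b.1⁻¹) * a.1⁻¹ := by
            rw [Prod.fst_mul]
            group
          rw [e]
          exact ha1 _ (hb1 u hu)
        · have e : (a * b).1⁻¹ * u * (a * b).1 = b.1⁻¹ * (a.1⁻¹ * u * a.1) * b.1 := by
            rw [Prod.fst_mul]
            group
          rw [e]
          exact hb2 _ (ha2 u hu)
        · have e : (a * b).1 * u * (a * b).1⁻¹ = a.1 * (b.1 * u * b.1⁻¹) * a.1⁻¹ := by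
            rw [Prod.fst_mul]
            group
          rw [e, ha3 _ (hb1 u hu), hb3 u hu, Prod.snd_mul, hmvm]
      one_mem' := by
        refine ⟨fun u hu => ?_, fun u hu => ?_, fun u hu => ?_⟩
        · have e : (1 : X × Matrix.SpecialLinearGroup (Fin 2) (ZMod p)).1 * u *
              (1 : X × Matrix.SpecialLinearGroup (Fin 2) (ZMod p)).1⁻¹ = u := by
            rw [Prod.fst_one]
            group
          rw [e]
          exact hu
        · have e : (1 : X × Matrix.SpecialLinearGroup (Fin 2) (ZMod p)).1⁻¹ * u *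
              (1 : X × Matrix.SpecialLinearGroup (Fin 2) (ZMod p)).1 = u := by
            rw [Prod.fst_one]
            group
          rw [e]
          exact hu
        · have e : (1 : X × Matrix.SpecialLinearGroup (Fin 2) (ZMod p)).1 * u *
              (1 : X × Matrix.SpecialLinearGroup (Fin 2) (ZMod p)).1⁻¹ = u := by
            rw [Prod.fst_one]
            group
          rw [e, Prod.snd_one, hmv1]
      inv_mem' := by
        rintro a ⟨ha1, ha2, ha3⟩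
        refine ⟨fun u hu => ?_, fun u hu => ?_, fun u hu => ?_⟩
        · have e : (a⁻¹).1 * u * (a⁻¹).1⁻¹ = a.1⁻¹ * u * a.1 := by
            rw [Prod.fst_inv, inv_inv]
          rw [e]
          exact ha2 u hu
        · have e : (a⁻¹).1⁻¹ * u * (a⁻¹).1 = a.1 * u * a.1⁻¹ := by
            rw [Prod.fst_inv, inv_inv]
          rw [e]
          exact ha1 u hu
        · have h1 := ha3 _ (ha2 u hu)
          have h2 : a.1 * (a.1⁻¹ * u * a.1) * a.1⁻¹ = u := by group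
          rw [h2] at h1
          have e : (a⁻¹).1 * u * (a⁻¹).1⁻¹ = a.1⁻¹ * u * a.1 := by
            rw [Prod.fst_inv, inv_inv]
          rw [e]
          conv_rhs => rw [h1]
          rw [Prod.snd_inv, ← hmvm, inv_mul_cancel, hmv1] }
  have hKg : ∀ y : X × Matrix.SpecialLinearGroup (Fin 2) (ZMod p), y ∈ Kg ↔
      (∀ u ∈ U, y.1 * u * y.1⁻¹ ∈ U) ∧ (∀ u ∈ U, y.1⁻¹ * u * y.1 ∈ U) ∧
        ∀ u ∈ U, θ (y.1 * u * y.1⁻¹) = y.2.1 *ᵥ θ u := fun y => Iff.rfl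
  obtain ⟨ρ, hρ⟩ : ∃ ρ : ↥Kg →* Matrix.SpecialLinearGroup (Fin 2) (ZMod p),
      ∀ y : ↥Kg, ρ y = (y : X × Matrix.SpecialLinearGroup (Fin 2) (ZMod p)).2 :=
    ⟨(MonoidHom.snd X _).comp Kg.subtype, fun y => rfl⟩
  obtain ⟨ν, hν⟩ : ∃ ν : ↥Kg →* X,
      ∀ y : ↥Kg, ν y = (y : X × Matrix.SpecialLinearGroup (Fin 2) (ZMod p)).1 :=
    ⟨(MonoidHom.fst X _).comp Kg.subtype, fun y => rfl⟩
  have hρs : Function.Surjective ρ := by
    intro A
    obtain ⟨k, hk1, hk2⟩ := hact A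
    exact ⟨⟨(k, A), (hKg _).mpr ⟨hk1, conj_mem_symm_of_finite U k hk1, hk2⟩⟩, hρ _⟩
  obtain ⟨N', t₁, ht₁N, hρt₁, hN's, hN'2⟩ :=
    exists_frattini_supplement ρ hρs (negOne p) (negOne_central p) (negOne_sq p)
  have h2z : (2 : ZMod p) ≠ 0 := by
    intro h5
    have h6 : ((2 : ℕ) : ZMod p) = 0 := by exact_mod_cast h5
    rw [ZMod.natCast_eq_zero_iff] at h6
    exact hp ((Nat.prime_dvd_prime_iff_eq hpp Nat.prime_two).mp h6)
  show Involves ↥(Cfsg.qdOver (ZMod p)) X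
  refine involves_qd_of_data (p := p) U (ν.comp N'.subtype) ?_ θ (ρ.comp N'.subtype) hadd hsurj
    ?_ ?_ ?_
  · intro n u hu
    show ν (n : ↥Kg) * u * (ν (n : ↥Kg))⁻¹ ∈ U
    rw [hν]
    exact ((hKg _).mp (n : ↥Kg).2).1 u hu
  · intro s
    obtain ⟨n, hn, hns⟩ := hN's s
    exact ⟨⟨n, hn⟩, hns⟩
  · intro n u hu
    show θ (ν (n : ↥Kg) * u * (ν (n : ↥Kg))⁻¹) = (ρ (n : ↥Kg)).1 *ᵥ θ u
    rw [hν, hρ]
    exact ((hKg _).mp (n : ↥Kg).2).2.2 u hu
  · intro n hn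
    obtain ⟨k, hk⟩ : ∃ k : X, k = ν (n : ↥Kg) := ⟨_, rfl⟩
    obtain ⟨t, ht⟩ : ∃ t : X, t = ν t₁ := ⟨_, rfl⟩
    have hkU : k ∈ U := by
      rw [hk]
      exact hn
    have htn := (hKg _).mp t₁.2
    have hnn := (hKg _).mp (n : ↥Kg).2
    obtain ⟨j, hj⟩ := hN'2 (n : ↥Kg) n.2
    have hj' : (k * t * k⁻¹ * t⁻¹) ^ 2 ^ j = 1 := by
      have h1 := congrArg ν hj
      rw [map_pow, map_mul, map_mul, map_mul, map_inv, map_inv, map_one, ← hk, ← ht] at h1
      exact h1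
    have hwU : k * t * k⁻¹ * t⁻¹ ∈ U := by
      have h1 : t * k⁻¹ * t⁻¹ ∈ U := by
        rw [ht, hν]
        exact htn.1 _ (U.inv_mem hkU)
      have h2 : k * t * k⁻¹ * t⁻¹ = k * (t * k⁻¹ * t⁻¹) := by group
      rw [h2]
      exact U.mul_mem hkU h1
    obtain ⟨i, hi⟩ := hUp ⟨_, hwU⟩
    have hi' : (k * t * k⁻¹ * t⁻¹) ^ p ^ i = 1 := congrArg (fun z : U => (z : X)) hi
    have hco : (orderOf (k * t * k⁻¹ * t⁻¹)).Coprime p := by
      have h1 : orderOf (k * t * k⁻¹ * t⁻¹) ∣ 2 ^ j := orderOf_dvd_of_pow_eq_one hj'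
      have h2 : Nat.Coprime 2 p := (Nat.coprime_primes Nat.prime_two hpp).mpr (Ne.symm hp)
      exact Nat.Coprime.coprime_dvd_left h1 (Nat.Coprime.pow_left j h2)
    have hw1 : k * t * k⁻¹ * t⁻¹ = 1 := eq_one_of_pprime_of_pow i hi' hco
    have hcomm : t * k * t⁻¹ = k := by
      have h1 : k * t * k⁻¹ = t := mul_inv_eq_one.mp hw1
      have h2 : k * t = t * k := mul_inv_eq_iff_eq_mul.mp h1
      rw [← h2, mul_inv_cancel_right]
    have hθk : θ k = 0 := by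
      have h1 := htn.2.2 k hkU
      rw [← hν, ← ht, hcomm, ← hρ, hρt₁, negOne_mulVec] at h1
      funext i
      have h3 : θ k i = -θ k i := congrFun h1 i
      have h4 : (2 : ZMod p) * θ k i = 0 := by
        rw [two_mul]
        nth_rewrite 1 [h3]
        exact neg_add_cancel _
      rcases mul_eq_zero.mp h4 with h5 | h5
      · exact absurd h5 h2z
      · exact h5
    refine ⟨?_, ?_⟩
    · show θ (ν (n : ↥Kg)) = 0
      rw [← hk]
      exact hθk
    have hfix : ∀ z : Fin 2 → ZMod p, (ρ (n : ↥Kg)).1 *ᵥ z = z := by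
      intro z
      obtain ⟨u, hu, rfl⟩ := hsurj z
      have h1 := hnn.2.2 u hu
      rw [← hν, ← hk, ← hρ] at h1
      rw [← h1, hadd _ (U.mul_mem hkU hu) _ (U.inv_mem hkU), hadd k hkU u hu, hθinv k hkU, hθk]
      simp
    show ρ (n : ↥Kg) = 1
    apply Subtype.ext
    rw [Matrix.SpecialLinearGroup.coe_one]
    apply Matrix.ext_of_mulVec_single
    intro i
    rw [hfix, Matrix.one_mulVec]

/-- conjugation of a translation in `Qd` -/
theorem qd_conj_tr {F : Type*} [Field F] (M : ↥(Cfsg.qdOver F)) (w : Fin 2 → F) :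
    M * tr w * M⁻¹ = tr ((blk M).1 *ᵥ w) := by
  obtain ⟨z, hz⟩ := eq_tr_mul_dg M
  obtain ⟨B, hB⟩ : ∃ B : Matrix.SpecialLinearGroup (Fin 2) F, B = blk M := ⟨_, rfl⟩
  rw [← hB] at hz ⊢
  have h1 : M * tr w = tr (B.1 *ᵥ w) * M := by
    rw [hz, mul_assoc, dg_mul_tr, ← mul_assoc, tr_mul, ← mul_assoc, tr_mul, add_comm]
  rw [h1, mul_inv_cancel_right]

/-- every finite group involving `Qd(p)` carries visible `Qd(p)`-data -/
theorem exists_vis {G : Type u} [Group G] [Finite G] {p : ℕ} [Fact p.Prime]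
    (h : Involves ↥(Cfsg.qd p) G) :
    ∃ (Q : Subgroup G) (θ : G → (Fin 2 → ZMod p)), Vis p Q θ := by
  classical
  obtain ⟨K, f, hf⟩ : ∃ (K : Subgroup G) (f : ↥K →* ↥(Cfsg.qdOver (ZMod p))),
      Function.Surjective f := by
    obtain ⟨K, R, hn, ⟨e⟩⟩ := h
    exact ⟨K, e.toMonoidHom.comp (QuotientGroup.mk' (R.subgroupOf K)),
      e.surjective.comp (QuotientGroup.mk'_surjective _)⟩
  obtain ⟨hb, hhb⟩ : ∃ hb : ↥K →* Matrix.SpecialLinearGroup (Fin 2) (ZMod p),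
      ∀ x, hb x = blk (f x) := ⟨blk.comp f, fun x => rfl⟩
  have hbs : Function.Surjective hb := by
    intro A
    obtain ⟨M, hM⟩ := blk_surjective (F := ZMod p) A
    obtain ⟨x, hx⟩ := hf M
    exact ⟨x, by rw [hhb, hx, hM]⟩
  obtain ⟨Q₀⟩ : Nonempty (Sylow p hb.ker) := Sylow.nonempty
  have hfr := Sylow.normalizer_sup_eq_top Q₀
  obtain ⟨QK, hQK⟩ : ∃ QK : Subgroup ↥K, QK = (Q₀ : Subgroup hb.ker).map hb.ker.subtype :=
    ⟨_, rfl⟩
  rw [← hQK] at hfr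
  obtain ⟨τ, hτ⟩ : ∃ τ : ↥(Cfsg.qdOver (ZMod p)) → (Fin 2 → ZMod p),
      ∀ M, τ M = ![M.1.1 0 2, M.1.1 1 2] := ⟨fun M => ![M.1.1 0 2, M.1.1 1 2], fun M => rfl⟩
  have hτtr : ∀ z : Fin 2 → ZMod p, τ (tr z) = z := by
    intro z
    rw [hτ]
    funext i
    fin_cases i <;> rfl
  have hker : ∀ M : ↥(Cfsg.qdOver (ZMod p)), blk M = 1 → M = tr (τ M) := fun M hM => by
    rw [hτ]
    exact eq_tr_of_blk M hM
  obtain ⟨θ, hθ⟩ : ∃ θ : G → (Fin 2 → ZMod p), ∀ x : K, θ (x : G) = τ (f x) :=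
    ⟨fun x => if hx : x ∈ K then τ (f ⟨x, hx⟩) else 0, fun x => dif_pos x.2⟩
  have hQker : ∀ q ∈ QK, blk (f q) = 1 := by
    intro q hq
    rw [hQK] at hq
    obtain ⟨q', -, rfl⟩ := hq
    have h1 := q'.2
    rw [MonoidHom.mem_ker, hhb] at h1
    exact h1
  have hQtr : ∀ q ∈ QK, f q = tr (θ (q : G)) := by
    intro q hq
    rw [hθ]
    exact hker _ (hQker q hq)
  refine ⟨QK.map K.subtype, θ, ?_, ?_, ?_, ?_⟩
  · rw [hQK]
    exact (Q₀.isPGroup'.map _).map _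
  · rintro _ ⟨a, ha, rfl⟩ _ ⟨b, hb', rfl⟩
    show θ ((a * b : K) : G) = θ (a : G) + θ (b : G)
    have h1 : f (a * b) = tr (θ (a : G) + θ (b : G)) := by
      rw [map_mul, hQtr a ha, hQtr b hb', tr_mul]
    rw [hθ (a * b), h1, hτtr]
  · intro z
    have hcod : ∀ x : hb.ker, f (x : K) ∈ (blk (F := ZMod p)).ker := by
      intro x
      have h1 := x.2
      rw [MonoidHom.mem_ker, hhb] at h1
      exact MonoidHom.mem_ker.mpr h1
    obtain ⟨fV, hfV⟩ : ∃ fV : ↥hb.ker →* ↥(blk (F := ZMod p)).ker,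
        ∀ x, ((fV x : ↥(blk (F := ZMod p)).ker) : ↥(Cfsg.qdOver (ZMod p))) = f (x : K) :=
      ⟨(f.comp hb.ker.subtype).codRestrict _ hcod, fun x => rfl⟩
    have hfVs : Function.Surjective fV := by
      rintro ⟨y, hy⟩
      obtain ⟨x, rfl⟩ := hf y
      have hx : x ∈ hb.ker := by
        rw [MonoidHom.mem_ker, hhb]
        exact MonoidHom.mem_ker.mp hy
      exact ⟨⟨x, hx⟩, Subtype.ext (hfV _)⟩
    have hpk : IsPGroup p ↥(blk (F := ZMod p)).ker := ker_isPGroup p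
    have htop := (Q₀.mapSurjective hfVs).is_maximal' (hpk.to_subgroup ⊤) le_top
    rw [Sylow.coe_mapSurjective] at htop
    have hy : (⟨tr z, MonoidHom.mem_ker.mpr (blk_tr z)⟩ : ↥(blk (F := ZMod p)).ker) ∈
        (Q₀ : Subgroup hb.ker).map fV := by
      rw [← htop]
      exact Subgroup.mem_top _
    obtain ⟨q, hq, hqz⟩ := hy
    have hqQ : (q : K) ∈ QK := by
      rw [hQK]
      exact ⟨q, hq, rfl⟩
    refine ⟨((q : K) : G), ⟨(q : K), hqQ, rfl⟩, ?_⟩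
    have h1 : f (q : K) = tr z := by
      rw [← hfV, hqz]
    rw [hθ, h1, hτtr]
  · intro A
    obtain ⟨x, hx⟩ := hbs A
    have hx' : x ∈ ((Subgroup.normalizer (QK : Set K) : Subgroup K) : Set K) * (hb.ker : Set K) := by
      rw [← Subgroup.mul_normal, hfr]
      exact Subgroup.mem_top x
    obtain ⟨n, hn, v, hv, rfl⟩ := Set.mem_mul.mp hx'
    have hbn : blk (f n) = A := by
      have hv1 : hb v = 1 := MonoidHom.mem_ker.mp hv
      rw [map_mul, hv1, mul_one, hhb] at hx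
      exact hx
    have hnQ : ∀ q ∈ QK, n * q * n⁻¹ ∈ QK := fun q hq =>
      (Subgroup.mem_normalizer_iff.mp hn q).mp hq
    refine ⟨(n : G), ?_, ?_⟩
    · rintro _ ⟨q, hq, rfl⟩
      exact ⟨n * q * n⁻¹, hnQ q hq, rfl⟩
    · rintro _ ⟨q, hq, rfl⟩
      show θ ((n * q * n⁻¹ : K) : G) = A.1 *ᵥ θ (q : G)
      have h1 : f (n * q * n⁻¹) = tr (A.1 *ᵥ θ (q : G)) := by
        rw [map_mul, map_mul, map_inv, hQtr q hq, qd_conj_tr, hbn]
      rw [hθ (n * q * n⁻¹), h1, hτtr]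

end Cfsg.Agent.Lib.Helper26
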