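import Mathlib
import Cfsg.Prelude.Def_FusionReduction
import Cfsg.Agent.Lib.Helper26.QdVis
import Cfsg.Agent.Lib.Helper26.FusModel5
import Cfsg.Agent.Lib.Helper26.FusGrp
import Cfsg.Agent.Lib.Helper26.FusFactor
import Cfsg.Agent.Lib.Helper9.QdStab
import Cfsg.Agent.S5091
import Cfsg.Agent.S5103

/-!
# The fusion system of a group is `Qd(p)`-free iff the group is (helper26)
-/

set_option autoImplicit false

namespace Cfsg.Agent.Lib.Helper26

open Cfsg Cfsg.FusionSystem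
open scoped Matrix

universe u

section

variable {G : Type u} [Group G]

/-- A `p`-element of `A` normalizing a Sylow `p`-subgroup of `A` lies in it. -/
theorem IsSylowIn.mem_of_normalizing {p : ℕ} [Fact p.Prime] {A T : Subgroup G} [Finite A]
    (h : IsSylowIn p A T) (hTA : T ≤ A) {x : G} (hxA : x ∈ A)
    (hxN : x ∈ Subgroup.normalizer (T : Set G)) {k : ℕ} (hx : x ^ p ^ k = 1) : x ∈ T := by
  have hTp : IsPGroup p T := h.isPGroup hTA
  have hN : Subgroup.zpowers x ≤ Subgroup.normalizer (T : Set G) := by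
    rw [Subgroup.zpowers_le]
    exact hxN
  have hp : IsPGroup p (Subgroup.zpowers x) := by
    rintro ⟨g, hg⟩
    obtain ⟨n, rfl⟩ := Subgroup.mem_zpowers_iff.mp hg
    refine ⟨k, Subtype.ext ?_⟩
    show (x ^ n) ^ (p ^ k) = 1
    rw [← zpow_natCast, ← zpow_mul, mul_comm, zpow_mul, zpow_natCast, hx, one_zpow]
  have h1 : IsPGroup p (Subgroup.zpowers x ⊔ T : Subgroup G) := hp.to_sup_of_normal_right' hTp hN
  have hle : Subgroup.zpowers x ⊔ T ≤ A := sup_le (Subgroup.zpowers_le.mpr hxA) hTA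
  have h2 := h.of_le hTA le_sup_right hle h1
  have hc1 := (isSylowIn_iff_card hTA).mp h
  have hc2 := (isSylowIn_iff_card hle).mp h2
  have hfin : Finite ↥(Subgroup.zpowers x ⊔ T) :=
    Finite.of_injective (Subgroup.inclusion hle) (Subgroup.inclusion_injective hle)
  have heq : T = Subgroup.zpowers x ⊔ T :=
    Subgroup.eq_of_le_of_card_ge le_sup_right (by rw [hc1, hc2])
  rw [heq]
  exact Subgroup.mem_sup_left (Subgroup.mem_zpowers x)

/-- The normalizer system of `Q` in the fusion system of `G` on `P` is realized by the inclusion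
of `N_P(Q)` in `N_G(Q)`. -/
theorem normalizerSystem_realized (P Q : Subgroup G) [Finite Q] (hQP : Q ≤ P)
    (N : FusionSystem (normalizerIn P Q))
    (hN : (groupFusionSystem P).IsNormalizerSystem Q N) :
    N.IsRealizedBy (Subgroup.inclusion (normalizerIn_le_normalizer P Q)) := by
  refine ⟨Subgroup.inclusion_injective _, fun X hX φ hφ => ?_⟩
  have hTP : normalizerIn P Q ≤ P := normalizerIn_le P Q
  rw [hN X]
  constructor
  · rintro ⟨-, -, -, ψ, ⟨hXQ, hψP, h, hh⟩, hext, hmap⟩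
    have hQX : Q ≤ X ⊔ Q := le_sup_right
    have hhQ : ∀ q ∈ Q, h * q * h⁻¹ ∈ Q := by
      intro q hq
      have h1 : ψ ⟨q, hQX hq⟩ ∈ (Q.subgroupOf (X ⊔ Q)).map ψ :=
        ⟨⟨q, hQX hq⟩, Subgroup.mem_subgroupOf.mpr hq, rfl⟩
      rw [hmap, hh] at h1
      exact h1
    have hhN : h ∈ Subgroup.normalizer (Q : Set G) := normalizer_of_conj_mem Q h hhQ
    refine ⟨⟨h, hhN⟩, fun x => ?_⟩
    apply Subtype.ext
    show φ x = h * (x : G) * h⁻¹
    rw [← hext x, hh]
    rfl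
  · rintro ⟨g, hg⟩
    have hg' : ∀ x : X, φ x = (g : G) * (x : G) * (g : G)⁻¹ :=
      fun x => congrArg Subtype.val (hg x)
    have hgQ : ∀ q ∈ Q, (g : G) * q * (g : G)⁻¹ ∈ Q := fun q hq =>
      (Subgroup.mem_normalizer_iff.mp g.2 q).mp hq
    have hsup : ∀ y ∈ X ⊔ Q, (g : G) * y * (g : G)⁻¹ ∈ P := by
      have h1 : X ⊔ Q ≤ P.comap (MulAut.conj (g : G)).toMonoidHom := by
        apply sup_le
        · intro x hx
          show (g : G) * x * (g : G)⁻¹ ∈ P
          rw [← hg' ⟨x, hx⟩]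
          exact hTP (hφ ⟨x, hx⟩)
        · intro q hq
          exact hQP (hgQ q hq)
      exact fun y hy => h1 hy
    have hψmem : conjHom (X ⊔ Q) (g : G) ∈ (groupFusionSystem P).Hom (X ⊔ Q) :=
      ⟨sup_le (hX.trans hTP) hQP, fun y => hsup y y.2, (g : G), fun y => rfl⟩
    refine ⟨⟨hX.trans hTP, fun x => hTP (hφ x), (g : G), hg'⟩, hX, hφ,
      conjHom (X ⊔ Q) (g : G), hψmem, fun x => (hg' x).symm, ?_⟩
    exact map_subgroupOf_eq_of_forall_mem le_sup_right _
      ((groupFusionSystem P).injective_of_mem hψmem) (fun y hy => hgQ y hy)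

/-- For a fully normalized centric subgroup `E` of the fusion system of `G` on a Sylow subgroup
`P`, some quotient of `N_G(E)` is a model of the normalizer system of `E`. -/
theorem exists_normalizer_model [Finite G] {p : ℕ} [Fact p.Prime] (P : Sylow p G)
    {E : Subgroup G} (hEfn : (groupFusionSystem (P : Subgroup G)).IsFullyNormalized E)
    (hEc : (groupFusionSystem (P : Subgroup G)).IsCentric E)
    (N : FusionSystem (normalizerIn (P : Subgroup G) E))
    (hN : (groupFusionSystem (P : Subgroup G)).IsNormalizerSystem E N) :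
    ∃ (K₀ : Subgroup ↥(Subgroup.normalizer (E : Set G))) (_ : K₀.Normal),
      N.IsModel p (↥(Subgroup.normalizer (E : Set G)) ⧸ K₀)
        ((QuotientGroup.mk' K₀).comp
          (Subgroup.inclusion (normalizerIn_le_normalizer (P : Subgroup G) E))) := by
  have hEP : E ≤ (P : Subgroup G) := hEfn.1
  have hTP : normalizerIn (P : Subgroup G) E ≤ (P : Subgroup G) := normalizerIn_le _ _
  have hTp : IsPGroup p ↥(normalizerIn (P : Subgroup G) E) := P.isPGroup'.to_le hTP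
  have hreal := normalizerSystem_realized (P : Subgroup G) E hEP N hN
  have hET : E ≤ normalizerIn (P : Subgroup G) E := le_normalizerIn hEP
  have hsyl : ∃ T₀ : Sylow p ↥(Subgroup.normalizer (E : Set G)),
      (T₀ : Subgroup ↥(Subgroup.normalizer (E : Set G))) =
        (Subgroup.inclusion (normalizerIn_le_normalizer (P : Subgroup G) E)).range := by
    obtain ⟨R, hR⟩ := (groupFusion_fullyNormalized_iff P hEP).mp hEfn
    refine ⟨R, ?_⟩
    rw [hR]
    ext y
    rw [Subgroup.mem_subgroupOf]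
    constructor
    · intro hy
      exact ⟨⟨y, hy⟩, Subtype.ext rfl⟩
    · rintro ⟨t, rfl⟩
      exact t.2
  have hRc : N.IsCentric E := by
    refine ⟨hET, fun E' hE' => ?_⟩
    obtain ⟨φ, hφ, hr⟩ := hE'
    rw [hN E] at hφ
    have h1 := hEc.2 E' ⟨φ, hφ.1, hr⟩
    intro x hx
    exact h1 ⟨hTP hx.1, hx.2⟩
  have hRn : ∀ (g : ↥(Subgroup.normalizer (E : Set G)))
      (r : ↥(normalizerIn (P : Subgroup G) E)), (r : G) ∈ E →
      ∃ r' : ↥(normalizerIn (P : Subgroup G) E), (r' : G) ∈ E ∧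
        Subgroup.inclusion (normalizerIn_le_normalizer (P : Subgroup G) E) r' =
          g * Subgroup.inclusion (normalizerIn_le_normalizer (P : Subgroup G) E) r * g⁻¹ := by
    intro g r hr
    have h1 : (g : G) * (r : G) * (g : G)⁻¹ ∈ E := (Subgroup.mem_normalizer_iff.mp g.2 _).mp hr
    exact ⟨⟨_, hET h1⟩, h1, Subtype.ext rfl⟩
  exact exists_model_quotient hTp N _ hreal hsyl hRc hRn

/-- `(⇐)`: the fusion system of a `Qd(p)`-free group is `Qd(p)`-free. -/
theorem sectionFree_of_qd_free [Finite G] {p : ℕ} [Fact p.Prime] (P : Sylow p G)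
    (hqd : ¬ Involves ↥(Cfsg.qd p) G) :
    (groupFusionSystem (P : Subgroup G)).IsSectionFree p ↥(Cfsg.qd p) := by
  intro E hEfn hEc N hN L _ ι hL hinv
  have hTP : normalizerIn (P : Subgroup G) E ≤ (P : Subgroup G) := normalizerIn_le _ _
  have hTp : IsPGroup p ↥(normalizerIn (P : Subgroup G) E) := P.isPGroup'.to_le hTP
  obtain ⟨K₀, hK₀n, hmodel⟩ := exists_normalizer_model P hEfn hEc N hN
  have hcon : N.IsConstrained p := Cfsg.Agent.S5103.result p hTp N ι hL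
  obtain ⟨φ, -⟩ := Cfsg.Agent.S5091.result p hTp N hcon ι _ hL hmodel
  have h1 : ¬ Involves ↥(Cfsg.qd p) (↥(Subgroup.normalizer (E : Set G)) ⧸ K₀) :=
    Cfsg.Agent.Lib.Helper9.QdStab.qd_free_quotient
      (Cfsg.Agent.Lib.Helper9.QdStab.qd_free_subgroup hqd _) (QuotientGroup.mk' K₀)
      (QuotientGroup.mk'_surjective K₀)
  exact h1 (involves_of_mulEquiv φ hinv)

/-- the elements of `Q ⊔ C(Q)` act on `Q` without changing `θ` -/
theorem vis_inner {p : ℕ} {Q : Subgroup G} {θ : G → (Fin 2 → ZMod p)} (hV : Vis p Q θ) :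
    ∀ x ∈ Q ⊔ Subgroup.centralizer (Q : Set G), ∀ q ∈ Q,
      (x * q * x⁻¹ ∈ Q ∧ θ (x * q * x⁻¹) = θ q) ∧ (x⁻¹ * q * x ∈ Q ∧ θ (x⁻¹ * q * x) = θ q) := by
  obtain ⟨hUp, hadd, hsurj, hact⟩ := hV
  have hθ1 : θ 1 = 0 := by
    have h1 := hadd 1 Q.one_mem 1 Q.one_mem
    rw [mul_one] at h1
    exact add_eq_left.mp h1.symm
  have hθinv : ∀ x ∈ Q, θ x⁻¹ = -θ x := by
    intro x hx
    have h1 := hadd x⁻¹ (Q.inv_mem hx) x hx
    rw [inv_mul_cancel, hθ1] at h1
    exact eq_neg_of_add_eq_zero_left h1.symm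
  let D : Subgroup G :=
    { carrier := {x | ∀ q ∈ Q, (x * q * x⁻¹ ∈ Q ∧ θ (x * q * x⁻¹) = θ q) ∧
        (x⁻¹ * q * x ∈ Q ∧ θ (x⁻¹ * q * x) = θ q)}
      mul_mem' := by
        intro a b ha hb q hq
        refine ⟨?_, ?_⟩
        · have e : a * b * q * (a * b)⁻¹ = a * (b * q * b⁻¹) * a⁻¹ := by group
          rw [e]
          exact ⟨(ha _ (hb q hq).1.1).1.1, ((ha _ (hb q hq).1.1).1.2).trans (hb q hq).1.2⟩
        · have e : (a * b)⁻¹ * q * (a * b) = b⁻¹ * (a⁻¹ * q * a) * b := by group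
          rw [e]
          exact ⟨(hb _ (ha q hq).2.1).2.1, ((hb _ (ha q hq).2.1).2.2).trans (ha q hq).2.2⟩
      one_mem' := by
        intro q hq
        have e1 : (1 : G) * q * (1 : G)⁻¹ = q := by group
        have e2 : (1 : G)⁻¹ * q * (1 : G) = q := by group
        rw [e1, e2]
        exact ⟨⟨hq, rfl⟩, ⟨hq, rfl⟩⟩
      inv_mem' := by
        intro a ha q hq
        have e1 : a⁻¹ * q * a⁻¹⁻¹ = a⁻¹ * q * a := by rw [inv_inv]
        have e2 : a⁻¹⁻¹ * q * a⁻¹ = a * q * a⁻¹ := by rw [inv_inv]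
        rw [e1, e2]
        exact ⟨(ha q hq).2, (ha q hq).1⟩ }
  have hD : Q ⊔ Subgroup.centralizer (Q : Set G) ≤ D := by
    apply sup_le
    · intro x hx q hq
      refine ⟨⟨Q.mul_mem (Q.mul_mem hx hq) (Q.inv_mem hx), ?_⟩,
        ⟨Q.mul_mem (Q.mul_mem (Q.inv_mem hx) hq) hx, ?_⟩⟩
      · rw [hadd _ (Q.mul_mem hx hq) _ (Q.inv_mem hx), hadd x hx q hq, hθinv x hx]
        abel
      · rw [hadd _ (Q.mul_mem (Q.inv_mem hx) hq) _ hx, hadd _ (Q.inv_mem hx) q hq, hθinv x hx]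
        abel
    · intro x hx q hq
      have h1 : q * x = x * q := Subgroup.mem_centralizer_iff.mp hx q hq
      have e1 : x * q * x⁻¹ = q := by rw [← h1, mul_inv_cancel_right]
      have e2 : x⁻¹ * q * x = q := by rw [mul_assoc, h1, inv_mul_cancel_left]
      rw [e1, e2]
      exact ⟨⟨hq, rfl⟩, ⟨hq, rfl⟩⟩
  exact fun x hx => hD hx

/-- `(⇒)`, contrapositive: visible `Qd(p)`-data in `G` give a model of a normalizer system of a
fully normalized centric subgroup that involves `Qd(p)`. -/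
theorem not_sectionFree_of_vis [Finite G] {p : ℕ} [Fact p.Prime] (hp : p ≠ 2) (P : Sylow p G)
    (Q₁ : Subgroup G) (θ₁ : G → (Fin 2 → ZMod p)) (h₁ : Vis p Q₁ θ₁) :
    ¬ (groupFusionSystem (P : Subgroup G)).IsSectionFree p ↥(Cfsg.qd p) := by
  classical
  obtain ⟨M₁, hM₁⟩ : ∃ M₁ : Subgroup G, M₁ = Q₁ ⊔ Subgroup.centralizer (Q₁ : Set G) := ⟨_, rfl⟩
  have hQ₁M : Q₁ ≤ M₁ := hM₁ ▸ le_sup_left
  have hQ₁p' : IsPGroup p (Q₁.subgroupOf M₁) := h₁.1.comap_subtype
  obtain ⟨R, hR⟩ := hQ₁p'.exists_le_sylow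
  obtain ⟨E₁, hE₁⟩ : ∃ E₁ : Subgroup G, E₁ = (R : Subgroup M₁).map M₁.subtype := ⟨_, rfl⟩
  have hE₁M : E₁ ≤ M₁ := by
    rw [hE₁]
    exact Subgroup.map_subtype_le _
  have hE₁syl : IsSylowIn p M₁ E₁ :=
    ⟨R, by
      rw [hE₁]
      exact (Subgroup.comap_map_eq_self_of_injective (Subgroup.subtype_injective _) _).symm⟩
  have hQ₁E : Q₁ ≤ E₁ := by
    intro q hq
    rw [hE₁]
    exact ⟨⟨q, hQ₁M hq⟩, hR (Subgroup.mem_subgroupOf.mpr hq), rfl⟩
  have hE₁p : IsPGroup p E₁ := hE₁syl.isPGroup hE₁M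
  obtain ⟨g, hgP, hgsyl⟩ := exists_conj_normalizer_sylow P E₁ hE₁p
  obtain ⟨c, hc⟩ : ∃ c : G ≃* G, c = MulAut.conj g := ⟨_, rfl⟩
  rw [← hc] at hgP hgsyl
  obtain ⟨E, hE⟩ : ∃ E : Subgroup G, E = E₁.map c.toMonoidHom := ⟨_, rfl⟩
  obtain ⟨Q, hQ⟩ : ∃ Q : Subgroup G, Q = Q₁.map c.toMonoidHom := ⟨_, rfl⟩
  obtain ⟨θ, hθ⟩ : ∃ θ : G → (Fin 2 → ZMod p), ∀ x, θ x = θ₁ (c.symm x) :=
    ⟨fun x => θ₁ (c.symm x), fun x => rfl⟩
  rw [← hE] at hgP hgsyl
  have hQE : Q ≤ E := by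
    rw [hQ, hE]
    exact Subgroup.map_mono hQ₁E
  have hEM : E ≤ Q ⊔ Subgroup.centralizer (Q : Set G) := by
    rw [hQ, centralizer_map_equiv, ← Subgroup.map_sup, ← hM₁, hE]
    exact Subgroup.map_mono hE₁M
  have hEsyl : IsSylowIn p (Q ⊔ Subgroup.centralizer (Q : Set G)) E := by
    have h1 := hE₁syl.map_equiv hE₁M c
    rw [hM₁, Subgroup.map_sup, ← centralizer_map_equiv, ← hQ, ← hE] at h1
    exact h1
  have hV : Vis p Q θ := by
    obtain ⟨h1, h2, h3, h4⟩ := h₁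
    refine ⟨?_, ?_, ?_, ?_⟩
    · rw [hQ]
      exact h1.map _
    · rw [hQ]
      rintro _ ⟨a, ha, rfl⟩ _ ⟨b, hb, rfl⟩
      show θ (c a * c b) = θ (c a) + θ (c b)
      rw [hθ, hθ, hθ, ← map_mul, c.symm_apply_apply, c.symm_apply_apply, c.symm_apply_apply]
      exact h2 a ha b hb
    · intro z
      obtain ⟨u, hu, rfl⟩ := h3 z
      refine ⟨c u, ?_, ?_⟩
      · rw [hQ]
        exact ⟨u, hu, rfl⟩
      · rw [hθ, c.symm_apply_apply]
    · intro A
      obtain ⟨k, hk1, hk2⟩ := h4 A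
      have e : ∀ u : G, c k * c u * (c k)⁻¹ = c (k * u * k⁻¹) := fun u => by
        rw [map_mul, map_mul, map_inv]
      refine ⟨c k, ?_, ?_⟩
      · rw [hQ]
        rintro _ ⟨u, hu, rfl⟩
        show c k * c u * (c k)⁻¹ ∈ Q₁.map c.toMonoidHom
        rw [e]
        exact ⟨_, hk1 u hu, rfl⟩
      · rw [hQ]
        rintro _ ⟨u, hu, rfl⟩
        show θ (c k * c u * (c k)⁻¹) = A.1 *ᵥ θ (c u)
        rw [e, hθ, hθ, c.symm_apply_apply, c.symm_apply_apply]
        exact hk2 u hu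
  have hEP : E ≤ (P : Subgroup G) := hgP
  have hEfn : (groupFusionSystem (P : Subgroup G)).IsFullyNormalized E :=
    (groupFusion_fullyNormalized_iff P hEP).mpr hgsyl
  have hEc : (groupFusionSystem (P : Subgroup G)).IsCentric E := by
    refine ⟨hEP, fun E' hE' => ?_⟩
    obtain ⟨-, hE'P, h, rfl⟩ := (groupFusion_isConj_iff _).mp hE'
    intro x hx
    have hxP : x ∈ (P : Subgroup G) := hx.1
    have hxC : x ∈ Subgroup.centralizer ((E.map (MulAut.conj h).toMonoidHom : Subgroup G) : Set G) :=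
      hx.2
    have hx'C : h⁻¹ * x * h ∈ Subgroup.centralizer (E : Set G) := by
      rw [Subgroup.mem_centralizer_iff]
      intro e he
      have h1 : h * e * h⁻¹ * x = x * (h * e * h⁻¹) :=
        Subgroup.mem_centralizer_iff.mp hxC (h * e * h⁻¹) ⟨e, he, rfl⟩
      calc e * (h⁻¹ * x * h) = h⁻¹ * (h * e * h⁻¹ * x) * h := by group
        _ = h⁻¹ * (x * (h * e * h⁻¹)) * h := by rw [h1]
        _ = h⁻¹ * x * h * e := by group
    have hx'M : h⁻¹ * x * h ∈ Q ⊔ Subgroup.centralizer (Q : Set G) :=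
      Subgroup.mem_sup_right
        (Subgroup.centralizer_le (show (Q : Set G) ⊆ (E : Set G) from hQE) hx'C)
    obtain ⟨k, hk⟩ := P.isPGroup' ⟨x, hxP⟩
    have hk' : x ^ p ^ k = 1 := congrArg (fun z : (P : Subgroup G) => (z : G)) hk
    have hx'p : (h⁻¹ * x * h) ^ p ^ k = 1 := by
      have e : h⁻¹ * x * h = h⁻¹ * x * h⁻¹⁻¹ := by rw [inv_inv]
      rw [e, conj_pow, hk']
      group
    have hx'E := hEsyl.mem_of_normalizing hEM hx'M
      (Subgroup.centralizer_le_normalizer _ hx'C) hx'p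
    refine ⟨h⁻¹ * x * h, hx'E, ?_⟩
    show h * (h⁻¹ * x * h) * h⁻¹ = x
    group
  obtain ⟨N, hN⟩ := exists_normalizerSystem (groupFusionSystem (P : Subgroup G)) E hEP
  obtain ⟨K₀, hK₀n, hmodel⟩ := exists_normalizer_model P hEfn hEc N hN
  intro hfree
  refine hfree E hEfn hEc N hN _ _ hmodel ?_
  have hQN : Q ≤ Subgroup.normalizer (E : Set G) := hQE.trans Subgroup.le_normalizer
  have hinj := hmodel.2.1.1
  obtain ⟨π, hπ⟩ : ∃ π : ↥(Subgroup.normalizer (E : Set G)) →*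
      ↥(Subgroup.normalizer (E : Set G)) ⧸ K₀, π = QuotientGroup.mk' K₀ := ⟨_, rfl⟩
  have hπinj : ∀ a b : ↥(Subgroup.normalizer (E : Set G)), (a : G) ∈ Q → (b : G) ∈ Q →
      π a = π b → (a : G) = b := by
    intro a b ha hb hab
    have hT : Q ≤ normalizerIn (P : Subgroup G) E := hQE.trans (le_normalizerIn hEP)
    have h1 : ((QuotientGroup.mk' K₀).comp
        (Subgroup.inclusion (normalizerIn_le_normalizer (P : Subgroup G) E))) ⟨a, hT ha⟩ =
        ((QuotientGroup.mk' K₀).comp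
          (Subgroup.inclusion (normalizerIn_le_normalizer (P : Subgroup G) E))) ⟨b, hT hb⟩ := by
      rw [hπ] at hab
      exact hab
    exact congrArg (fun z : ↥(normalizerIn (P : Subgroup G) E) => (z : G)) (hinj h1)
  obtain ⟨θL, hθL⟩ : ∃ θL : ↥(Subgroup.normalizer (E : Set G)) ⧸ K₀ → (Fin 2 → ZMod p),
      ∀ q : ↥(Subgroup.normalizer (E : Set G)), (q : G) ∈ Q → θL (π q) = θ q := by
    refine ⟨fun l => if h : ∃ q : ↥(Subgroup.normalizer (E : Set G)), (q : G) ∈ Q ∧ π q = l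
      then θ (h.choose : G) else 0, fun q hq => ?_⟩
    have hex : ∃ q' : ↥(Subgroup.normalizer (E : Set G)), (q' : G) ∈ Q ∧ π q' = π q :=
      ⟨q, hq, rfl⟩
    show (if h : ∃ q' : ↥(Subgroup.normalizer (E : Set G)), (q' : G) ∈ Q ∧ π q' = π q
      then θ (h.choose : G) else 0) = θ q
    rw [dif_pos hex]
    exact congrArg θ (hπinj _ _ hex.choose_spec.1 hq hex.choose_spec.2)
  apply involves_of_vis hp ((Q.subgroupOf (Subgroup.normalizer (E : Set G))).map π) θL
  obtain ⟨h1, h2, h3, h4⟩ := hV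
  refine ⟨?_, ?_, ?_, ?_⟩
  · exact (h1.comap_subtype).map _
  · rintro _ ⟨a, ha, rfl⟩ _ ⟨b, hb, rfl⟩
    have ha' : (a : G) ∈ Q := Subgroup.mem_subgroupOf.mp ha
    have hb' : (b : G) ∈ Q := Subgroup.mem_subgroupOf.mp hb
    have hab' : ((a * b : ↥(Subgroup.normalizer (E : Set G))) : G) ∈ Q := Q.mul_mem ha' hb'
    rw [← map_mul, hθL _ hab', hθL a ha', hθL b hb']
    exact h2 a ha' b hb'
  · intro z
    obtain ⟨u, hu, rfl⟩ := h3 z
    exact ⟨π ⟨u, hQN hu⟩, ⟨⟨u, hQN hu⟩, Subgroup.mem_subgroupOf.mpr hu, rfl⟩, hθL _ hu⟩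
  · intro A
    obtain ⟨k, hk1, hk2⟩ := h4 A
    have hkN : k ∈ Subgroup.normalizer (Q : Set G) := normalizer_of_conj_mem Q k hk1
    have hKA : Q ⊔ Subgroup.centralizer (Q : Set G) ≤ Subgroup.normalizer (Q : Set G) :=
      sup_le Subgroup.le_normalizer (Subgroup.centralizer_le_normalizer _)
    have hnorm : ∀ a ∈ Subgroup.normalizer (Q : Set G),
        ∀ y ∈ Q ⊔ Subgroup.centralizer (Q : Set G),
          a * y * a⁻¹ ∈ Q ⊔ Subgroup.centralizer (Q : Set G) := by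
      intro a ha
      have haQ : ∀ q ∈ Q, a * q * a⁻¹ ∈ Q := fun q hq =>
        (Subgroup.mem_normalizer_iff.mp ha q).mp hq
      have haQ' : ∀ q ∈ Q, a⁻¹ * q * a ∈ Q := conj_mem_symm_of_finite Q a haQ
      have h5 : Q ⊔ Subgroup.centralizer (Q : Set G) ≤
          (Q ⊔ Subgroup.centralizer (Q : Set G)).comap (MulAut.conj a).toMonoidHom := by
        apply sup_le
        · intro q hq
          exact Subgroup.mem_sup_left (haQ q hq)
        · intro y hy
          apply Subgroup.mem_sup_right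
          show a * y * a⁻¹ ∈ Subgroup.centralizer (Q : Set G)
          rw [Subgroup.mem_centralizer_iff]
          intro q hq
          have h6 : a⁻¹ * q * a * y = y * (a⁻¹ * q * a) :=
            Subgroup.mem_centralizer_iff.mp hy (a⁻¹ * q * a) (haQ' q hq)
          calc q * (a * y * a⁻¹) = a * (a⁻¹ * q * a * y) * a⁻¹ := by group
            _ = a * (y * (a⁻¹ * q * a)) * a⁻¹ := by rw [h6]
            _ = a * y * a⁻¹ * q := by group
      exact fun y hy => h5 hy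
    obtain ⟨x, hx, n, hn, hkxn, hnE⟩ := frattini_sylowIn hKA hnorm hEsyl hEM k hkN
    have hnNE : n ∈ Subgroup.normalizer (E : Set G) := normalizer_of_conj_mem E n hnE
    have hnQ : ∀ q ∈ Q, n * q * n⁻¹ ∈ Q := fun q hq =>
      (Subgroup.mem_normalizer_iff.mp hn q).mp hq
    have hxin := vis_inner (⟨h1, h2, h3, h4⟩ : Vis p Q θ) x hx
    have hnθ : ∀ q ∈ Q, θ (n * q * n⁻¹) = A.1 *ᵥ θ q := by
      intro q hq
      have e : n * q * n⁻¹ = x⁻¹ * (k * q * k⁻¹) * x := by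
        rw [hkxn]
        group
      rw [e, (hxin _ (hk1 q hq)).2.2]
      exact hk2 q hq
    refine ⟨π ⟨n, hnNE⟩, ?_, ?_⟩
    · rintro _ ⟨a, ha, rfl⟩
      have ha' : (a : G) ∈ Q := Subgroup.mem_subgroupOf.mp ha
      rw [← map_inv, ← map_mul, ← map_mul]
      exact ⟨_, Subgroup.mem_subgroupOf.mpr (hnQ a ha'), rfl⟩
    · rintro _ ⟨a, ha, rfl⟩
      have ha' : (a : G) ∈ Q := Subgroup.mem_subgroupOf.mp ha
      have hna : (((⟨n, hnNE⟩ : ↥(Subgroup.normalizer (E : Set G))) * a *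
          (⟨n, hnNE⟩ : ↥(Subgroup.normalizer (E : Set G)))⁻¹ :
            ↥(Subgroup.normalizer (E : Set G))) : G) ∈ Q := hnQ a ha'
      rw [← map_inv, ← map_mul, ← map_mul, hθL _ hna, hθL a ha']
      exact hnθ a ha'

/-- The fusion system of a finite group on a Sylow `p`-subgroup (`p` odd) is `Qd(p)`-free if and
only if the group is. -/
theorem groupFusion_sectionFree_qd_iff [Finite G] {p : ℕ} [Fact p.Prime] (hp : p ≠ 2)
    (P : Sylow p G) :
    (groupFusionSystem (P : Subgroup G)).IsSectionFree p ↥(Cfsg.qd p) ↔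
      ¬ Involves ↥(Cfsg.qd p) G := by
  constructor
  · intro hfree hinv
    obtain ⟨Q, θ, hV⟩ := exists_vis hinv
    exact not_sectionFree_of_vis hp P Q θ hV hfree
  · exact sectionFree_of_qd_free P

end

end Cfsg.Agent.Lib.Helper26
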