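import Mathlib
import Cfsg.Agent.Lib.Helper26.FusStab

/-!
# Abstract lemmas for supersoluble fusion systems (helper26)

Automorphisms acting on a chain with cyclic factors: commutators and `(p-1)`-th powers of
`p'`-elements stabilize the chain.
-/

set_option autoImplicit false

namespace Cfsg.Agent.Lib.Helper26

universe u v

section cyc

theorem pow_action_of_cyclic {G : Type u} {Q : Type v} [Group G] [Group Q] (ι : G →* Q)
    (R : Subgroup G) (q : Q) (hq : ∀ x ∈ R, ι x ∈ Subgroup.zpowers q) (α : G →* G)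
    (hαR : ∀ x ∈ R, α x ∈ R) (hα : ∀ k ∈ R, ι k = 1 → ι (α k) = 1) :
    ∃ a : ℤ, ∀ z ∈ R, ι (α z) = (ι z) ^ a := by
  have hle : R.map ι ≤ Subgroup.zpowers q := by
    rintro _ ⟨x, hx, rfl⟩
    exact hq x hx
  haveI : IsCyclic ↥(R.map ι) := Subgroup.isCyclic_of_le hle
  obtain ⟨⟨_, w, hw, rfl⟩, hg⟩ := IsCyclic.exists_generator (α := ↥(R.map ι))
  have hgen : ∀ z ∈ R, ∃ j : ℤ, ι z = (ι w) ^ j := by
    intro z hz
    obtain ⟨j, hj⟩ := Subgroup.mem_zpowers_iff.mp (hg ⟨ι z, z, hz, rfl⟩)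
    refine ⟨j, ?_⟩
    have h1 := congrArg (fun t : ↥(R.map ι) => (t : Q)) hj
    simpa using h1.symm
  obtain ⟨a, ha⟩ := hgen (α w) (hαR w hw)
  refine ⟨a, fun z hz => ?_⟩
  obtain ⟨j, hj⟩ := hgen z hz
  have h1 : ι (w ^ (-j) * z) = 1 := by
    rw [map_mul, map_zpow, hj, zpow_neg, inv_mul_cancel]
  have h2 := hα _ (R.mul_mem (R.zpow_mem hw _) hz) h1
  rw [map_mul, map_zpow, map_mul, map_zpow, zpow_neg, inv_mul_eq_one] at h2
  rw [← h2, ha, hj, ← zpow_mul, ← zpow_mul, mul_comm]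

variable {G : Type u} [Group G]

theorem comm_mem_chainStab {A : Subgroup (MulAut G)} {N : ℕ → Subgroup G} {m : ℕ}
    {hinv : ∀ α ∈ A, ∀ i ≤ m, ∀ x ∈ N i, α x ∈ N i}
    (hcyc : ∀ i < m, ∃ (Q : Type v) (_ : Group Q) (ι : G →* Q) (q : Q),
      (∀ x ∈ N i, ι x ∈ Subgroup.zpowers q) ∧ ∀ x ∈ N i, (ι x = 1 ↔ x ∈ N (i + 1)))
    {α β : MulAut G} (hα : α ∈ A) (hβ : β ∈ A) :
    α * β * α⁻¹ * β⁻¹ ∈ chainStab A N m hinv := by
  have hmemA : α * β * α⁻¹ * β⁻¹ ∈ A :=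
    A.mul_mem (A.mul_mem (A.mul_mem hα hβ) (A.inv_mem hα)) (A.inv_mem hβ)
  refine ⟨hmemA, fun i hi x hx => ?_⟩
  obtain ⟨Q, _, ι, q, hq, hker⟩ := hcyc i hi
  have hstep : ∀ γ ∈ A, ∃ a : ℤ, ∀ z ∈ N i, ι (γ z) = (ι z) ^ a := by
    intro γ hγ
    exact pow_action_of_cyclic ι (N i) q hq γ.toMonoidHom (hinv γ hγ i hi.le)
      (fun k hk h1 => (hker _ (hinv γ hγ i hi.le k hk)).mpr
        (hinv γ hγ (i + 1) hi _ ((hker k hk).mp h1)))
  obtain ⟨a, ha⟩ := hstep α hα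
  obtain ⟨b, hb⟩ := hstep β hβ
  have hyN : α⁻¹ (β⁻¹ x) ∈ N i :=
    hinv α⁻¹ (A.inv_mem hα) i hi.le _ (hinv β⁻¹ (A.inv_mem hβ) i hi.le x hx)
  generalize hy : α⁻¹ (β⁻¹ x) = y at hyN
  have hx' : x = β (α y) := by
    rw [← hy]
    simp
  have e1 : (α * β * α⁻¹ * β⁻¹) x = α (β y) := by
    rw [← hy]
    simp [MulAut.mul_apply]
  have h1 : ι (α (β y)) = ι (β (α y)) := by
    rw [ha _ (hinv β hβ i hi.le y hyN), hb y hyN, hb _ (hinv α hα i hi.le y hyN), ha y hyN,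
      ← zpow_mul, ← zpow_mul, mul_comm]
  have hmem : x⁻¹ * (α * β * α⁻¹ * β⁻¹) x ∈ N i :=
    (N i).mul_mem ((N i).inv_mem hx) (hinv _ hmemA i hi.le x hx)
  apply (hker _ hmem).mp
  rw [map_mul, map_inv, e1, h1, ← hx', inv_mul_cancel]

theorem int_pow_pred_dvd {p : ℕ} [Fact p.Prime] (e t : ℕ) (a : ℤ) (ht : t.Coprime p)
    (h : ((p ^ e : ℕ) : ℤ) ∣ a ^ t - 1) : ((p ^ e : ℕ) : ℤ) ∣ a ^ (p - 1) - 1 := by
  have hp := (Fact.out : p.Prime)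
  rcases Nat.eq_zero_or_pos e with he | he
  · subst he
    simp
  have ht0 : t ≠ 0 := by
    rintro rfl
    rw [Nat.coprime_zero_left] at ht
    exact hp.one_lt.ne' ht
  have h1 : ((a : ZMod (p ^ e)) ^ t) = 1 := by
    have h2 := (ZMod.intCast_zmod_eq_zero_iff_dvd (a ^ t - 1) (p ^ e)).mpr h
    push_cast at h2
    exact sub_eq_zero.mp h2
  have hu : IsUnit (a : ZMod (p ^ e)) := IsUnit.of_pow_eq_one h1 ht0
  obtain ⟨w, hw⟩ := hu
  have h3 : w ^ t = 1 := by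
    apply Units.ext
    rw [Units.val_pow_eq_pow_val, hw, h1]
    rfl
  have h4 : w ^ (p ^ (e - 1) * (p - 1)) = 1 := by
    have h5 := ZMod.pow_totient w
    rwa [Nat.totient_prime_pow hp he] at h5
  have h6 : orderOf w ∣ t := orderOf_dvd_of_pow_eq_one h3
  have h7 : orderOf w ∣ p ^ (e - 1) * (p - 1) := orderOf_dvd_of_pow_eq_one h4
  have h8 : (orderOf w).Coprime (p ^ (e - 1)) :=
    Nat.Coprime.pow_right _ (Nat.Coprime.coprime_dvd_left h6 ht)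
  have h9 : orderOf w ∣ p - 1 := h8.dvd_of_dvd_mul_left h7
  have h10 : w ^ (p - 1) = 1 := orderOf_dvd_iff_pow_eq_one.mp h9
  have h11 : ((a : ZMod (p ^ e)) ^ (p - 1)) = 1 := by
    rw [← hw, ← Units.val_pow_eq_pow_val, h10]
    rfl
  apply (ZMod.intCast_zmod_eq_zero_iff_dvd (a ^ (p - 1) - 1) (p ^ e)).mp
  push_cast
  rw [h11, sub_self]

theorem pow_pred_mem_chainStab [Finite G] {p : ℕ} [Fact p.Prime] (hG : IsPGroup p G)
    {A : Subgroup (MulAut G)} {N : ℕ → Subgroup G} {m : ℕ}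
    {hinv : ∀ α ∈ A, ∀ i ≤ m, ∀ x ∈ N i, α x ∈ N i}
    (hcyc : ∀ i < m, ∃ (Q : Type v) (_ : Group Q) (ι : G →* Q) (q : Q),
      (∀ x ∈ N i, ι x ∈ Subgroup.zpowers q) ∧ ∀ x ∈ N i, (ι x = 1 ↔ x ∈ N (i + 1)))
    {α : MulAut G} (hα : α ∈ A) (hord : (orderOf α).Coprime p) :
    α ^ (p - 1) ∈ chainStab A N m hinv := by
  have hp := (Fact.out : p.Prime)
  refine ⟨A.pow_mem hα _, fun i hi x hx => ?_⟩
  obtain ⟨Q, _, ι, q, hq, hker⟩ := hcyc i hi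
  obtain ⟨a, ha⟩ := pow_action_of_cyclic ι (N i) q hq α.toMonoidHom (hinv α hα i hi.le)
      (fun k hk h1 => (hker _ (hinv α hα i hi.le k hk)).mpr
        (hinv α hα (i + 1) hi _ ((hker k hk).mp h1)))
  have hpowN : ∀ n : ℕ, ∀ z ∈ N i, (α ^ n) z ∈ N i := fun n z hz =>
    hinv _ (A.pow_mem hα n) i hi.le z hz
  have hpow : ∀ n : ℕ, ∀ z ∈ N i, ι ((α ^ n) z) = (ι z) ^ (a ^ n) := by
    intro n
    induction n with
    | zero =>
      intro z _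
      simp
    | succ n ih =>
      intro z hz
      rw [pow_succ', MulAut.mul_apply]
      have h1 := ha _ (hpowN n z hz)
      have h2 : ι (α ((α ^ n) z)) = ι ((α ^ n) z) ^ a := h1
      rw [h2, ih z hz, ← zpow_mul, pow_succ]
  have h1 := hpow (orderOf α) x hx
  rw [pow_orderOf_eq_one, MulAut.one_apply] at h1
  have h2 : (ι x) ^ (a ^ orderOf α - 1) = 1 := by
    rw [zpow_sub, zpow_one, ← h1, mul_inv_cancel]
  obtain ⟨k, hk⟩ := (IsPGroup.iff_orderOf.mp hG) x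
  have h3 : orderOf (ι x) ∣ p ^ k := hk ▸ orderOf_map_dvd ι x
  obtain ⟨e, -, he⟩ := (Nat.dvd_prime_pow hp).mp h3
  have h4 : ((p ^ e : ℕ) : ℤ) ∣ a ^ orderOf α - 1 := by
    rw [← he]
    exact orderOf_dvd_iff_zpow_eq_one.mpr h2
  have h5 := int_pow_pred_dvd e (orderOf α) a hord h4
  rw [← he] at h5
  have h6 : (ι x) ^ (a ^ (p - 1) - 1) = 1 := orderOf_dvd_iff_zpow_eq_one.mp h5
  have h7 : ι ((α ^ (p - 1)) x) = ι x := by
    rw [hpow (p - 1) x hx]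
    rw [zpow_sub, zpow_one, mul_inv_eq_one] at h6
    exact h6
  have hmem : x⁻¹ * (α ^ (p - 1)) x ∈ N i :=
    (N i).mul_mem ((N i).inv_mem hx) (hpowN _ x hx)
  apply (hker _ hmem).mp
  rw [map_mul, map_inv, h7, inv_mul_cancel]

end cyc

end Cfsg.Agent.Lib.Helper26
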