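import Mathlib

/-!
# Common eigenvectors for commuting automorphisms of exponent dividing `p - 1` (helper26)
-/

set_option autoImplicit false

namespace Cfsg.Agent.Lib.Helper26

universe u

section eigen

variable {C : Type u} [CommGroup C]

theorem exists_eigen {p : ℕ} [Fact p.Prime] (hexp : ∀ x : C, x ^ p = 1) (f : C →* C)
    (hpow : ∀ x, f^[p - 1] x = x) (W : Subgroup C) (hW : ∀ x ∈ W, f x ∈ W) (w : C) (hw : w ∈ W)
    (hw1 : w ≠ 1) : ∃ a : ℕ, ∃ u ∈ W, u ≠ 1 ∧ f u = u ^ a := by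
  classical
  have hp := (Fact.out : p.Prime)
  haveI : NeZero p := ⟨hp.ne_zero⟩
  have hexp' : ∀ x : Additive C, p • x = 0 := fun x => by
    show Additive.ofMul (Additive.toMul x ^ p) = 0
    rw [hexp]
    rfl
  haveI inst : Module (ZMod p) (Additive C) := AddCommGroup.zmodModule hexp'
  let φ : Additive C →ₗ[ZMod p] Additive C := (MonoidHom.toAdditive f).toZModLinearMap p
  have hφ : ∀ x : Additive C, φ x = Additive.ofMul (f (Additive.toMul x)) := fun x => rfl
  have hφpow : ∀ (n : ℕ) (x : Additive C),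
      (φ ^ n) x = Additive.ofMul (f^[n] (Additive.toMul x)) := by
    intro n
    induction n with
    | zero =>
      intro x
      rfl
    | succ n ih =>
      intro x
      rw [pow_succ', Module.End.mul_apply, ih, hφ, Function.iterate_succ_apply']
      rfl
  have hsm : ∀ (c : ZMod p) (y : Additive C), c • y = c.val • y := fun c y => by
    rw [← Nat.cast_smul_eq_nsmul (ZMod p), ZMod.natCast_zmod_val]
  set w' : Additive C := Additive.ofMul w with hw'
  let u : (ZMod p)ˣ → Additive C := fun b =>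
    ∑ i ∈ Finset.range (p - 1), ((b : ZMod p) ^ i) • (φ ^ i) w'
  have key1 : ∀ b : (ZMod p)ˣ, (b : ZMod p) • φ (u b) = u b := by
    intro b
    have e1 : (b : ZMod p) • φ (u b) =
        ∑ i ∈ Finset.range (p - 1), ((b : ZMod p) ^ (i + 1)) • (φ ^ (i + 1)) w' := by
      show (b : ZMod p) • φ (∑ i ∈ Finset.range (p - 1), ((b : ZMod p) ^ i) • (φ ^ i) w') = _
      rw [map_sum, Finset.smul_sum]
      refine Finset.sum_congr rfl (fun i _ => ?_)
      rw [map_smul, smul_smul, pow_succ' (b : ZMod p), pow_succ' φ, Module.End.mul_apply]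
    have e2 := Finset.sum_range_succ (fun i => ((b : ZMod p) ^ i) • (φ ^ i) w') (p - 1)
    have e3 := Finset.sum_range_succ' (fun i => ((b : ZMod p) ^ i) • (φ ^ i) w') (p - 1)
    have e4 : ((b : ZMod p) ^ (p - 1)) • (φ ^ (p - 1)) w' = w' := by
      rw [ZMod.pow_card_sub_one_eq_one (Units.ne_zero b), one_smul, hφpow, hpow]
      rfl
    have e5 : ((b : ZMod p) ^ 0) • (φ ^ 0) w' = w' := by
      rw [pow_zero, one_smul, pow_zero]
      rfl
    have e6 := e3.symm.trans e2
    beta_reduce at e6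
    rw [e4, e5] at e6
    rw [e1]
    exact add_right_cancel e6
  have key2 : ∑ b : (ZMod p)ˣ, u b = -w' := by
    have e1 : ∑ b : (ZMod p)ˣ, u b = ∑ i ∈ Finset.range (p - 1),
        (∑ b : (ZMod p)ˣ, ((b : ZMod p) ^ i)) • (φ ^ i) w' := by
      show ∑ b : (ZMod p)ˣ, ∑ i ∈ Finset.range (p - 1), ((b : ZMod p) ^ i) • (φ ^ i) w' = _
      rw [Finset.sum_comm]
      refine Finset.sum_congr rfl (fun i _ => ?_)
      rw [Finset.sum_smul]
    rw [e1, Finset.sum_eq_single 0]
    · rw [FiniteField.sum_pow_units (ZMod p) 0, if_pos (dvd_zero _), pow_zero, neg_smul, one_smul]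
      rfl
    · intro i hi hi0
      rw [FiniteField.sum_pow_units (ZMod p) i, ZMod.card p, if_neg, zero_smul]
      intro hdvd
      have h1 := Nat.le_of_dvd (Nat.pos_of_ne_zero hi0) hdvd
      have h2 := Finset.mem_range.mp hi
      omega
    · intro h0
      exact absurd (Finset.mem_range.mpr (by have := hp.two_le; omega)) h0
  have hex : ∃ b : (ZMod p)ˣ, u b ≠ 0 := by
    by_contra hall
    push_neg at hall
    have h1 : ∑ b : (ZMod p)ˣ, u b = 0 := Finset.sum_eq_zero (fun b _ => hall b)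
    rw [key2, neg_eq_zero] at h1
    exact hw1 (ofMul_eq_zero.mp h1)
  obtain ⟨b, hb⟩ := hex
  have hiter : ∀ i : ℕ, f^[i] w ∈ W := by
    intro i
    induction i with
    | zero => exact hw
    | succ i ih =>
      rw [Function.iterate_succ_apply']
      exact hW _ ih
  have hmemW : u b ∈ W.toAddSubgroup := by
    apply AddSubgroup.sum_mem
    intro i _
    rw [hsm]
    apply AddSubgroup.nsmul_mem
    rw [hφpow]
    exact hiter i
  have heig : φ (u b) = (((b⁻¹ : (ZMod p)ˣ) : ZMod p)).val • u b := by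
    rw [← hsm]
    have h1 := congrArg (fun t => ((b⁻¹ : (ZMod p)ˣ) : ZMod p) • t) (key1 b)
    simp only [smul_smul] at h1
    rw [Units.inv_mul, one_smul] at h1
    exact h1
  refine ⟨(((b⁻¹ : (ZMod p)ˣ) : ZMod p)).val, Additive.toMul (u b), hmemW, ?_, ?_⟩
  · intro h
    exact hb (toMul_eq_one.mp h)
  · exact congrArg Additive.toMul heig

theorem exists_common_eigen [Finite C] {p : ℕ} [Fact p.Prime] (hexp : ∀ x : C, x ^ p = 1)
    (E : Set (C →* C)) (hcomm : ∀ f ∈ E, ∀ g ∈ E, ∀ x, f (g x) = g (f x))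
    (hpow : ∀ f ∈ E, ∀ x, f^[p - 1] x = x) :
    ∀ (n : ℕ) (W : Subgroup C), W ≠ ⊥ → (∀ f ∈ E, ∀ x ∈ W, f x ∈ W) → Nat.card W ≤ n →
      ∃ x ∈ W, x ≠ 1 ∧ ∀ f ∈ E, ∃ a : ℕ, f x = x ^ a := by
  intro n
  induction n with
  | zero =>
    intro W _ _ hcard
    have := Nat.card_pos (α := W)
    omega
  | succ n ih =>
    intro W hW hinv hcard
    obtain ⟨w, hw1⟩ := (Subgroup.ne_bot_iff_exists_ne_one.mp hW)
    by_cases hall : ∀ f ∈ E, ∃ a : ℕ, ∀ x ∈ W, f x = x ^ a
    · refine ⟨w, w.2, fun h => hw1 (Subtype.ext h), fun f hf => ?_⟩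
      obtain ⟨a, ha⟩ := hall f hf
      exact ⟨a, ha w w.2⟩
    · push_neg at hall
      obtain ⟨f, hf, hne⟩ := hall
      obtain ⟨a, u, hu, hu1, hfu⟩ := exists_eigen hexp f (hpow f hf) W (hinv f hf) w w.2
        (fun h => hw1 (Subtype.ext h))
      let W' : Subgroup C :=
        { carrier := {x | x ∈ W ∧ f x = x ^ a}
          mul_mem' := by
            rintro x y ⟨hx, hx'⟩ ⟨hy, hy'⟩
            exact ⟨W.mul_mem hx hy, by rw [map_mul, hx', hy', mul_pow]⟩
          one_mem' := ⟨W.one_mem, by rw [map_one, one_pow]⟩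
          inv_mem' := by
            rintro x ⟨hx, hx'⟩
            exact ⟨W.inv_mem hx, by rw [map_inv, hx', inv_pow]⟩ }
      have hW'le : W' ≤ W := fun x hx => hx.1
      have hW'ne : W' ≠ ⊥ := by
        intro h
        have h1 : u ∈ W' := ⟨hu, hfu⟩
        rw [h, Subgroup.mem_bot] at h1
        exact hu1 h1
      have hW'inv : ∀ g ∈ E, ∀ x ∈ W', g x ∈ W' := by
        intro g hg x hx
        refine ⟨hinv g hg x hx.1, ?_⟩
        rw [hcomm f hf g hg, hx.2, map_pow]
      obtain ⟨x₀, hx₀, hx₀'⟩ := hne a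
      have hcard' : Nat.card W' < Nat.card W := by
        by_contra hge
        push_neg at hge
        have h1 := Subgroup.eq_of_le_of_card_ge hW'le hge
        have h2 : x₀ ∈ W' := h1 ▸ hx₀
        exact hx₀' h2.2
      obtain ⟨x, hx, hx1, hxE⟩ := ih W' hW'ne hW'inv (by omega)
      exact ⟨x, hW'le hx, hx1, hxE⟩

end eigen

end Cfsg.Agent.Lib.Helper26
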