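import Mathlib
import Cfsg.Prelude.Def_FusionSystem
import Cfsg.Agent.Lib.Helper26.FusStab
import Cfsg.Agent.Lib.Helper26.SupA

/-!
# Supersoluble fusion systems: chains of strongly closed subgroups with cyclic steps (helper26)
-/

set_option autoImplicit false

namespace Cfsg.Agent.Lib.Helper26

open Cfsg Cfsg.FusionSystem

open scoped Pointwise

universe u

variable {Ω : Type u} [Group Ω] {S : Subgroup Ω}

/-- The descending chain on `P` induced by an ascending chain `C` of length `m`. -/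
def downChain (P : Subgroup Ω) (C : ℕ → Subgroup Ω) (m : ℕ) : ℕ → Subgroup P :=
  fun i => (C (m - i)).subgroupOf P

theorem chain_hcyc {P : Subgroup Ω} (hPS : P ≤ S) (C : ℕ → Subgroup Ω) (m : ℕ)
    (hCn : ∀ k ≤ m, S ≤ Subgroup.normalizer (C k : Set Ω))
    (hstep : ∀ k < m, ∃ y ∈ S, C (k + 1) = C k ⊔ Subgroup.zpowers y) :
    ∀ i < m, ∃ (Q : Type u) (_ : Group Q) (ι : P →* Q) (q : Q),
      (∀ x ∈ downChain P C m i, ι x ∈ Subgroup.zpowers q) ∧
      ∀ x ∈ downChain P C m i, (ι x = 1 ↔ x ∈ downChain P C m (i + 1)) := by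
  intro i hi
  obtain ⟨y, hyS, hy⟩ := hstep (m - (i + 1)) (by omega)
  have hk : m - (i + 1) + 1 = m - i := by omega
  rw [hk] at hy
  have hn := hCn (m - (i + 1)) (by omega)
  haveI hUn : ((C (m - (i + 1))).subgroupOf S).Normal :=
    Subgroup.normal_subgroupOf_of_le_normalizer hn
  refine ⟨↥S ⧸ (C (m - (i + 1))).subgroupOf S, inferInstance,
    (QuotientGroup.mk' ((C (m - (i + 1))).subgroupOf S)).comp (Subgroup.inclusion hPS),
    QuotientGroup.mk' ((C (m - (i + 1))).subgroupOf S) ⟨y, hyS⟩, ?_, ?_⟩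
  · intro x hx
    have hx' : (x : Ω) ∈ C (m - i) := Subgroup.mem_subgroupOf.mp hx
    rw [hy, sup_comm] at hx'
    have hmul : ((Subgroup.zpowers y ⊔ C (m - (i + 1)) : Subgroup Ω) : Set Ω) =
        (Subgroup.zpowers y : Set Ω) * (C (m - (i + 1)) : Set Ω) :=
      Subgroup.coe_mul_of_left_le_normalizer_right _ _
        (le_trans (Subgroup.zpowers_le.mpr hyS) hn)
    have hx'' : (x : Ω) ∈ (Subgroup.zpowers y : Set Ω) * (C (m - (i + 1)) : Set Ω) := hmul ▸ hx'
    obtain ⟨a, ha, b, hb, hab⟩ := Set.mem_mul.mp hx''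
    obtain ⟨j, rfl⟩ := Subgroup.mem_zpowers_iff.mp ha
    have hbS : b ∈ S := by
      have h1 : b = (y ^ j)⁻¹ * (x : Ω) := by
        rw [← hab]
        group
      rw [h1]
      exact S.mul_mem (S.inv_mem (S.zpow_mem hyS j)) (hPS x.2)
    have e : Subgroup.inclusion hPS x = (⟨y, hyS⟩ : S) ^ j * ⟨b, hbS⟩ := Subtype.ext hab.symm
    show QuotientGroup.mk' ((C (m - (i + 1))).subgroupOf S) (Subgroup.inclusion hPS x) ∈ _
    rw [e, map_mul, map_zpow]
    have h2 : QuotientGroup.mk' ((C (m - (i + 1))).subgroupOf S) ⟨b, hbS⟩ = 1 :=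
      (QuotientGroup.eq_one_iff _).mpr (Subgroup.mem_subgroupOf.mpr hb)
    rw [h2, mul_one]
    exact Subgroup.zpow_mem _ (Subgroup.mem_zpowers _) j
  · intro x _
    show QuotientGroup.mk' ((C (m - (i + 1))).subgroupOf S) (Subgroup.inclusion hPS x) = 1 ↔ _
    rw [QuotientGroup.mk'_apply, QuotientGroup.eq_one_iff]
    exact Iff.rfl

theorem le_of_essential_chain [Finite S] {p : ℕ} [Fact p.Prime] (hS : IsPGroup p S)
    (F : FusionSystem S) {P : Subgroup Ω} (hc : F.IsCentric P) (hr : F.IsRadical p P)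
    (C : ℕ → Subgroup Ω) (m : ℕ) (hC0 : C 0 = ⊥) (hCm : C m = S)
    (hCsc : ∀ k ≤ m, F.StronglyClosed (C k))
    (hstep : ∀ k < m, ∃ y ∈ S, C (k + 1) = C k ⊔ Subgroup.zpowers y) : S ≤ P := by
  have hP : P ≤ S := hc.1
  haveI : Finite P := finite_of_le hP
  have hCn : ∀ k ≤ m, S ≤ Subgroup.normalizer (C k : Set Ω) := fun k hk =>
    stronglyClosed_le_normalizer F (hCsc k hk)
  have hinv : ∀ α ∈ F.autGroup P, ∀ i ≤ m, ∀ x ∈ downChain P C m i, α x ∈ downChain P C m i := by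
    intro α hα i hi x hx
    exact Subgroup.mem_subgroupOf.mpr (stronglyClosed_aut_invariant F (hCsc (m - i) (by omega))
      hP hα x (Subgroup.mem_subgroupOf.mp hx))
  have hcyc := chain_hcyc hP C m hCn hstep
  have h0 : downChain P C m 0 = ⊤ := by
    show (C (m - 0)).subgroupOf P = ⊤
    rw [Nat.sub_zero, hCm]
    exact Subgroup.subgroupOf_eq_top.mpr hP
  have hbase : ∀ β ∈ F.autGroup P, ∃ k : ℕ, ∀ x ∈ downChain P C m m, (β ^ (p ^ k)) x = x := by
    intro β _
    refine ⟨0, fun x hx => ?_⟩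
    have hx' : (x : Ω) ∈ C (m - m) := Subgroup.mem_subgroupOf.mp hx
    rw [Nat.sub_self, hC0, Subgroup.mem_bot] at hx'
    have h1 : x = 1 := Subtype.ext hx'
    rw [h1, map_one]
  have hCp : IsPGroup p (chainStab (F.autGroup P) (downChain P C m) m hinv) :=
    chainStab_isPGroup (hS.to_le hP) h0 hbase
  have hCconj : ∀ α ∈ F.autGroup P, ∀ β ∈ chainStab (F.autGroup P) (downChain P C m) m hinv,
      α * β * α⁻¹ ∈ chainStab (F.autGroup P) (downChain P C m) m hinv := by
    intro α hα β hβ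
    exact chainStab_conj (fun γ hγ => (F.autGroup P).mul_mem ((F.autGroup P).mul_mem hα hγ)
      ((F.autGroup P).inv_mem hα)) (hinv α hα) (hinv α⁻¹ ((F.autGroup P).inv_mem hα)) hβ
  have hAS : autInducedBy S P ≤ F.autGroup P := autInducedBy_le_autGroup F hP
  have hBA : autInducedBy S P ⊔ chainStab (F.autGroup P) (downChain P C m) m hinv ≤
      F.autGroup P := sup_le hAS (fun β hβ => hβ.1)
  refine le_of_centric_radical_of_stab hS F hc hr le_rfl Subgroup.le_normalizer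
    (autInducedBy S P ⊔ chainStab (F.autGroup P) (downChain P C m) m hinv) hBA ?_ ?_ ?_
  · apply IsPGroup.to_sup_of_normal_right' (autInducedBy_isPGroup hS P) hCp
    intro α hα
    rw [Subgroup.mem_normalizer_iff]
    intro β
    constructor
    · exact hCconj α (hAS hα) β
    · intro h
      have h1 := hCconj α⁻¹ ((F.autGroup P).inv_mem (hAS hα)) _ h
      have h2 : α⁻¹ * (α * β * α⁻¹) * α⁻¹⁻¹ = β := by group
      rwa [h2] at h1
  · intro α hα β hβ
    have h1 : α * β * α⁻¹ = (α * β * α⁻¹ * β⁻¹) * β := by group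
    rw [h1]
    exact Subgroup.mul_mem _ (Subgroup.mem_sup_right (comm_mem_chainStab hcyc hα (hBA hβ))) hβ
  · intro g hg hgS
    exact Subgroup.mem_sup_left (conj_mem_autInducedBy hgS hg)

theorem aut_abelian_of_chain [Finite S] {p : ℕ} [Fact p.Prime] (hS : IsPGroup p S)
    (H : Subgroup (MulAut S)) (hH : (Nat.card H).Coprime p)
    (C : ℕ → Subgroup Ω) (m : ℕ) (hC0 : C 0 = ⊥) (hCm : C m = S)
    (hCn : ∀ k ≤ m, S ≤ Subgroup.normalizer (C k : Set Ω))
    (hCinv : ∀ k ≤ m, ∀ h ∈ H, ∀ x : S, (x : Ω) ∈ C k → ((h x : S) : Ω) ∈ C k)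
    (hstep : ∀ k < m, ∃ y ∈ S, C (k + 1) = C k ⊔ Subgroup.zpowers y) :
    (∀ a ∈ H, ∀ b ∈ H, a * b = b * a) ∧ ∀ h ∈ H, h ^ (p - 1) = 1 := by
  have hp := (Fact.out : p.Prime)
  haveI : Finite (MulAut S) := inferInstance
  have hinv : ∀ α ∈ H, ∀ i ≤ m, ∀ x ∈ downChain S C m i, α x ∈ downChain S C m i := by
    intro α hα i hi x hx
    exact Subgroup.mem_subgroupOf.mpr (hCinv (m - i) (by omega) α hα x
      (Subgroup.mem_subgroupOf.mp hx))
  have hcyc := chain_hcyc (le_refl S) C m hCn hstep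
  have h0 : downChain S C m 0 = ⊤ := by
    show (C (m - 0)).subgroupOf S = ⊤
    rw [Nat.sub_zero, hCm]
    exact Subgroup.subgroupOf_eq_top.mpr le_rfl
  have hbase : ∀ β ∈ H, ∃ k : ℕ, ∀ x ∈ downChain S C m m, (β ^ (p ^ k)) x = x := by
    intro β _
    refine ⟨0, fun x hx => ?_⟩
    have hx' : (x : Ω) ∈ C (m - m) := Subgroup.mem_subgroupOf.mp hx
    rw [Nat.sub_self, hC0, Subgroup.mem_bot] at hx'
    have h1 : x = 1 := Subtype.ext hx'
    rw [h1, map_one]
  have hCp : IsPGroup p (chainStab H (downChain S C m) m hinv) :=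
    chainStab_isPGroup hS h0 hbase
  have hord : ∀ g ∈ H, orderOf g ∣ Nat.card H := by
    intro g hg
    have h1 := orderOf_dvd_natCard (⟨g, hg⟩ : H)
    rwa [Subgroup.orderOf_mk] at h1
  have htriv : ∀ g ∈ chainStab H (downChain S C m) m hinv, g = 1 := by
    intro g hg
    obtain ⟨k, hk⟩ := hCp ⟨g, hg⟩
    have h1 : g ^ (p ^ k) = 1 := by
      have h2 := congrArg Subtype.val hk
      simpa using h2
    have h3 : orderOf g ∣ p ^ k := orderOf_dvd_of_pow_eq_one h1
    have h4 : orderOf g ∣ Nat.card H := hord g hg.1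
    have h5 : (Nat.card H).Coprime (p ^ k) := Nat.Coprime.pow_right _ hH
    have h6 : orderOf g = 1 := Nat.eq_one_of_dvd_coprimes h5 h4 h3
    exact orderOf_eq_one_iff.mp h6
  constructor
  · intro a ha b hb
    have h1 := htriv _ (comm_mem_chainStab hcyc ha hb)
    have h2 : a * b * a⁻¹ * b⁻¹ = (a * b) * (b * a)⁻¹ := by group
    rw [h2] at h1
    exact mul_inv_eq_one.mp h1
  · intro h hh
    exact htriv _ (pow_pred_mem_chainStab hS hcyc hh
      (Nat.Coprime.coprime_dvd_left (hord h hh) hH))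

end Cfsg.Agent.Lib.Helper26
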