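import Mathlib
import Cfsg.Prelude.Def_FusionSystem
import Cfsg.Agent.Lib.Helper26.FusStab
import Cfsg.Agent.Lib.Helper26.FusExt
import Cfsg.Agent.Lib.Helper26.SupB

/-!
# Supersoluble fusion systems: building the chain when `S` is normal (helper26)
-/

set_option autoImplicit false

namespace Cfsg.Agent.Lib.Helper26

open Cfsg Cfsg.FusionSystem

open scoped IsMulCommutative

universe u

variable {Ω : Type u} [Group Ω] {S : Subgroup Ω}

theorem stronglyClosed_of_aut_invariant (F : FusionSystem S) (hn : F.IsNormal S) {T : Subgroup Ω}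
    (hT : T ≤ S) (hinv : ∀ α ∈ F.autGroup S, ∀ x : S, (x : Ω) ∈ T → ((α x : S) : Ω) ∈ T) :
    F.StronglyClosed T := by
  refine ⟨hT, fun R hRT φ hφ x => ?_⟩
  obtain ⟨ψ, hψ, hext, hmap⟩ := hn.2 R φ hφ
  have hψ' := restrict_mem F hψ (le_sup_right : S ≤ R ⊔ S)
  have hr : (ψ.comp (Subgroup.inclusion (le_sup_right : S ≤ R ⊔ S))).range = S := by
    ext y
    constructor
    · rintro ⟨s, rfl⟩
      have h1 : ψ (Subgroup.inclusion (le_sup_right : S ≤ R ⊔ S) s) ∈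
          (S.subgroupOf (R ⊔ S)).map ψ :=
        Subgroup.mem_map_of_mem _ (Subgroup.mem_subgroupOf.mpr s.2)
      rw [hmap] at h1
      exact h1
    · intro hy
      have h1 : y ∈ (S.subgroupOf (R ⊔ S)).map ψ := by
        rw [hmap]
        exact hy
      obtain ⟨z, hz, rfl⟩ := h1
      exact ⟨⟨(z : Ω), Subgroup.mem_subgroupOf.mp hz⟩, rfl⟩
  obtain ⟨e, he, hex⟩ := exists_iso_of_mem F hψ' hr
  have heA : e ∈ F.autGroup S := (mem_autGroup_iff F le_rfl).mpr he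
  have h1 := hinv e heA ⟨x, hT (hRT x.2)⟩ (hRT x.2)
  rw [hex] at h1
  rw [← hext x]
  exact h1

theorem aut_comm_inn [Finite S] {p : ℕ} [Fact p.Prime] (hS : IsPGroup p S) (F : FusionSystem S)
    (hF : F.IsSaturated p)
    (hH : ∀ H : Subgroup (MulAut S), (Nat.card H).Coprime p →
      IsMulCommutative H ∧ ∀ h ∈ H, h ^ (p - 1) = 1) :
    (∀ α ∈ F.autGroup S, ∀ β ∈ F.autGroup S, α * β * α⁻¹ * β⁻¹ ∈ autInducedBy S S) ∧
    (∀ α ∈ F.autGroup S, α ^ (p - 1) ∈ autInducedBy S S) := by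
  have hp := (Fact.out : p.Prime)
  haveI : Finite (MulAut S) := inferInstance
  obtain ⟨-, R, hR⟩ := isFullyAutomized_self hS F hF
  have hAS : autInducedBy S S ≤ F.autGroup S := autInducedBy_le_autGroup F le_rfl
  haveI hNn : ((autInducedBy S S).subgroupOf (F.autGroup S)).Normal := by
    constructor
    intro n hn a
    rw [Subgroup.mem_subgroupOf] at hn ⊢
    obtain ⟨g, hg, hgn⟩ := mem_autInducedBy_iff.mp hn
    refine mem_autInducedBy_iff.mpr
      ⟨((a : MulAut S) ⟨g, hg⟩ : S), ((a : MulAut S) ⟨g, hg⟩).2, fun x => ?_⟩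
    have h1 : (n : MulAut S) ((a : MulAut S)⁻¹ x) =
        ⟨g, hg⟩ * (a : MulAut S)⁻¹ x * ⟨g, hg⟩⁻¹ := Subtype.ext (hgn _)
    show (((a : MulAut S) ((n : MulAut S) ((a : MulAut S)⁻¹ x)) : S) : Ω) = _
    rw [h1, map_mul, map_mul, map_inv, MulAut.apply_inv_self]
    rfl
  have hcop : Nat.Coprime (Nat.card ((autInducedBy S S).subgroupOf (F.autGroup S)))
      ((autInducedBy S S).subgroupOf (F.autGroup S)).index := by
    rw [← hR]
    exact R.card_coprime_index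
  obtain ⟨H', hH'⟩ := Subgroup.exists_right_complement'_of_coprime hcop
  have hidx : ((autInducedBy S S).subgroupOf (F.autGroup S)).index = Nat.card H' :=
    hH'.symm.index_eq_card
  have hnd : ¬ p ∣ Nat.card H' := by
    rw [← hidx, ← hR]
    exact R.not_dvd_index
  have hcardmap : Nat.card (H'.map (F.autGroup S).subtype) = Nat.card H' :=
    Subgroup.card_map_of_injective (Subgroup.subtype_injective _)
  have hcop' : (Nat.card (H'.map (F.autGroup S).subtype)).Coprime p := by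
    rw [hcardmap]
    exact ((Nat.Prime.coprime_iff_not_dvd hp).mpr hnd).symm
  obtain ⟨hcomm, hexp⟩ := hH _ hcop'
  have hπ : ∀ a : F.autGroup S, ∃ h ∈ H',
      QuotientGroup.mk' ((autInducedBy S S).subgroupOf (F.autGroup S)) a =
        QuotientGroup.mk' ((autInducedBy S S).subgroupOf (F.autGroup S)) h := by
    intro a
    obtain ⟨⟨n, h⟩, hnh⟩ := hH'.2 a
    refine ⟨h.1, h.2, ?_⟩
    have h1 : a = n.1 * h.1 := hnh.symm
    have h2 : QuotientGroup.mk' ((autInducedBy S S).subgroupOf (F.autGroup S)) n.1 = 1 :=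
      (QuotientGroup.eq_one_iff n.1).mpr n.2
    rw [h1, map_mul, h2, one_mul]
  have hH'comm : ∀ h₁ ∈ H', ∀ h₂ ∈ H', h₁ * h₂ = h₂ * h₁ := by
    intro h₁ hh₁ h₂ hh₂
    have h1 := hcomm.is_comm.comm
      (⟨(h₁ : MulAut S), Subgroup.mem_map_of_mem _ hh₁⟩ : H'.map (F.autGroup S).subtype)
      ⟨(h₂ : MulAut S), Subgroup.mem_map_of_mem _ hh₂⟩
    have h2 := congrArg Subtype.val h1
    exact Subtype.ext h2
  have hH'exp : ∀ h₁ ∈ H', h₁ ^ (p - 1) = 1 := by
    intro h₁ hh₁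
    have h1 := hexp (h₁ : MulAut S) (Subgroup.mem_map_of_mem _ hh₁)
    apply Subtype.ext
    rw [Subgroup.coe_pow]
    exact h1
  constructor
  · intro α hα β hβ
    obtain ⟨h₁, hh₁, e₁⟩ := hπ ⟨α, hα⟩
    obtain ⟨h₂, hh₂, e₂⟩ := hπ ⟨β, hβ⟩
    have h1 : QuotientGroup.mk' ((autInducedBy S S).subgroupOf (F.autGroup S))
        ((⟨α, hα⟩ : F.autGroup S) * ⟨β, hβ⟩ * (⟨α, hα⟩ : F.autGroup S)⁻¹ *
          (⟨β, hβ⟩ : F.autGroup S)⁻¹) = 1 := by
      rw [map_mul, map_mul, map_mul, map_inv, map_inv, e₁, e₂, ← map_inv, ← map_inv, ← map_mul,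
        ← map_mul, ← map_mul]
      have h2 : h₁ * h₂ * h₁⁻¹ * h₂⁻¹ = 1 := by
        rw [hH'comm h₁ hh₁ h₂ hh₂]
        group
      rw [h2, map_one]
    have h3 := (QuotientGroup.eq_one_iff _).mp h1
    exact Subgroup.mem_subgroupOf.mp h3
  · intro α hα
    obtain ⟨h₁, hh₁, e₁⟩ := hπ ⟨α, hα⟩
    have h1 : QuotientGroup.mk' ((autInducedBy S S).subgroupOf (F.autGroup S))
        ((⟨α, hα⟩ : F.autGroup S) ^ (p - 1)) = 1 := by
      rw [map_pow, e₁, ← map_pow, hH'exp h₁ hh₁, map_one]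
    have h3 := (QuotientGroup.eq_one_iff _).mp h1
    exact Subgroup.mem_subgroupOf.mp h3

/-- The `p`-torsion of the centre. -/
def centerTorsion (p : ℕ) (Q : Type u) [Group Q] : Subgroup (Subgroup.center Q) :=
  (powMonoidHom (α := Subgroup.center Q) p).ker

/-- The endomorphisms of the `p`-torsion of the centre of `G ⧸ N` induced by elements of `A`. -/
def eigSet {G : Type u} [Group G] (p : ℕ) (N : Subgroup G) [N.Normal] (A : Subgroup (MulAut G)) :
    Set (centerTorsion p (G ⧸ N) →* centerTorsion p (G ⧸ N)) :=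
  {f | ∃ α ∈ A, ∀ (z : centerTorsion p (G ⧸ N)) (s : G),
    ((z : Subgroup.center (G ⧸ N)) : G ⧸ N) = QuotientGroup.mk' N s →
    ((f z : Subgroup.center (G ⧸ N)) : G ⧸ N) = QuotientGroup.mk' N (α s)}

theorem exists_eigen_mod {G : Type u} [Group G] [Finite G] {p : ℕ} [Fact p.Prime]
    (hG : IsPGroup p G) (N : Subgroup G) [N.Normal] (hN : N ≠ ⊤) (A : Subgroup (MulAut G))
    (hcomm : ∀ α ∈ A, ∀ β ∈ A, ∃ t : G, ∀ s : G, (α * β * α⁻¹ * β⁻¹) s = t * s * t⁻¹)
    (hpow : ∀ α ∈ A, ∃ t : G, ∀ s : G, (α ^ (p - 1)) s = t * s * t⁻¹)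
    (hinv : ∀ α ∈ A, ∀ x ∈ N, α x ∈ N) :
    ∃ x : G, x ∉ N ∧ ∀ α ∈ A, ∃ a : ℕ, (x ^ a)⁻¹ * α x ∈ N := by
  have hp := (Fact.out : p.Prime)
  have hπ1 : ∀ s : G, QuotientGroup.mk' N s = 1 ↔ s ∈ N := fun s => QuotientGroup.eq_one_iff s
  have hπsurj : Function.Surjective (QuotientGroup.mk' N) := QuotientGroup.mk'_surjective _
  have hexp : ∀ z : centerTorsion p (G ⧸ N), z ^ p = 1 := fun z => Subtype.ext z.2
  have hcq_inj : ∀ a b : centerTorsion p (G ⧸ N),
      ((a : Subgroup.center (G ⧸ N)) : G ⧸ N) = ((b : Subgroup.center (G ⧸ N)) : G ⧸ N) →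
        a = b :=
    fun a b h => Subtype.ext (Subtype.ext h)
  have hcq_central : ∀ (z : centerTorsion p (G ⧸ N)) (g : G ⧸ N),
      g * ((z : Subgroup.center (G ⧸ N)) : G ⧸ N) =
        ((z : Subgroup.center (G ⧸ N)) : G ⧸ N) * g :=
    fun z g => Subgroup.mem_center_iff.mp (z : Subgroup.center _).2 g
  have hcommE : ∀ f ∈ eigSet p N A, ∀ g ∈ eigSet p N A, ∀ z, f (g z) = g (f z) := by
    rintro f ⟨α, hα, hf⟩ g ⟨β, hβ, hg⟩ z
    obtain ⟨s, hs⟩ := hπsurj ((z : Subgroup.center (G ⧸ N)) : G ⧸ N)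
    apply hcq_inj
    have h1 := hf (g z) (β s) (hg z s hs.symm)
    have h2 := hg (f z) (α s) (hf z s hs.symm)
    obtain ⟨t, htc⟩ := hcomm α hα β hβ
    have h3 : α (β s) = t * β (α s) * t⁻¹ := by
      rw [← htc (β (α s))]
      simp [MulAut.mul_apply]
    rw [h1, h3, map_mul, map_mul, map_inv, ← h2, hcq_central, mul_inv_cancel_right]
  have hpowE : ∀ f ∈ eigSet p N A, ∀ z, f^[p - 1] z = z := by
    rintro f ⟨α, hα, hf⟩ z
    obtain ⟨s, hs⟩ := hπsurj ((z : Subgroup.center (G ⧸ N)) : G ⧸ N)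
    have hit : ∀ n : ℕ, ((f^[n] z : Subgroup.center (G ⧸ N)) : G ⧸ N) =
        QuotientGroup.mk' N ((α ^ n) s) := by
      intro n
      induction n with
      | zero => exact hs.symm
      | succ n ih =>
        rw [Function.iterate_succ_apply', pow_succ', MulAut.mul_apply]
        exact hf _ _ ih
    apply hcq_inj
    rw [hit (p - 1)]
    obtain ⟨t, htc⟩ := hpow α hα
    rw [htc s, map_mul, map_mul, map_inv, hs, hcq_central, mul_inv_cancel_right]
  have hfex : ∀ α ∈ A, ∃ f : centerTorsion p (G ⧸ N) →* centerTorsion p (G ⧸ N),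
      ∀ (z : centerTorsion p (G ⧸ N)) (s : G),
        ((z : Subgroup.center (G ⧸ N)) : G ⧸ N) = QuotientGroup.mk' N s →
        ((f z : Subgroup.center (G ⧸ N)) : G ⧸ N) = QuotientGroup.mk' N (α s) := by
    intro α hα
    have hα' : N ≤ N.comap α.toMonoidHom := fun x hx => Subgroup.mem_comap.mpr (hinv α hα x hx)
    have hᾱ : ∀ s : G, QuotientGroup.map N N α.toMonoidHom hα' (QuotientGroup.mk' N s) =
        QuotientGroup.mk' N (α s) := fun s => rfl
    have hc : ∀ z : centerTorsion p (G ⧸ N),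
        (((QuotientGroup.map N N α.toMonoidHom hα').comp (Subgroup.center (G ⧸ N)).subtype).comp
          (centerTorsion p (G ⧸ N)).subtype) z ∈ Subgroup.center (G ⧸ N) := by
      intro z
      rw [Subgroup.mem_center_iff]
      intro g
      obtain ⟨s, rfl⟩ := hπsurj g
      have h1 : QuotientGroup.mk' N s =
          QuotientGroup.map N N α.toMonoidHom hα' (QuotientGroup.mk' N (α⁻¹ s)) := by
        rw [hᾱ, MulAut.apply_inv_self]
      show QuotientGroup.mk' N s * QuotientGroup.map N N α.toMonoidHom hα'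
            ((z : Subgroup.center (G ⧸ N)) : G ⧸ N) =
          QuotientGroup.map N N α.toMonoidHom hα' ((z : Subgroup.center (G ⧸ N)) : G ⧸ N) *
            QuotientGroup.mk' N s
      rw [h1, ← map_mul, ← map_mul, hcq_central]
    have hk : ∀ z : centerTorsion p (G ⧸ N),
        ((((QuotientGroup.map N N α.toMonoidHom hα').comp (Subgroup.center (G ⧸ N)).subtype).comp
          (centerTorsion p (G ⧸ N)).subtype).codRestrict (Subgroup.center (G ⧸ N)) hc) z ∈
          centerTorsion p (G ⧸ N) := by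
      intro z
      show ((((QuotientGroup.map N N α.toMonoidHom hα').comp
          (Subgroup.center (G ⧸ N)).subtype).comp
          (centerTorsion p (G ⧸ N)).subtype).codRestrict (Subgroup.center (G ⧸ N)) hc) z ^ p = 1
      rw [← map_pow, hexp z, map_one]
    refine ⟨((((QuotientGroup.map N N α.toMonoidHom hα').comp
          (Subgroup.center (G ⧸ N)).subtype).comp
          (centerTorsion p (G ⧸ N)).subtype).codRestrict (Subgroup.center (G ⧸ N)) hc).codRestrict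
            _ hk, fun z s hzs => ?_⟩
    show QuotientGroup.map N N α.toMonoidHom hα' ((z : Subgroup.center (G ⧸ N)) : G ⧸ N) = _
    rw [hzs, hᾱ]
  obtain ⟨s₀, hs₀⟩ : ∃ s : G, s ∉ N := by
    by_contra hcon
    push_neg at hcon
    exact hN (eq_top_iff.mpr (fun s _ => hcon s))
  haveI : Nontrivial (G ⧸ N) :=
    ⟨⟨QuotientGroup.mk' N s₀, 1, fun h => hs₀ ((hπ1 _).mp h)⟩⟩
  have hQp : IsPGroup p (G ⧸ N) := hG.to_quotient _
  haveI : Nontrivial (Subgroup.center (G ⧸ N)) := hQp.center_nontrivial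
  have hCp : IsPGroup p (Subgroup.center (G ⧸ N)) := hQp.to_subgroup _
  obtain ⟨n, hn0, hn⟩ := hCp.nontrivial_iff_card.mp inferInstance
  have hdvd : p ∣ Nat.card (Subgroup.center (G ⧸ N)) := by
    rw [hn]
    exact dvd_pow_self p hn0.ne'
  obtain ⟨z₀, hz₀⟩ := exists_prime_orderOf_dvd_card' p hdvd
  have hz₀mem : z₀ ∈ centerTorsion p (G ⧸ N) := by
    show z₀ ^ p = 1
    rw [← hz₀]
    exact pow_orderOf_eq_one z₀
  have hz₀1 : z₀ ≠ 1 := by
    intro h
    rw [h, orderOf_one] at hz₀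
    exact hp.one_lt.ne hz₀
  obtain ⟨z, -, hz1, hzE⟩ := exists_common_eigen hexp (eigSet p N A) hcommE hpowE
    (Nat.card (⊤ : Subgroup (centerTorsion p (G ⧸ N)))) ⊤ (by
      intro h
      have h1 : (⟨z₀, hz₀mem⟩ : centerTorsion p (G ⧸ N)) ∈
          (⊥ : Subgroup (centerTorsion p (G ⧸ N))) := h ▸ Subgroup.mem_top _
      exact hz₀1 (congrArg Subtype.val (Subgroup.mem_bot.mp h1)))
    (fun f _ x _ => Subgroup.mem_top _) le_rfl
  obtain ⟨x, hx⟩ := hπsurj ((z : Subgroup.center (G ⧸ N)) : G ⧸ N)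
  refine ⟨x, fun h => ?_, fun α hα => ?_⟩
  · have h1 : ((z : Subgroup.center (G ⧸ N)) : G ⧸ N) = 1 := by
      rw [← hx]
      exact (hπ1 x).mpr h
    exact hz1 (hcq_inj z 1 h1)
  · obtain ⟨f, hf⟩ := hfex α hα
    obtain ⟨a, ha⟩ := hzE f ⟨α, hα, hf⟩
    refine ⟨a, ?_⟩
    have h1 : QuotientGroup.mk' N (α x) = QuotientGroup.mk' N (x ^ a) := by
      rw [← hf z x hx.symm, ha, map_pow, hx]
      rfl
    apply (hπ1 _).mp
    rw [map_mul, map_inv, h1, inv_mul_cancel]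

theorem exists_step [Finite S] {p : ℕ} [Fact p.Prime] (hS : IsPGroup p S)
    (A : Subgroup (MulAut S)) (hInn : autInducedBy S S ≤ A)
    (hcomm : ∀ α ∈ A, ∀ β ∈ A, α * β * α⁻¹ * β⁻¹ ∈ autInducedBy S S)
    (hpow : ∀ α ∈ A, α ^ (p - 1) ∈ autInducedBy S S)
    {T : Subgroup Ω} (hT : T ≤ S) (hTS : T ≠ S)
    (hinv : ∀ α ∈ A, ∀ x : S, (x : Ω) ∈ T → ((α x : S) : Ω) ∈ T) :
    ∃ x ∈ S, x ∉ T ∧ ∀ α ∈ A, ∀ y : S, (y : Ω) ∈ T ⊔ Subgroup.zpowers x →
      ((α y : S) : Ω) ∈ T ⊔ Subgroup.zpowers x := by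
  have hconjA : ∀ s : S, (MulAut.conj s : MulAut S) ∈ A := fun s =>
    hInn (mem_autInducedBy_iff.mpr ⟨(s : Ω), s.2, fun x => rfl⟩)
  haveI hTn : (T.subgroupOf S).Normal := by
    constructor
    intro n hn g
    have h1 := hinv _ (hconjA g) n (Subgroup.mem_subgroupOf.mp hn)
    exact Subgroup.mem_subgroupOf.mpr h1
  have hN : T.subgroupOf S ≠ ⊤ := by
    intro h
    exact hTS (le_antisymm hT (Subgroup.subgroupOf_eq_top.mp h))
  obtain ⟨x, hxT, hx⟩ := exists_eigen_mod hS (T.subgroupOf S) hN A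
    (fun α hα β hβ => by
      obtain ⟨t, ht, htc⟩ := mem_autInducedBy_iff.mp (hcomm α hα β hβ)
      exact ⟨⟨t, ht⟩, fun s => Subtype.ext (htc s)⟩)
    (fun α hα => by
      obtain ⟨t, ht, htc⟩ := mem_autInducedBy_iff.mp (hpow α hα)
      exact ⟨⟨t, ht⟩, fun s => Subtype.ext (htc s)⟩)
    (fun α hα x hx => Subgroup.mem_subgroupOf.mpr (hinv α hα x (Subgroup.mem_subgroupOf.mp hx)))
  refine ⟨(x : Ω), x.2, fun h => hxT (Subgroup.mem_subgroupOf.mpr h), fun α hα y hy => ?_⟩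
  obtain ⟨a, ha⟩ := hx α hα
  have h2' : (((x ^ a)⁻¹ * α x : S) : Ω) ∈ T := Subgroup.mem_subgroupOf.mp ha
  have hαx : ((α x : S) : Ω) ∈ T ⊔ Subgroup.zpowers (x : Ω) := by
    have e : ((α x : S) : Ω) = (x : Ω) ^ a * (((x ^ a)⁻¹ * α x : S) : Ω) := by
      rw [Subgroup.coe_mul, Subgroup.coe_inv, Subgroup.coe_pow, mul_inv_cancel_left]
    rw [e]
    exact Subgroup.mul_mem _ (Subgroup.mem_sup_right
      (Subgroup.pow_mem _ (Subgroup.mem_zpowers _) a)) (Subgroup.mem_sup_left h2')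
  have hTM : T ≤ (((T ⊔ Subgroup.zpowers (x : Ω)).subgroupOf S).comap α.toMonoidHom).map
      S.subtype := fun t ht =>
    ⟨⟨t, hT ht⟩, Subgroup.mem_comap.mpr (Subgroup.mem_subgroupOf.mpr
      (Subgroup.mem_sup_left (hinv α hα ⟨t, hT ht⟩ ht))), rfl⟩
  have hxM : (x : Ω) ∈ (((T ⊔ Subgroup.zpowers (x : Ω)).subgroupOf S).comap α.toMonoidHom).map
      S.subtype :=
    ⟨x, Subgroup.mem_comap.mpr (Subgroup.mem_subgroupOf.mpr hαx), rfl⟩
  have hle : T ⊔ Subgroup.zpowers (x : Ω) ≤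
      (((T ⊔ Subgroup.zpowers (x : Ω)).subgroupOf S).comap α.toMonoidHom).map S.subtype :=
    sup_le hTM (Subgroup.zpowers_le.mpr hxM)
  obtain ⟨y', hy', hyy'⟩ := hle hy
  have hyeq : y' = y := Subtype.ext hyy'
  subst hyeq
  exact Subgroup.mem_subgroupOf.mp (Subgroup.mem_comap.mp hy')

theorem exists_chain_from [Finite S] {p : ℕ} [Fact p.Prime] (hS : IsPGroup p S)
    (A : Subgroup (MulAut S)) (hInn : autInducedBy S S ≤ A)
    (hcomm : ∀ α ∈ A, ∀ β ∈ A, α * β * α⁻¹ * β⁻¹ ∈ autInducedBy S S)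
    (hpow : ∀ α ∈ A, α ^ (p - 1) ∈ autInducedBy S S) :
    ∀ (n : ℕ) (T : Subgroup Ω), T ≤ S →
      (∀ α ∈ A, ∀ x : S, (x : Ω) ∈ T → ((α x : S) : Ω) ∈ T) → Nat.card S - Nat.card T ≤ n →
      ∃ (m : ℕ) (c : Fin (m + 1) → Subgroup Ω), c 0 = T ∧ c (Fin.last m) = S ∧
        (∀ i, c i ≤ S ∧ ∀ α ∈ A, ∀ x : S, (x : Ω) ∈ c i → ((α x : S) : Ω) ∈ c i) ∧
        ∀ i : Fin m, c i.castSucc ≤ c i.succ ∧
          ∃ x ∈ S, c i.succ = c i.castSucc ⊔ Subgroup.zpowers x := by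
  intro n
  induction n with
  | zero =>
    intro T hT hinv hcard
    have hTS : T = S := by
      apply Subgroup.eq_of_le_of_card_ge hT
      omega
    subst hTS
    exact ⟨0, fun _ => T, rfl, rfl, fun _ => ⟨le_rfl, hinv⟩, fun i => i.elim0⟩
  | succ n ih =>
    intro T hT hinv hcard
    by_cases hTS : T = S
    · subst hTS
      exact ⟨0, fun _ => T, rfl, rfl, fun _ => ⟨le_rfl, hinv⟩, fun i => i.elim0⟩
    · obtain ⟨x, hxS, hxT, hx⟩ := exists_step hS A hInn hcomm hpow hT hTS hinv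
      have hT'S : T ⊔ Subgroup.zpowers x ≤ S := sup_le hT (Subgroup.zpowers_le.mpr hxS)
      haveI : Finite ↥(T ⊔ Subgroup.zpowers x) := finite_of_le hT'S
      have hlt : Nat.card T < Nat.card ↥(T ⊔ Subgroup.zpowers x) := by
        by_contra hge
        push_neg at hge
        have h1 := Subgroup.eq_of_le_of_card_ge (le_sup_left : T ≤ T ⊔ Subgroup.zpowers x) hge
        exact hxT (h1 ▸ Subgroup.mem_sup_right (Subgroup.mem_zpowers x))
      have hle : Nat.card ↥(T ⊔ Subgroup.zpowers x) ≤ Nat.card S := Subgroup.card_le_of_le hT'S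
      obtain ⟨m, c, hc0, hcl, hci, hcs⟩ := ih (T ⊔ Subgroup.zpowers x) hT'S hx (by omega)
      refine ⟨m + 1, Fin.cons T c, ?_, ?_, ?_, ?_⟩
      · exact Fin.cons_zero _ _
      · rw [← Fin.succ_last, Fin.cons_succ]
        exact hcl
      · intro i
        refine Fin.cases ?_ (fun j => ?_) i
        · rw [Fin.cons_zero]
          exact ⟨hT, hinv⟩
        · rw [Fin.cons_succ]
          exact hci j
      · intro i
        refine Fin.cases ?_ (fun j => ?_) i
        · rw [Fin.castSucc_zero, Fin.cons_zero, Fin.cons_succ, hc0]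
          exact ⟨le_sup_left, x, hxS, rfl⟩
        · rw [← Fin.succ_castSucc, Fin.cons_succ, Fin.cons_succ]
          exact hcs j

end Cfsg.Agent.Lib.Helper26
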