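import Mathlib

/-!
# Characteristic chains with cyclic steps in finite abelian `p`-groups with distinct invariants
(helper26)
-/

set_option autoImplicit false

namespace Cfsg.Agent.Lib.Helper26

section chains

variable {G : Type*} [CommGroup G]

/-- the elements killed by `p ^ a` -/
def omg (p a : ℕ) (G : Type*) [CommGroup G] : Subgroup G := (powMonoidHom (α := G) (p ^ a)).ker

/-- the `p ^ j`-th powers -/
def agm (p j : ℕ) (G : Type*) [CommGroup G] : Subgroup G := (powMonoidHom (α := G) (p ^ j)).range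

/-- the refining characteristic subgroups -/
def dsub (p a j : ℕ) (G : Type*) [CommGroup G] : Subgroup G :=
  omg p a G ⊔ (omg p (a + 1) G ⊓ agm p j G)

theorem mem_omg {p a : ℕ} {x : G} : x ∈ omg p a G ↔ x ^ (p ^ a) = 1 := by
  unfold omg
  rw [MonoidHom.mem_ker]
  rfl

theorem mem_agm {p j : ℕ} {x : G} : x ∈ agm p j G ↔ ∃ t : G, t ^ (p ^ j) = x := by
  unfold agm
  rw [MonoidHom.mem_range]
  rfl

theorem omg_mono (p a : ℕ) : omg p a G ≤ omg p (a + 1) G := by
  intro x hx
  rw [mem_omg] at hx ⊢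
  rw [pow_succ, pow_mul, hx, one_pow]

theorem agm_anti (p j : ℕ) : agm p (j + 1) G ≤ agm p j G := by
  intro x hx
  rw [mem_agm] at hx ⊢
  obtain ⟨t, rfl⟩ := hx
  exact ⟨t ^ p, by rw [← pow_mul, pow_succ, mul_comm]⟩

theorem omg_invariant (p a : ℕ) (f : G →* G) (x : G) (hx : x ∈ omg p a G) : f x ∈ omg p a G := by
  rw [mem_omg] at hx ⊢
  rw [← map_pow, hx, map_one]

theorem agm_invariant (p j : ℕ) (f : G →* G) (x : G) (hx : x ∈ agm p j G) : f x ∈ agm p j G := by
  rw [mem_agm] at hx ⊢
  obtain ⟨t, rfl⟩ := hx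
  exact ⟨f t, by rw [map_pow]⟩

theorem dsub_invariant (p a j : ℕ) (f : G →* G) (x : G) (hx : x ∈ dsub p a j G) :
    f x ∈ dsub p a j G := by
  unfold dsub at hx ⊢
  rw [Subgroup.mem_sup] at hx ⊢
  obtain ⟨u, hu, v, hv, rfl⟩ := hx
  exact ⟨f u, omg_invariant p a f u hu, f v,
    ⟨omg_invariant p (a + 1) f v hv.1, agm_invariant p j f v hv.2⟩, (map_mul f u v).symm⟩

theorem omg_zero (p : ℕ) : omg p 0 G = ⊥ := by
  ext x
  rw [mem_omg, Subgroup.mem_bot, pow_zero, pow_one]

theorem omg_top (p N : ℕ) (hN : ∀ x : G, x ^ (p ^ N) = 1) : omg p N G = ⊤ := by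
  ext x
  rw [mem_omg]
  simp [hN x]

theorem dsub_zero (p a : ℕ) : dsub p a 0 G = omg p (a + 1) G := by
  have h : agm p 0 G = ⊤ := by
    ext x
    rw [mem_agm]
    simp
  unfold dsub
  rw [h, inf_top_eq]
  exact sup_eq_right.mpr (omg_mono p a)

theorem dsub_top (p a N : ℕ) (hN : ∀ x : G, x ^ (p ^ N) = 1) : dsub p a N G = omg p a G := by
  have h : agm p N G = ⊥ := by
    ext x
    rw [mem_agm, Subgroup.mem_bot]
    constructor
    · rintro ⟨t, rfl⟩
      exact hN t
    · rintro rfl
      exact ⟨1, one_pow _⟩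
  unfold dsub
  rw [h, inf_bot_eq, sup_bot_eq]

/-- `T` is reached from `⊥` by a chain of fully invariant subgroups with cyclic steps -/
def Reach (T : Subgroup G) : Prop :=
  ∃ (m : ℕ) (C : ℕ → Subgroup G), C 0 = ⊥ ∧ C m = T ∧
    (∀ k ≤ m, ∀ f : G →* G, ∀ x ∈ C k, f x ∈ C k) ∧
    ∀ k < m, ∃ y : G, C (k + 1) = C k ⊔ Subgroup.zpowers y

theorem reach_bot : Reach (⊥ : Subgroup G) := by
  refine ⟨0, fun _ => ⊥, rfl, rfl, fun k _ f x hx => ?_, fun k hk => absurd hk (Nat.not_lt_zero k)⟩
  rw [Subgroup.mem_bot] at hx ⊢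
  rw [hx, map_one]

theorem reach_step {T T' : Subgroup G} (h : Reach T)
    (hT' : ∀ f : G →* G, ∀ x ∈ T', f x ∈ T') (y : G) (hy : T' = T ⊔ Subgroup.zpowers y) :
    Reach T' := by
  obtain ⟨m, C, h0, hm, hc, hs⟩ := h
  refine ⟨m + 1, fun k => if k ≤ m then C k else T', ?_, ?_, ?_, ?_⟩
  · simp [h0]
  · simp
  · intro k hk f x hx
    by_cases hkm : k ≤ m
    · simp only [hkm, if_true] at hx ⊢
      exact hc k hkm f x hx
    · simp only [hkm, if_false] at hx ⊢
      exact hT' f x hx
  · intro k hk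
    by_cases hkm : k < m
    · have h1 : k ≤ m := hkm.le
      have h2 : k + 1 ≤ m := hkm
      simp only [h1, h2, if_true]
      exact hs k hkm
    · have hkm' : k = m := by omega
      subst hkm'
      refine ⟨y, ?_⟩
      simp [hm, hy]

theorem reach_top_of_step (p N : ℕ) (hN : ∀ x : G, x ^ (p ^ N) = 1)
    (hstep : ∀ a j, ∃ y : G, dsub p a j G = dsub p a (j + 1) G ⊔ Subgroup.zpowers y) :
    Reach (⊤ : Subgroup G) := by
  have key : ∀ a, Reach (omg p a G) := by
    intro a
    induction a with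
    | zero =>
      rw [omg_zero]
      exact reach_bot
    | succ a ih =>
      have h1 : ∀ s, s ≤ N → Reach (dsub p a (N - s) G) := by
        intro s
        induction s with
        | zero =>
          intro _
          rw [Nat.sub_zero, dsub_top p a N hN]
          exact ih
        | succ s ihs =>
          intro hs
          obtain ⟨y, hy⟩ := hstep a (N - (s + 1))
          have e : N - (s + 1) + 1 = N - s := by omega
          rw [e] at hy
          exact reach_step (ihs (by omega)) (dsub_invariant p a _) y hy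
      have h2 := h1 N le_rfl
      rw [Nat.sub_self, dsub_zero] at h2
      exact h2
  have h3 := key N
  rw [omg_top p N hN] at h3
  exact h3

theorem reach_of_equiv {G' : Type*} [CommGroup G'] (ψ : G ≃* G')
    (h : Reach (⊤ : Subgroup G')) : Reach (⊤ : Subgroup G) := by
  obtain ⟨m, C, h0, hm, hc, hs⟩ := h
  refine ⟨m, fun k => (C k).map ψ.symm.toMonoidHom, ?_, ?_, ?_, ?_⟩
  · show (C 0).map ψ.symm.toMonoidHom = ⊥
    rw [h0, Subgroup.map_bot]
  · show (C m).map ψ.symm.toMonoidHom = ⊤
    rw [hm]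
    exact Subgroup.map_top_of_surjective _ ψ.symm.surjective
  · intro k hk f x hx
    obtain ⟨z, hz, rfl⟩ := hx
    refine ⟨ψ (f (ψ.symm z)), ?_, ?_⟩
    · exact hc k hk ((ψ.toMonoidHom.comp f).comp ψ.symm.toMonoidHom) z hz
    · show ψ.symm (ψ (f (ψ.symm z))) = f (ψ.symm z)
      exact ψ.symm_apply_apply _
  · intro k hk
    obtain ⟨y, hy⟩ := hs k hk
    refine ⟨ψ.symm y, ?_⟩
    show (C (k + 1)).map ψ.symm.toMonoidHom = (C k).map ψ.symm.toMonoidHom ⊔ _
    rw [hy, Subgroup.map_sup, MonoidHom.map_zpowers]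
    rfl

end chains

section prodstep

variable {ι : Type*} {B : ι → Type*} [∀ i, CommGroup (B i)]

theorem dsub_step_pi (p : ℕ) [Fact p.Prime] (e : ι → ℕ) (he : Function.Injective e)
    (g : ∀ i, B i) (hg : ∀ i, orderOf (g i) = p ^ e i)
    (hgen : ∀ i (z : B i), ∃ n : ℕ, z = g i ^ n) (a j : ℕ) :
    ∃ y : (∀ i, B i), dsub p a j (∀ i, B i) = dsub p a (j + 1) (∀ i, B i) ⊔ Subgroup.zpowers y := by
  classical
  have hp := (Fact.out : p.Prime)
  refine ⟨fun i => if e i = a + 1 + j then g i ^ (p ^ j) else 1, ?_⟩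
  set y : (∀ i, B i) := fun i => if e i = a + 1 + j then g i ^ (p ^ j) else 1 with hy
  apply le_antisymm
  · intro x hx
    unfold dsub at hx
    rw [Subgroup.mem_sup] at hx
    obtain ⟨u, hu, v, hv, rfl⟩ := hx
    rw [Subgroup.mem_inf] at hv
    obtain ⟨hv1, hv2⟩ := hv
    rw [mem_omg] at hv1
    rw [mem_agm] at hv2
    obtain ⟨w, hw⟩ := hv2
    choose n hn using fun i => hgen i (w i)
    have hvi : ∀ i, v i = g i ^ (n i * p ^ j) := by
      intro i
      rw [← hw, Pi.pow_apply, hn i, ← pow_mul]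
    have hv1i : ∀ i, g i ^ (n i * p ^ j * p ^ (a + 1)) = 1 := by
      intro i
      have := congrFun hv1 i
      rw [Pi.pow_apply, hvi i, ← pow_mul] at this
      exact this
    have hdiv : ∀ i, a + 1 + j < e i → p ∣ n i := by
      intro i hi
      have h1 := (orderOf_dvd_iff_pow_eq_one).mpr (hv1i i)
      rw [hg i] at h1
      have h2 : p ^ (a + 1 + j + 1) ∣ p ^ e i := pow_dvd_pow p hi
      have h3 : p * p ^ (a + 1 + j) ∣ n i * p ^ (a + 1 + j) := by
        have h4 := h2.trans h1
        have e1 : p ^ (a + 1 + j + 1) = p * p ^ (a + 1 + j) := by rw [pow_succ, mul_comm]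
        have e2 : n i * p ^ j * p ^ (a + 1) = n i * p ^ (a + 1 + j) := by
          rw [mul_assoc, ← pow_add, add_comm j]
        rw [e1, e2] at h4
        exact h4
      exact Nat.dvd_of_mul_dvd_mul_right (pow_pos hp.pos _) h3
    set v₁ : (∀ i, B i) := fun i => if e i ≤ a + j then v i else 1 with hv₁
    set v₂ : (∀ i, B i) := fun i => if a + 1 + j < e i then v i else 1 with hv₂
    set v₃ : (∀ i, B i) := fun i => if e i = a + 1 + j then v i else 1 with hv₃
    have hsplit : u * v = (u * v₁) * v₂ * v₃ := by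
      funext i
      simp only [Pi.mul_apply, hv₁, hv₂, hv₃]
      rcases lt_trichotomy (e i) (a + 1 + j) with h | h | h
      · have h1 : e i ≤ a + j := by omega
        have h2 : ¬ (a + 1 + j < e i) := by omega
        have h3 : ¬ (e i = a + 1 + j) := by omega
        simp [h1, h2, h3]
      · have h1 : ¬ (e i ≤ a + j) := by omega
        have h2 : ¬ (a + 1 + j < e i) := by omega
        simp [h1, h2, h]
      · have h1 : ¬ (e i ≤ a + j) := by omega
        have h3 : ¬ (e i = a + 1 + j) := by omega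
        simp [h1, h, h3]
    rw [hsplit]
    refine Subgroup.mul_mem_sup ?_ ?_
    · unfold dsub
      refine Subgroup.mul_mem_sup ?_ (Subgroup.mem_inf.mpr ⟨?_, ?_⟩)
      · refine mul_mem hu ?_
        rw [mem_omg]
        funext i
        simp only [Pi.pow_apply, hv₁, Pi.one_apply]
        by_cases h : e i ≤ a + j
        · rw [if_pos h, hvi i, ← pow_mul]
          apply orderOf_dvd_iff_pow_eq_one.mp
          rw [hg i, mul_assoc, ← pow_add]
          exact (pow_dvd_pow p (by omega)).trans (dvd_mul_left _ _)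
        · rw [if_neg h, one_pow]
      · rw [mem_omg]
        funext i
        simp only [Pi.pow_apply, hv₂, Pi.one_apply]
        by_cases h : a + 1 + j < e i
        · rw [if_pos h]
          have := congrFun hv1 i
          rw [Pi.pow_apply] at this
          exact this
        · rw [if_neg h, one_pow]
      · rw [mem_agm]
        refine ⟨fun i => if a + 1 + j < e i then g i ^ (n i / p) else 1, ?_⟩
        funext i
        simp only [Pi.pow_apply, hv₂]
        by_cases h : a + 1 + j < e i
        · rw [if_pos h, if_pos h, hvi i, ← pow_mul]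
          congr 1
          obtain ⟨d, hd⟩ := hdiv i h
          rw [hd, Nat.mul_div_cancel_left _ hp.pos, pow_succ]
          ring
        · rw [if_neg h, if_neg h, one_pow]
    · by_cases h : ∃ i₀, e i₀ = a + 1 + j
      · obtain ⟨i₀, hi₀⟩ := h
        have hv3 : v₃ = y ^ (n i₀) := by
          funext i
          simp only [Pi.pow_apply, hv₃, hy]
          by_cases hi : e i = a + 1 + j
          · have : i = i₀ := he (hi.trans hi₀.symm)
            subst this
            rw [if_pos hi, if_pos hi, hvi i, ← pow_mul, mul_comm]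
          · rw [if_neg hi, if_neg hi, one_pow]
        rw [hv3]
        exact Subgroup.pow_mem _ (Subgroup.mem_zpowers y) _
      · have hv3 : v₃ = 1 := by
          funext i
          simp only [hv₃, Pi.one_apply]
          rw [if_neg (fun h' => h ⟨i, h'⟩)]
        rw [hv3]
        exact Subgroup.one_mem _
  · refine sup_le ?_ ?_
    · unfold dsub
      exact sup_le_sup_left (inf_le_inf_left _ (agm_anti p j)) _
    · rw [Subgroup.zpowers_le]
      unfold dsub
      refine Subgroup.mem_sup_right (Subgroup.mem_inf.mpr ⟨?_, ?_⟩)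
      · rw [mem_omg]
        funext i
        simp only [Pi.pow_apply, hy, Pi.one_apply]
        by_cases h : e i = a + 1 + j
        · rw [if_pos h, ← pow_mul, ← pow_add]
          apply orderOf_dvd_iff_pow_eq_one.mp
          rw [hg i, h]
          exact pow_dvd_pow p (by omega)
        · rw [if_neg h, one_pow]
      · rw [mem_agm]
        refine ⟨fun i => if e i = a + 1 + j then g i else 1, ?_⟩
        funext i
        simp only [Pi.pow_apply, hy]
        by_cases h : e i = a + 1 + j
        · rw [if_pos h, if_pos h]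
        · rw [if_neg h, if_neg h, one_pow]

end prodstep

section structure_thm

theorem reach_top_of_no_repeat {G : Type*} [CommGroup G] [Finite G] (p : ℕ) [Fact p.Prime]
    (hG : IsPGroup p G)
    (hno : ¬ ∃ (n : ℕ) (H : Type) (_ : CommGroup H), 0 < n ∧
      Nonempty (G ≃* (Multiplicative (ZMod (p ^ n)) × Multiplicative (ZMod (p ^ n))) × H)) :
    Reach (⊤ : Subgroup G) := by
  classical
  have hp := (Fact.out : p.Prime)
  obtain ⟨ι, _, n, hn1, ⟨ψ⟩⟩ := CommGroup.equiv_prod_multiplicative_zmod_of_finite G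
  have hG' : IsPGroup p (∀ i, Multiplicative (ZMod (n i))) := hG.of_equiv ψ
  have hne : ∀ i, ∃ k, n i = p ^ k := by
    intro i
    obtain ⟨k, hk⟩ := hG' (Pi.mulSingle i (Multiplicative.ofAdd (1 : ZMod (n i))))
    have h2 : Multiplicative.ofAdd (1 : ZMod (n i)) ^ (p ^ k) = 1 := by
      have := congrFun hk i
      simpa using this
    have h3 : ((p ^ k : ℕ) : ZMod (n i)) = 0 := by
      have h4 : Multiplicative.toAdd (Multiplicative.ofAdd (1 : ZMod (n i)) ^ (p ^ k)) = 0 := by
        rw [h2]
        rfl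
      rw [toAdd_pow, toAdd_ofAdd, nsmul_one] at h4
      exact h4
    rw [ZMod.natCast_eq_zero_iff] at h3
    obtain ⟨k', -, hk'⟩ := (Nat.dvd_prime_pow hp).mp h3
    exact ⟨k', hk'⟩
  choose e he using hne
  obtain rfl : n = fun i => p ^ e i := funext he
  have hinj : Function.Injective e := by
    intro i j hij
    by_contra hne
    apply hno
    have hji : j ≠ i := fun h => hne h.symm
    let B : ι → Type := fun k => Multiplicative (ZMod (p ^ e k))
    let e1 : (∀ k, B k) ≃* B i × (∀ k : {k // k ≠ i}, B k) :=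
      { Equiv.piSplitAt i B with map_mul' := fun _ _ => rfl }
    let e2 : (∀ k : {k // k ≠ i}, B k) ≃*
        B j × (∀ k : {k : {k // k ≠ i} // k ≠ ⟨j, hji⟩}, B k) :=
      { Equiv.piSplitAt (⟨j, hji⟩ : {k // k ≠ i}) (fun k => B k) with map_mul' := fun _ _ => rfl }
    have f : B j ≃* B i := by
      show Multiplicative (ZMod (p ^ e j)) ≃* Multiplicative (ZMod (p ^ e i))
      rw [hij]
    refine ⟨e i, (∀ k : {k : {k // k ≠ i} // k ≠ ⟨j, hji⟩}, B k), inferInstance, ?_, ⟨?_⟩⟩
    · by_contra h0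
      have h1 : e i = 0 := by omega
      have h2 := hn1 i
      simp only [h1, pow_zero] at h2
      exact lt_irrefl _ h2
    · exact ψ.trans (e1.trans ((MulEquiv.prodCongr (MulEquiv.refl _) e2).trans
        (MulEquiv.prodAssoc.symm.trans
          (MulEquiv.prodCongr (MulEquiv.prodCongr (MulEquiv.refl _) f) (MulEquiv.refl _)))))
  haveI : ∀ i, NeZero (p ^ e i) := fun i => ⟨(pow_pos hp.pos _).ne'⟩
  have hg : ∀ i, orderOf (Multiplicative.ofAdd (1 : ZMod (p ^ e i))) = p ^ e i := by
    intro i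
    rw [orderOf_ofAdd_eq_addOrderOf, ZMod.addOrderOf_one]
  have hgen : ∀ i (z : Multiplicative (ZMod (p ^ e i))),
      ∃ k : ℕ, z = Multiplicative.ofAdd (1 : ZMod (p ^ e i)) ^ k := by
    intro i z
    refine ⟨(Multiplicative.toAdd z).val, ?_⟩
    rw [← ofAdd_nsmul, nsmul_one, ZMod.natCast_zmod_val]
    rfl
  obtain ⟨N, hN⟩ := (IsPGroup.iff_card (G := ∀ i, Multiplicative (ZMod (p ^ e i)))).mp hG'
  have hN' : ∀ x : (∀ i, Multiplicative (ZMod (p ^ e i))), x ^ (p ^ N) = 1 := by
    intro x
    rw [← hN]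
    exact pow_card_eq_one'
  exact reach_of_equiv ψ (reach_top_of_step p N hN'
    (dsub_step_pi p e hinj (fun i => Multiplicative.ofAdd (1 : ZMod (p ^ e i))) hg hgen))

end structure_thm

end Cfsg.Agent.Lib.Helper26
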