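import Mathlib

/-!
# Automorphisms of `(A × A) × H` obstructing supersolubility (helper26)
-/

set_option autoImplicit false

namespace Cfsg.Agent.Lib.Helper26

section autom

variable {A : Type*} [CommGroup A]

theorem prodCongr_apply_pair {M M' N N' : Type*} [Group M] [Group M'] [Group N] [Group N']
    (f : M ≃* M') (g : N ≃* N') (z : M × N) : MulEquiv.prodCongr f g z = (f z.1, g z.2) := rfl

/-- signed permutation automorphisms of `A × A` -/
def signedPerm (A : Type*) [CommGroup A] : Subgroup (MulAut (A × A)) where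
  carrier := {f | ∃ a b : ℤ, a * a = 1 ∧ b * b = 1 ∧
    ((∀ x y : A, f (x, y) = (x ^ a, y ^ b)) ∨ (∀ x y : A, f (x, y) = (y ^ a, x ^ b)))}
  one_mem' := ⟨1, 1, by norm_num, by norm_num, Or.inl (fun x y => by simp)⟩
  mul_mem' := by
    rintro f g ⟨a, b, ha, hb, hf⟩ ⟨c, d, hc, hd, hg⟩
    rcases hf with hf | hf <;> rcases hg with hg | hg
    · refine ⟨c * a, d * b, ?_, ?_, Or.inl fun x y => ?_⟩
      · rw [mul_mul_mul_comm, hc, ha, mul_one]
      · rw [mul_mul_mul_comm, hd, hb, mul_one]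
      · rw [MulAut.mul_apply, hg, hf, ← zpow_mul, ← zpow_mul]
    · refine ⟨c * a, d * b, ?_, ?_, Or.inr fun x y => ?_⟩
      · rw [mul_mul_mul_comm, hc, ha, mul_one]
      · rw [mul_mul_mul_comm, hd, hb, mul_one]
      · rw [MulAut.mul_apply, hg, hf, ← zpow_mul, ← zpow_mul]
    · refine ⟨d * a, c * b, ?_, ?_, Or.inr fun x y => ?_⟩
      · rw [mul_mul_mul_comm, hd, ha, mul_one]
      · rw [mul_mul_mul_comm, hc, hb, mul_one]
      · rw [MulAut.mul_apply, hg, hf, ← zpow_mul, ← zpow_mul]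
    · refine ⟨d * a, c * b, ?_, ?_, Or.inl fun x y => ?_⟩
      · rw [mul_mul_mul_comm, hd, ha, mul_one]
      · rw [mul_mul_mul_comm, hc, hb, mul_one]
      · rw [MulAut.mul_apply, hg, hf, ← zpow_mul, ← zpow_mul]
  inv_mem' := by
    rintro f ⟨a, b, ha, hb, hf⟩
    rcases hf with hf | hf
    · refine ⟨a, b, ha, hb, Or.inl fun x y => ?_⟩
      rw [MulAut.inv_apply, MulEquiv.symm_apply_eq, hf, ← zpow_mul, ← zpow_mul, ha, hb,
        zpow_one, zpow_one]
    · refine ⟨b, a, hb, ha, Or.inr fun x y => ?_⟩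
      rw [MulAut.inv_apply, MulEquiv.symm_apply_eq, hf, ← zpow_mul, ← zpow_mul, ha, hb,
        zpow_one, zpow_one]

theorem signedPerm_pow_four (f : MulAut (A × A)) (hf : f ∈ signedPerm A) : f ^ 4 = 1 := by
  have hdiag : ∀ g : MulAut (A × A),
      (∃ a b : ℤ, a * a = 1 ∧ b * b = 1 ∧ ∀ x y : A, g (x, y) = (x ^ a, y ^ b)) → g * g = 1 := by
    rintro g ⟨a, b, ha, hb, hg⟩
    ext ⟨x, y⟩
    · rw [MulAut.mul_apply, hg, hg, ← zpow_mul, ← zpow_mul, ha, hb, zpow_one, zpow_one]
      rfl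
    · rw [MulAut.mul_apply, hg, hg, ← zpow_mul, ← zpow_mul, ha, hb, zpow_one, zpow_one]
      rfl
  have h4 : f ^ 4 = (f * f) * (f * f) := by rw [show (4 : ℕ) = 2 + 2 from rfl, pow_add, pow_two]
  rw [h4]
  obtain ⟨a, b, ha, hb, hf⟩ := hf
  rcases hf with hf | hf
  · rw [hdiag f ⟨a, b, ha, hb, hf⟩, mul_one]
  · apply hdiag
    refine ⟨b * a, a * b, ?_, ?_, fun x y => ?_⟩
    · rw [mul_mul_mul_comm, hb, ha, mul_one]
    · rw [mul_mul_mul_comm, ha, hb, mul_one]
    · rw [MulAut.mul_apply, hf, hf, ← zpow_mul, ← zpow_mul]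

theorem swap_mem_signedPerm : (MulEquiv.prodComm : A × A ≃* A × A) ∈ signedPerm A :=
  ⟨1, 1, by norm_num, by norm_num, Or.inr (fun x y => by simp)⟩

theorem negl_mem_signedPerm :
    (MulEquiv.prodCongr (MulEquiv.inv A) (MulEquiv.refl A) : A × A ≃* A × A) ∈ signedPerm A :=
  ⟨-1, 1, by norm_num, by norm_num, Or.inl (fun x y => by simp [prodCongr_apply_pair])⟩

/-- the automorphism `(x, y) ↦ (y, x⁻¹ y⁻¹)` of order `3` -/
def tauAut (A : Type*) [CommGroup A] : MulAut (A × A) where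
  toFun z := (z.2, z.1⁻¹ * z.2⁻¹)
  invFun z := (z.1⁻¹ * z.2⁻¹, z.1)
  left_inv z := by ext <;> simp
  right_inv z := by ext <;> simp
  map_mul' z w := by
    ext
    · rfl
    · simp only [Prod.snd_mul, Prod.fst_mul, mul_inv]
      exact mul_mul_mul_comm _ _ _ _

theorem tauAut_apply (z : A × A) : tauAut A z = (z.2, z.1⁻¹ * z.2⁻¹) := rfl

theorem tauAut_pow_three : tauAut A ^ 3 = 1 := by
  have h3 : tauAut A ^ 3 = tauAut A * (tauAut A * tauAut A) := by rw [pow_succ', pow_two]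
  rw [h3]
  ext ⟨x, y⟩
  · simp [MulAut.mul_apply, tauAut_apply]
  · simp [MulAut.mul_apply, tauAut_apply]

/-- lifting automorphisms of a direct factor -/
def autLift {G M N : Type*} [Group G] [Group M] [Group N] (ε : G ≃* M × N) :
    MulAut M →* MulAut G where
  toFun f := ε.trans ((MulEquiv.prodCongr f (MulEquiv.refl N)).trans ε.symm)
  map_one' := by
    ext x
    simp [prodCongr_apply_pair]
  map_mul' f g := by
    ext x
    simp [prodCongr_apply_pair]

theorem autLift_apply {G M N : Type*} [Group G] [Group M] [Group N] (ε : G ≃* M × N)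
    (f : MulAut M) (m : M) (n : N) : ε (autLift ε f (ε.symm (m, n))) = (f m, n) := by
  simp [autLift, prodCongr_apply_pair]

end autom

section bad

theorem exists_bad_aut_gen {G A H : Type*} [CommGroup G] [Finite G] [CommGroup A] [CommGroup H]
    (p : ℕ) [Fact p.Prime] (n : ℕ) (hn : 0 < n) (g : A) (hord : orderOf g = p ^ n)
    (ε : G ≃* (A × A) × H) :
    ∃ K : Subgroup (MulAut G), (Nat.card K).Coprime p ∧
      ¬ ((∀ a ∈ K, ∀ b ∈ K, a * b = b * a) ∧ ∀ h ∈ K, h ^ (p - 1) = 1) := by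
  classical
  have hp := (Fact.out : p.Prime)
  have hpdvd : p ∣ p ^ n := dvd_pow_self p hn.ne'
  by_cases h2 : p = 2
  · refine ⟨Subgroup.zpowers (autLift ε (tauAut A)), ?_, ?_⟩
    · rw [Nat.card_zpowers]
      have h3 : orderOf (autLift ε (tauAut A)) ∣ 3 := by
        apply orderOf_dvd_of_pow_eq_one
        rw [← map_pow, tauAut_pow_three, map_one]
      rw [h2]
      exact Nat.Coprime.coprime_dvd_left h3 (by norm_num)
    · rintro ⟨-, hpow⟩
      have h1 := hpow _ (Subgroup.mem_zpowers _)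
      have e1 : p - 1 = 1 := by omega
      rw [e1, pow_one] at h1
      have h4 := autLift_apply ε (tauAut A) (g, 1) 1
      rw [h1, MulAut.one_apply, ε.apply_symm_apply, tauAut_apply] at h4
      have h5 : g = 1 := congrArg (fun z => z.1.1) h4
      rw [← orderOf_eq_one_iff, hord] at h5
      rw [h5] at hpdvd
      exact hp.one_lt.ne' (Nat.dvd_one.mp hpdvd)
  · refine ⟨(signedPerm A).map (autLift ε), ?_, ?_⟩
    · have hP : IsPGroup 2 ((signedPerm A).map (autLift ε)) := by
        rintro ⟨x, f, hf, rfl⟩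
        refine ⟨2, Subtype.ext ?_⟩
        show (autLift ε f) ^ (2 ^ 2) = 1
        rw [← map_pow]
        have h4 : f ^ (2 ^ 2) = 1 := signedPerm_pow_four f hf
        rw [h4, map_one]
      obtain ⟨k, hk⟩ := (IsPGroup.iff_card).mp hP
      rw [hk]
      exact Nat.Coprime.pow_left k ((Nat.coprime_primes Nat.prime_two hp).mpr (Ne.symm h2))
    · rintro ⟨hcomm, -⟩
      set σ : MulAut (A × A) := MulEquiv.prodComm with hσ
      set δ : MulAut (A × A) := MulEquiv.prodCongr (MulEquiv.inv A) (MulEquiv.refl A) with hδ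
      have h1 := hcomm _ (Subgroup.mem_map_of_mem _ (swap_mem_signedPerm (A := A))) _
        (Subgroup.mem_map_of_mem _ (negl_mem_signedPerm (A := A)))
      rw [← map_mul, ← map_mul] at h1
      have h4 := autLift_apply ε (σ * δ) (1, g) 1
      have h5 := autLift_apply ε (δ * σ) (1, g) 1
      rw [h1, h5] at h4
      have h6 : (δ * σ) (1, g) = (σ * δ) (1, g) := congrArg Prod.fst h4
      rw [MulAut.mul_apply, MulAut.mul_apply] at h6
      have h7 : g⁻¹ = g := by
        have := congrArg Prod.fst h6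
        simpa [hσ, hδ, prodCongr_apply_pair] using this
      have h8 : g ^ 2 = 1 := by
        rw [pow_two]
        nth_rewrite 1 [← h7]
        exact inv_mul_cancel g
      have h9 := orderOf_dvd_of_pow_eq_one h8
      rw [hord] at h9
      exact h2 ((Nat.prime_dvd_prime_iff_eq hp Nat.prime_two).mp (hpdvd.trans h9))

theorem exists_bad_aut {G : Type*} [CommGroup G] [Finite G] (p : ℕ) [Fact p.Prime] (n : ℕ)
    (hn : 0 < n) {H : Type*} [CommGroup H]
    (ε : G ≃* (Multiplicative (ZMod (p ^ n)) × Multiplicative (ZMod (p ^ n))) × H) :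
    ∃ K : Subgroup (MulAut G), (Nat.card K).Coprime p ∧
      ¬ ((∀ a ∈ K, ∀ b ∈ K, a * b = b * a) ∧ ∀ h ∈ K, h ^ (p - 1) = 1) := by
  have hp := (Fact.out : p.Prime)
  haveI : NeZero (p ^ n) := ⟨(pow_pos hp.pos _).ne'⟩
  have hord : orderOf (Multiplicative.ofAdd (1 : ZMod (p ^ n))) = p ^ n := by
    rw [orderOf_ofAdd_eq_addOrderOf, ZMod.addOrderOf_one]
  exact exists_bad_aut_gen p n hn _ hord ε

end bad

end Cfsg.Agent.Lib.Helper26
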